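import Mathlib
import Cfsg.Agent.H25.PF6e
import Cfsg.Agent.H21.Column
import Cfsg.Agent.H21.Height
import Cfsg.Agent.H08.SecChar
import Cfsg.Agent.H05.AutC

/-! The principal block when the Sylow normalizer is a Frobenius group modulo its core, controls fusion of
elements, and the centralizers of `p`-elements have normal `p`-complements: the isometry `tau`. -/

set_option autoImplicit false
set_option linter.unusedSectionVars false

open H05 H25 Cfsg Classical
open scoped ComplexConjugate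

namespace H17.BR

variable {G L : Type*} [Group G] [Fintype G] [Group L] [Fintype L] {p : ℕ} [hp : Fact p.Prime] {K : Subgroup L}
  [hK : K.Normal] {j : K →* G} {M : Ideal AlgInt}

/-- `j` embeds the Frobenius kernel `K` of `L` as a Sylow subgroup of `G` with the same fusion of elements. -/
structure Hy (p : ℕ) (K : Subgroup L) (j : K →* G) : Prop where
  pg : IsPGroup p K
  frob : ∀ h ∈ K, h ≠ 1 → ∀ x : L, Commute x h → x ∈ K
  syl : ∀ g : G, (∃ k, orderOf g = p ^ k) → ∃ a : K, IsConj (j a) g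
  fus : ∀ a b : K, IsConj (j a) (j b) ↔ IsConj (a : L) (b : L)
  npc : ∀ a : K, a ≠ 1 → HasNormalPComplement p (Subgroup.centralizer ({j a} : Set G))
  cc : ∀ a : K, a ≠ 1 → p ^ (Nat.card (Subgroup.centralizer ({j a} : Set G))).factorization p =
    Nat.card (Subgroup.centralizer ({(a : L)} : Set L))

/-- the restriction of `χ` along `j`, extended by zero -/
noncomputable def ex (j : K →* G) (χ : G → ℂ) : L → ℂ := extendByZero K fun k => χ (j k)

theorem ex_coe (χ : G → ℂ) (a : K) : ex j χ a = χ (j a) := H06.extendByZero_coe K _ a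

theorem ex_one (χ : G → ℂ) : ex j χ 1 = χ 1 := by
  have := ex_coe (j := j) χ 1
  rwa [map_one] at this

theorem ex_supp (χ : G → ℂ) : SuppIn (ex j χ) K := fun _ h => H06.extendByZero_of_notMem K _ h

/-- the principal block as a finite set -/
noncomputable def PB (M : Ideal AlgInt) (G : Type*) [Group G] [Fintype G] : Finset (IrrCharacter G) :=
  Finset.univ.filter fun χ => χ ∈ principalBlock M G

theorem mem_PB {χ : IrrCharacter G} : χ ∈ PB M G ↔ χ ∈ principalBlock M G := by simp [PB]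

theorem ip_PB (a : IrrCharacter G → ℂ) (ψ : IrrCharacter G) :
    ⟪∑ χ ∈ PB M G, a χ • (χ : G → ℂ), ψ⟫ = if ψ ∈ PB M G then a ψ else 0 := by
  rw [ip_sum_left]
  simp only [ip_smul_left, classInner_irr, mul_ite, mul_one, mul_zero, Finset.sum_ite_eq']

namespace Hy
variable (h : Hy p K j)
include h

/-- an element of `K` representing the `p`-part -/
noncomputable def rep (g : G) : K := (h.syl _ (H21.orderOf_pPart p g)).choose

theorem rep_spec (g : G) : IsConj (j (h.rep g)) (H21.pPart p g) := (h.syl _ (H21.orderOf_pPart p g)).choose_spec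

theorem ord (a : K) : ∃ k, orderOf (j a) = p ^ k := by
  obtain ⟨k, hk⟩ := IsPGroup.iff_orderOf.1 h.pg a
  exact ((Nat.dvd_prime_pow hp.out).1 (hk ▸ orderOf_map_dvd j a)).imp fun _ h => h.2

theorem rep_of {a : K} {g : G} (e : IsConj (j a) (H21.pPart p g)) : IsConj (h.rep g : L) a :=
  (h.fus _ _).1 ((h.rep_spec g).trans e.symm)

theorem rep_j (a : K) : IsConj (h.rep (j a) : L) a := h.rep_of (by rw [H21.pPart_of_pow (h.ord a)])

theorem rep_one : (h.rep 1 : L) = 1 := by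
  have := h.rep_j 1
  rwa [map_one, Subgroup.coe_one, isConj_one_left] at this

theorem j_ne {a : K} (h1 : a ≠ 1) : j a ≠ 1 := fun e => h1 (by
  have := (h.fus a 1).1 (by rw [e, map_one])
  rw [Subgroup.coe_one, isConj_one_left] at this
  exact Subtype.ext this)

theorem ex_cf {χ : G → ℂ} (hχ : IsCF χ) : IsCF (ex j χ) := fun g x => by
  by_cases hg : g ∈ K
  · exact (ex_coe χ ⟨_, hK.conj_mem g hg x⟩).trans (((hχ.isConj ((h.fus ⟨g, hg⟩ _).2 (isConj_iff.2 ⟨x, rfl⟩))).symm).trans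
      (ex_coe χ ⟨g, hg⟩).symm)
  · rw [ex_supp χ g hg, ex_supp χ _ fun e => hg (by simpa [mul_assoc] using hK.conj_mem _ e x⁻¹)]

/-- the isometry -/
noncomputable def tau : (L → ℂ) →ₗ[ℂ] (G → ℂ) := LinearMap.funLeft ℂ ℂ fun g => (h.rep g : L)

theorem tau_apply (α : L → ℂ) (g : G) : h.tau α g = α (h.rep g) := rfl

theorem tau_j {α : L → ℂ} (hα : IsCF α) (a : K) : h.tau α (j a) = α a := hα.isConj (h.rep_j a)

theorem val (hM : IsPModular p M) {χ : IrrCharacter G} (hχ : χ ∈ PB M G) {a : K} (h1 : a ≠ 1) {g : G}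
    (e : IsConj (j a) (H21.pPart p g)) : (χ : G → ℂ) g = (χ : G → ℂ) (j a) :=
  H21.principal_apply_of_isConj hM (mem_PB.1 hχ) e (h.npc a h1)

theorem col (hM : IsPModular p M) (g : G) {a : K} (h1 : a ≠ 1) :
    ∑ χ ∈ PB M G, (χ : G → ℂ) g * conj ((χ : G → ℂ) (j a)) =
      if IsConj (h.rep g : L) a then (Nat.card (Subgroup.centralizer ({(a : L)} : Set L)) : ℂ) else 0 := by
  split_ifs with e
  · rw [← h.cc a h1, ← H21.lamP_of_hasNPC hM (h.npc a h1), ← H21.sum_principal_col_of_isConj hM (h.ord a) (IsConj.refl _)]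
    exact Finset.sum_congr rfl fun χ hχ => by rw [h.val hM hχ h1 (((h.fus _ _).2 e.symm).trans (h.rep_spec g))]
  · refine H21.sum_principal_of_ne hM fun c => e (h.rep_of ?_)
    rw [H21.pPart_of_pow (h.ord a)] at c
    exact c.symm

theorem expand (hM : IsPModular p M) {α : L → ℂ} (hα : IsCF α) (hs : SuppIn α K) (h1 : α 1 = 0) :
    h.tau α = ∑ χ ∈ PB M G, ⟪α, ex j χ⟫ • (χ : G → ℂ) := by
  funext g
  have hL := card_ne_zero_complex (G := L)
  rw [Finset.sum_apply, tau_apply]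
  simp only [Pi.smul_apply, smul_eq_mul, classInner_def, Finset.sum_mul, mul_assoc, ← Finset.mul_sum]
  rw [Finset.sum_comm, eq_inv_mul_iff_mul_eq₀ hL, ← (Subgroup.centralizer ({(h.rep g : L)} : Set L)).card_mul_index,
    Nat.cast_mul, mul_assoc, ← hα.sum_ite_isConj, Finset.mul_sum]
  refine Finset.sum_congr rfl fun l _ => ?_
  by_cases h0 : α l = 0
  · simp [h0]
  have hl : l ∈ K := by_contra fun c => h0 (hs l c)
  have l1 : (⟨l, hl⟩ : K) ≠ 1 := fun c => h0 (by rw [show l = 1 from congrArg Subtype.val c, h1])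
  have := h.col hM g l1
  simp only [mul_comm ((_ : G → ℂ) g), ← ex_coe] at this
  rw [← Finset.mul_sum, this]
  split_ifs with e
  · rw [card_centralizer_eq_of_isConj e, mul_comm]
  · simp

theorem recip (hM : IsPModular p M) {α : L → ℂ} (hα : IsCF α) (hs : SuppIn α K) (h1 : α 1 = 0) (χ : IrrCharacter G) :
    ⟪h.tau α, χ⟫ = if χ ∈ PB M G then ⟪α, ex j χ⟫ else 0 := by
  rw [h.expand hM hα hs h1, ip_PB]

theorem iso (hM : IsPModular p M) {α β : L → ℂ} (hα : IsCF α) (hs : SuppIn α K) (h1 : α 1 = 0) (hβ : IsCF β)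
    (hs' : SuppIn β K) (h1' : β 1 = 0) : ⟪h.tau α, h.tau β⟫ = ⟪α, β⟫ := by
  have e : β = ∑ χ ∈ PB M G, ⟪β, ex j χ⟫ • ex j χ := by
    funext l
    rw [Finset.sum_apply]
    by_cases hl : l ∈ K
    · have := congrFun (h.expand hM hβ hs' h1') (j ⟨l, hl⟩)
      rw [h.tau_j hβ, Finset.sum_apply] at this
      exact this.trans (Finset.sum_congr rfl fun χ _ => by rw [Pi.smul_apply, Pi.smul_apply, ← ex_coe (j := j) χ.1])
    · rw [hs' l hl, Finset.sum_eq_zero fun χ _ => by rw [Pi.smul_apply, ex_supp _ l hl, smul_zero]]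
  rw [h.expand hM hβ hs' h1']
  conv_rhs => rw [e]
  rw [ip_sum_right, ip_sum_right]
  exact Finset.sum_congr rfl fun χ hχ => by rw [ip_smul_right, ip_smul_right, h.recip hM hα hs h1, if_pos hχ]

theorem ip_int {Z : Subgroup L} {α : L → ℂ} (hα : α ∈ zspan (sInd K Z ⊥ : Set (L → ℂ))) (χ : IrrCharacter G) :
    ∃ n : ℤ, ⟪α, ex j χ⟫ = n := by
  refine zspan_induction (p := fun α => ∃ n : ℤ, ⟪α, ex j χ⟫ = n) hα (fun φ hφ => ?_) ⟨0, by simp⟩
    (fun _ _ ⟨a, ha⟩ ⟨b, hb⟩ => ⟨a + b, by rw [ip_add_left, ha, hb]; simp⟩) fun _ ⟨a, ha⟩ => ⟨-a, by rw [ip_neg_left, ha]; simp⟩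
  obtain ⟨θ, h1, -, -, rfl⟩ := mem_sInd.1 hφ
  rw [H06.frobenius_reciprocity K θ _ (h.ex_cf χ.2.isClassFunction)]
  simp only [ex_coe]
  exact vc_ip_int h1.isGeneralizedCharacter (χ.2.isCharacter.comp j).isGeneralizedCharacter

omit h in
theorem zs {Z : Subgroup L} {α : L → ℂ} (hα : α ∈ zspan (sInd K Z ⊥ : Set (L → ℂ))) : IsCF α ∧ SuppIn α K :=
  ⟨(zspan_vc (fun _ hχ => (sInd_isCh hχ).isGeneralizedCharacter) hα).isClassFunction,
    zspan_suppIn (fun _ hχ => sInd_suppIn hχ) hα⟩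

theorem preCoh (hM : IsPModular p M) (Z : Subgroup L) : PF6.PreCoh (sInd K Z ⊥ : Set (L → ℂ)) h.tau := by
  refine ⟨fun _ => sInd_isCh, fun _ => sInd_ne_zero, fun α a a1 β b b1 => h.iso hM (zs a).1 (zs a).2 a1 (zs b).1 (zs b).2 b1,
    fun α a a1 => ?_, fun α _ a1 => by rw [tau_apply, h.rep_one, a1], fun _ a _ b => sInd_orth a b⟩
  rw [h.expand hM (zs a).1 (zs a).2 a1]
  refine IsGeneralizedCharacter.sum _ fun χ _ => ?_
  obtain ⟨n, hn⟩ := h.ip_int a χ
  exact hn ▸ χ.2.isGeneralizedCharacter.intCast_smul n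

end Hy

end H17.BR
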