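import Mathlib
import Cfsg.Agent.H17.BR1
import Cfsg.Agent.H01.PPairA

/-! Exceptional characters of the principal block belonging to a central subgroup of the Sylow subgroup. -/

set_option autoImplicit false
set_option linter.unusedSectionVars false

open H05 H25 Cfsg Classical
open scoped ComplexConjugate

namespace H17.BR

variable {G L : Type*} [Group G] [Fintype G] [Group L] [Fintype L] {p : ℕ} [hp : Fact p.Prime] {K : Subgroup L}
  [hK : K.Normal] {j : K →* G} {M : Ideal AlgInt} {Z : Subgroup L} [hZ : Z.Normal] {ν : (L → ℂ) →ₗ[ℂ] (G → ℂ)}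

/-- coherence data -/
structure Co (h : Hy p K j) (M : Ideal AlgInt) (Z : Subgroup L) (ν : (L → ℂ) →ₗ[ℂ] (G → ℂ)) : Prop where
  md : IsPModular p M
  le : Z ≤ K
  cen : ∀ z ∈ Z, ∀ k ∈ K, z * k = k * z
  coh : CohWith (sInd K Z ⊥ : Set (L → ℂ)) h.tau ν
  two : 1 < (sInd K Z ⊥).card

theorem deg_ne_one [IsSimpleGroup G] (hna : ¬ IsMulCommutative G) {χ : IrrCharacter G} (h1 : χ ≠ H21.irrOne G) :
    (χ : G → ℂ) 1 ≠ 1 := fun e => hna ⟨⟨fun a b => by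
  have k := χ.2.charKer_eq_bot_of_simple fun e' => h1 (Subtype.ext e')
  have m := χ.2.isCharacter.apply_mul_of_apply_one e
  have : a * b * (b * a)⁻¹ ∈ charKer (χ : G → ℂ) := by
    rw [χ.2.isCharacter.mem_charKer, m, χ.2.isCharacter.apply_mul_comm a b, ← m, mul_inv_cancel]
  rwa [k, Subgroup.mem_bot, mul_inv_eq_one] at this⟩⟩

theorem val_ne [IsSimpleGroup G] {χ : IrrCharacter G} (h1 : χ ≠ H21.irrOne G) {g : G} (hg : g ≠ 1) :
    (χ : G → ℂ) g ≠ (χ : G → ℂ) 1 := fun e => hg (by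
  rw [← Subgroup.mem_bot, ← χ.2.charKer_eq_bot_of_simple fun e' => h1 (Subtype.ext e'), χ.2.isCharacter.mem_charKer, e])

namespace Co
variable {h : Hy p K j} (c : Co h M Z ν)
include c

theorem irr {ξ : L → ℂ} (hξ : ξ ∈ sInd K Z ⊥) : IsIrr ξ := PF6.frob_sInd_irr h.frob ξ (sInd_mono c.le le_rfl hξ)

theorem cross {ξ η : L → ℂ} (hξ : ξ ∈ sInd K Z ⊥) (hη : η ∈ sInd K Z ⊥) :
    η 1 • ν ξ - ξ 1 • ν η = h.tau (η 1 • ξ - ξ 1 • η) := by
  obtain ⟨a, b⟩ := (h.preCoh c.md Z).cross_mem hξ hη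
  rw [← c.coh.eq _ a b, map_sub, map_smul, map_smul]

theorem cross_ip {ξ η : L → ℂ} (hξ : ξ ∈ sInd K Z ⊥) (hη : η ∈ sInd K Z ⊥) (χ : IrrCharacter G) :
    η 1 * ⟪ν ξ, χ⟫ - ξ 1 * ⟪ν η, χ⟫ = if χ ∈ PB M G then η 1 * ⟪ξ, ex j χ⟫ - ξ 1 * ⟪η, ex j χ⟫ else 0 := by
  obtain ⟨a, b⟩ := (h.preCoh c.md Z).cross_mem hξ hη
  have := h.recip c.md (Hy.zs a).1 (Hy.zs a).2 b χ
  rwa [← c.cross hξ hη, ip_sub_left, ip_sub_left, ip_smul_left, ip_smul_left, ip_smul_left, ip_smul_left] at this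

theorem cross_one {ξ η : L → ℂ} (hξ : ξ ∈ sInd K Z ⊥) (hη : η ∈ sInd K Z ⊥) : η 1 * ν ξ 1 = ξ 1 * ν η 1 := by
  have := congrFun (c.cross hξ hη) 1
  rw [h.tau_apply, h.rep_one] at this
  simp only [Pi.sub_apply, Pi.smul_apply, smul_eq_mul] at this
  linear_combination this

theorem cross_j {ξ η : L → ℂ} (hξ : ξ ∈ sInd K Z ⊥) (hη : η ∈ sInd K Z ⊥) (a : K) :
    η 1 * ν ξ (j a) - ξ 1 * ν η (j a) = η 1 * ξ a - ξ 1 * η a := by
  have := congrFun (c.cross hξ hη) (j a)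
  rwa [h.tau_j (Hy.zs ((h.preCoh c.md Z).cross_mem hξ hη).1).1] at this

theorem exc : ∃ (f : (L → ℂ) → IrrCharacter G) (ε : (L → ℂ) → ℂ), Set.InjOn f (sInd K Z ⊥) ∧
    (∀ ξ ∈ sInd K Z ⊥, (ε ξ = 1 ∨ ε ξ = -1) ∧ ν ξ = ε ξ • (f ξ : G → ℂ) ∧ f ξ ∈ PB M G ∧ f ξ ≠ H21.irrOne G) ∧
    ∀ χ ∉ (sInd K Z ⊥).image f, ∀ ξ ∈ sInd K Z ⊥, ⟪ν ξ, χ⟫ = 0 := by
  have k : ∀ ξ : L → ℂ, ∃ (χ : IrrCharacter G) (ε : ℂ), ξ ∈ sInd K Z ⊥ → (ε = 1 ∨ ε = -1) ∧ ν ξ = ε • (χ : G → ℂ) := by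
    intro ξ
    by_cases hξ : ξ ∈ sInd K Z ⊥
    · rcases c.coh.sirr hξ (c.irr hξ) with e | e
      · exact ⟨⟨_, e⟩, 1, fun _ => ⟨.inl rfl, by simp⟩⟩
      · exact ⟨⟨_, e⟩, -1, fun _ => ⟨.inr rfl, by simp⟩⟩
    · exact ⟨H21.irrOne G, 1, fun e => absurd e hξ⟩
  choose f ε k using k
  have e0 : ∀ ξ ∈ sInd K Z ⊥, ε ξ ≠ 0 := fun ξ hξ => by rcases (k ξ hξ).1 with e | e <;> simp [e]
  have o : ∀ ξ ∈ sInd K Z ⊥, ∀ η ∈ sInd K Z ⊥, η ≠ ξ → ⟪ν η, f ξ⟫ = 0 := fun ξ hξ η hη ne => by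
    have := c.coh.iso η hη ξ hξ
    rw [sInd_orth hη hξ ne, (k ξ hξ).2, ip_smul_right, mul_eq_zero, map_eq_zero] at this
    exact this.resolve_left (e0 ξ hξ)
  have s : ∀ ξ ∈ sInd K Z ⊥, ⟪ν ξ, f ξ⟫ = ε ξ := fun ξ hξ => by
    rw [(k ξ hξ).2, ip_smul_left, (f ξ).2.classInner_self, mul_one]
  refine ⟨f, ε, fun ξ hξ η hη e => by_contra fun ne => e0 ξ hξ (by rw [← s ξ hξ, e, o η hη ξ hξ ne]), fun ξ hξ => ?_,
    fun χ hχ ξ hξ => ?_⟩
  · obtain ⟨η, hη, ne⟩ := Finset.exists_mem_ne c.two ξ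
    have := c.cross_ip hξ hη (f ξ)
    rw [s ξ hξ, o ξ hξ η hη ne, mul_zero, sub_zero] at this
    have n0 := mul_ne_zero (sInd_one_ne_zero hη) (e0 ξ hξ)
    refine ⟨(k ξ hξ).1, (k ξ hξ).2, by_contra fun m => n0 (by rw [this, if_neg m]), fun e => n0 ?_⟩
    have z : ∀ φ ∈ sInd K Z ⊥, ⟪φ, ex j (H21.irrOne G)⟫ = 0 := fun φ hφ => by
      rw [← sInd_ip_one hφ]
      obtain ⟨θ, -, -, -, rfl⟩ := mem_sInd.1 hφ
      rw [H06.frobenius_reciprocity K θ _ (h.ex_cf (H21.irrOne G).2.isClassFunction), ip_ind_one]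
      simp only [ex_coe]
      rfl
    rw [this, e, z ξ hξ, z η hη]
    simp
  · rw [(k ξ hξ).2, ip_smul_left, (f ξ).2.classInner_of_ne χ.2 fun e => hχ (Finset.mem_image.2 ⟨ξ, hξ, Subtype.ext e⟩),
      mul_zero]

theorem sum_at (x : L) : ∑ φ ∈ sInd K Z ⊥, φ 1 * φ x =
    (K.index : ℂ) * ((if x = 1 then (Nat.card K : ℂ) else 0) - if x ∈ Z then (Z.relIndex K : ℂ) else 0) := by
  have := sInd_sum_apply (K := K) (H := Z) (M := ⊥) c.le bot_le x
  rw [sup_bot_eq, Subgroup.relIndex_bot_left] at this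
  simp only [Subgroup.mem_bot] at this
  rw [← this]
  exact Finset.sum_congr rfl fun φ hφ => by rw [irr_nsq (c.irr hφ)]; simp

theorem diff {χ : IrrCharacter G} (hχ : χ ∈ PB M G) (ho : ∀ ξ ∈ sInd K Z ⊥, ⟪ν ξ, χ⟫ = 0) {η : L → ℂ}
    (hη : η ∈ sInd K Z ⊥) {z : K} (hz : (z : L) ∈ Z) (h1 : z ≠ 1) :
    η 1 * ((χ : G → ℂ) 1 - (χ : G → ℂ) (j z)) = ⟪ex j χ, η⟫ * (K.index * Nat.card K) := by
  have z1 : (z : L) ≠ 1 := fun e => h1 (Subtype.ext e)
  have hκ : ∀ ξ ∈ sInd K Z ⊥, η 1 * ⟪ex j χ, ξ⟫ = ξ 1 * ⟪ex j χ, η⟫ := fun ξ hξ => by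
    have e := c.cross_ip hξ hη χ
    rw [if_pos hχ, ho ξ hξ, ho η hη] at e
    have e' := congrArg conj e
    simp only [map_sub, map_mul, conj_ip, (sInd_isCh hξ).conj_apply_one, (sInd_isCh hη).conj_apply_one, map_zero] at e'
    linear_combination -e'
  have e := cf_eq_sum_sInd (K := K) (h.ex_cf χ.2.isClassFunction) (ex_supp (j := j) χ)
  rw [← Finset.sum_sdiff (sInd_mono c.le le_rfl : sInd K Z ⊥ ⊆ sInd K K ⊥)] at e
  have e1 := congrFun e 1
  have e2 := congrFun e z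
  rw [ex_one] at e1
  rw [ex_coe] at e2
  simp only [Pi.add_apply, Finset.sum_apply, Pi.smul_apply, smul_eq_mul] at e1 e2
  rw [(inKer_iff_ind c.le isIrrCharacter_one).1 (inKer_one Z) _ hz, Finset.sum_congr rfl fun φ hφ => by
    rw [PF6.sInd_apply_of_mem c.le (by_contra fun h4 => (Finset.mem_sdiff.1 hφ).2
      ((PF6.mem_sInd_bot_iff c.le).2 ⟨(Finset.mem_sdiff.1 hφ).1, h4⟩)) hz]] at e2
  have s1 := c.sum_at 1
  have s2 := c.sum_at z
  rw [if_pos rfl, if_pos Z.one_mem] at s1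
  rw [if_neg z1, if_pos hz] at s2
  have t : ∀ x, η 1 * ∑ φ ∈ sInd K Z ⊥, ⟪ex j χ, φ⟫ / (nsq φ : ℂ) * φ x = ⟪ex j χ, η⟫ * ∑ φ ∈ sInd K Z ⊥, φ 1 * φ x := by
    intro x
    rw [Finset.mul_sum, Finset.mul_sum]
    exact Finset.sum_congr rfl fun φ hφ => by
      rw [irr_nsq (c.irr hφ), Complex.ofReal_one, div_one, ← mul_assoc, hκ φ hφ]; ring
  linear_combination η 1 * e1 - η 1 * e2 + t 1 - t z + ⟪ex j χ, η⟫ * (s1 - s2)

theorem cK {x : K} (hx : (x : L) ∈ Z) (x1 : x ≠ 1) : Subgroup.centralizer ({(x : L)} : Set L) = K :=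
  le_antisymm (fun y hy => h.frob _ x.2 (fun e => x1 (Subtype.ext e)) y (Subgroup.mem_centralizer_singleton_iff.1 hy))
    fun y hy => Subgroup.mem_centralizer_singleton_iff.2 (c.cen _ hx y hy).symm

theorem col1 {x : K} (x1 : x ≠ 1) : ∑ χ ∈ PB M G, (χ : G → ℂ) 1 * conj ((χ : G → ℂ) (j x)) = 0 := by
  rw [h.col c.md 1 x1, if_neg]
  rw [h.rep_one, isConj_one_right]
  exact fun e => x1 (Subtype.ext e)

theorem degs : ∃ n : (L → ℂ) → ℕ, (∀ ξ ∈ sInd K Z ⊥, ξ 1 = K.index * n ξ ∧ n ξ ^ 2 ∣ Z.relIndex K) ∧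
    K.index * ∑ ξ ∈ sInd K Z ⊥, n ξ ^ 2 + Z.relIndex K = Nat.card K := by
  obtain ⟨m, hm⟩ := IsPGroup.iff_card.1 h.pg
  obtain ⟨k, -, hk⟩ := (Nat.dvd_prime_pow hp.out).1 (hm ▸ Subgroup.relIndex_dvd_card Z K)
  have hdeg : ∀ χ ∈ sInd K Z ⊥, ∃ n : ℕ, χ 1 = K.index * n ∧ n ^ 2 ∣ Z.relIndex K := by
    intro χ hχ
    obtain ⟨n, -, h1, h2, h3⟩ := PF6.deg_sq_le (B := ⊥) bot_le c.le le_rfl
      (fun x hx y hy => by rw [c.cen x hx y hy]; simp) hχ
    obtain ⟨d, -, rfl⟩ := (Nat.dvd_prime_pow hp.out).1 (hm ▸ h3)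
    refine ⟨_, h1.trans (Nat.cast_mul _ _), ?_⟩
    rw [Subgroup.relIndex_self, one_pow, one_mul, hk, ← pow_mul] at h2
    rw [hk, ← pow_mul]
    exact pow_dvd_pow p ((Nat.pow_le_pow_iff_right hp.out.one_lt).1 h2)
  choose! n hn using hdeg
  refine ⟨n, hn, ?_⟩
  have s := c.sum_at 1
  rw [if_pos rfl, if_pos Z.one_mem, Finset.sum_congr rfl fun ξ hξ => by rw [(hn ξ hξ).1]] at s
  have e0 : (K.index : ℂ) ≠ 0 := Nat.cast_ne_zero.2 Subgroup.index_ne_zero_of_finite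
  have : ((K.index * ∑ ξ ∈ sInd K Z ⊥, n ξ ^ 2 + Z.relIndex K : ℕ) : ℂ) = Nat.card K := by
    apply mul_left_cancel₀ e0
    push_cast
    rw [mul_add, Finset.mul_sum, Finset.mul_sum, Finset.sum_congr rfl (g := fun ξ => (K.index : ℂ) * n ξ * (K.index * n ξ))
      fun ξ _ => by ring, s]
    ring
  exact_mod_cast this

theorem caseA [IsSimpleGroup G] (hna : ¬ IsMulCommutative G) {x w : K} (hx : (x : L) ∈ Z) (hw : (w : L) ∈ Z) (x1 : x ≠ 1)
    (w1 : w ≠ 1) (sig : ∀ b d : G, ∃ y : K, (y : L) ∈ Z ∧ y ≠ 1 ∧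
      IsConj (j y) (H21.pPart p (d * j x * d⁻¹ * (b * j w * b⁻¹)))) : False := by
  obtain ⟨f, ε, inj, hf, ho⟩ := c.exc
  obtain ⟨η, hη⟩ := Finset.card_pos.1 (one_pos.trans c.two)
  have η0 := sInd_one_ne_zero hη
  have van : ∀ χ ∈ PB M G, χ ∉ insert (H21.irrOne G) ((sInd K Z ⊥).image f) →
      (χ : G → ℂ) 1 * conj ((χ : G → ℂ) (j x)) = 0 := by
    intro χ hχ hn
    rw [Finset.mem_insert, not_or] at hn
    have cst : ∀ y : K, (y : L) ∈ Z → y ≠ 1 → (χ : G → ℂ) (j y) = (χ : G → ℂ) (j x) := fun y hy y1 =>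
      mul_left_cancel₀ η0 (by linear_combination c.diff hχ (ho χ hn.2) hη hx x1 - c.diff hχ (ho χ hn.2) hη hy y1)
    have ps := H08.pairSum_irr χ.2 (j x) (j w)
    rw [H08.pairSum, Finset.sum_congr rfl (g := fun _ => ∑ _d : G, (χ : G → ℂ) (j x)) fun b _ =>
      Finset.sum_congr rfl fun d _ => by
        obtain ⟨y, y0, y1, y2⟩ := sig b d
        rw [h.val c.md hχ y1 y2, cst y y0 y1], cst w hw w1] at ps
    simp only [Finset.sum_const, Finset.card_univ, nsmul_eq_mul, ← Nat.card_eq_fintype_card] at ps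
    have n0 := χ.2.apply_one_ne_zero
    have g0 := card_ne_zero_complex (G := G)
    have : (χ : G → ℂ) (j x) * ((χ : G → ℂ) (j x) - (χ : G → ℂ) 1) = 0 := by
      field_simp at ps
      linear_combination -ps
    rw [(mul_eq_zero.1 this).resolve_right (sub_ne_zero.2 (val_ne hn.1 (h.j_ne x1))), map_zero, mul_zero]
  have s := c.col1 x1
  have := c.md.2.1
  rw [← Finset.sum_subset (Finset.insert_subset (mem_PB.2 H21.one_mem_principal)
    (Finset.image_subset_iff.2 fun ξ hξ => (hf ξ hξ).2.2.1)) van, Finset.sum_insert (fun e => by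
      obtain ⟨ξ, hξ, e⟩ := Finset.mem_image.1 e
      exact (hf ξ hξ).2.2.2 e), Finset.sum_image inj,
    Finset.sum_congr rfl (g := fun ξ => ν ξ 1 * conj (ν ξ (j x))) fun ξ hξ => by
      rw [(hf ξ hξ).2.1]
      rcases (hf ξ hξ).1 with e | e <;> simp [e]] at s
  obtain ⟨n, hn, hT⟩ := c.degs
  obtain ⟨t, ht⟩ := (hn η hη).2
  obtain ⟨u, hu⟩ : n η ^ 2 ∣ ∑ ξ ∈ sInd K Z ⊥, n ξ ^ 2 := by
    have d := (hn η hη).2.trans (Subgroup.relIndex_dvd_card Z K)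
    refine ((PF6.frob_coprime h.frob).coprime_dvd_right d).symm.dvd_of_dvd_mul_left ?_
    exact (Nat.dvd_add_left (hn η hη).2).1 (hT ▸ d)
  set γ := ν η (j x) - η x with hγ
  have iγ : IsIntegral ℤ (conj γ) := (((c.coh.vc η hη).isIntegral _).sub ((c.irr hη).isIntegral _)).map (starRingEnd ℂ).toIntAlgHom
  have s2 := congrArg conj (c.sum_at x)
  rw [if_neg (show (x : L) ≠ 1 from fun e => x1 (Subtype.ext e)), if_pos hx, map_sum, Finset.sum_congr rfl (g := fun ξ => ξ 1 * conj (ξ x))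
    fun ξ hξ => by rw [map_mul, (sInd_isCh hξ).conj_apply_one], ht] at s2
  have s3 : ∑ ξ ∈ sInd K Z ⊥, ξ 1 * ξ 1 = (K.index : ℂ) ^ 2 * (n η ^ 2 * u : ℕ) := by
    rw [← hu, Nat.cast_sum, Finset.mul_sum]
    exact Finset.sum_congr rfl fun ξ hξ => by rw [(hn ξ hξ).1]; push_cast; ring
  have s4 : η 1 ^ 2 * ∑ ξ ∈ sInd K Z ⊥, ν ξ 1 * conj (ν ξ (j x)) =
      ν η 1 * (η 1 * ∑ ξ ∈ sInd K Z ⊥, ξ 1 * conj (ξ x) + conj γ * ∑ ξ ∈ sInd K Z ⊥, ξ 1 * ξ 1) := by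
    simp only [Finset.mul_sum, ← Finset.sum_add_distrib]
    refine Finset.sum_congr rfl fun ξ hξ => ?_
    have a := congrArg conj (c.cross_j hξ hη x)
    simp only [map_sub, map_mul, (sInd_isCh hξ).conj_apply_one, (sInd_isCh hη).conj_apply_one] at a
    rw [hγ, map_sub]
    linear_combination (η 1 * conj (ν ξ (j x))) * c.cross_one hξ hη + (ξ 1 * ν η 1) * a
  have D := (f η).2.charDegree_eq
  have D0 := (f η).2.charDegree_pos
  have k : ((1 : ℤ) : ℂ) / (charDegree (f η : G → ℂ) : ℤ) = ε η * (n η * t - conj γ * u) := by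
    have e1 : ν η 1 = ε η * charDegree (f η : G → ℂ) := by rw [(hf η hη).2.1, D]; rfl
    rw [s2, s3, e1] at s4
    simp only [H21.irrOne_apply, map_one, mul_one, map_mul, map_natCast, zero_sub, map_neg] at s s4
    rw [div_eq_iff (by exact_mod_cast D0.ne')]
    apply mul_left_cancel₀ (pow_ne_zero 2 η0)
    rw [eq_neg_of_add_eq_zero_right s, (hn η hη).1] at s4
    rw [(hn η hη).1]
    push_cast at s4 ⊢
    linear_combination -s4
  have iε : IsIntegral ℤ (ε η) := by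
    rcases (hf η hη).1 with e | e <;> rw [e]
    exacts [isIntegral_one, isIntegral_one.neg]
  have := int_dvd_of_isIntegral_div (by exact_mod_cast D0.ne') (k ▸ iε.mul
    (((isIntegral_natCast _).mul (isIntegral_natCast _)).sub (iγ.mul (isIntegral_natCast _))))
  exact deg_ne_one hna (hf η hη).2.2.2 (by
    rw [← D, Nat.dvd_one.1 (show charDegree (f η : G → ℂ) ∣ 1 by exact_mod_cast this), Nat.cast_one])

theorem caseB [IsSimpleGroup G] (hp3 : 3 ≤ p) (hab : ∀ ξ ∈ sInd K Z ⊥, ξ 1 = K.index)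
    (one : ∀ z ∈ Z, ∀ y ∈ Z, z ≠ 1 → y ≠ 1 → IsConj z y) {x : K} (hx : (x : L) ∈ Z) (ox : orderOf x = p)
    (sig : ∀ b d : G, ∃ u v : K, (u : L) ∈ Z ∧ (v : L) ∈ Z ∧ orderOf v = p ∧
      ∀ i : ℕ, IsConj (j (u * v ^ i)) (H21.pPart p (d * j x * d⁻¹ * (b * j x ^ i * b⁻¹)))) : False := by
  obtain ⟨f, ε, inj, hf, ho⟩ := c.exc
  obtain ⟨η, hη⟩ := Finset.card_pos.1 (one_pos.trans c.two)
  have x1 : x ≠ 1 := fun e => by rw [e, orderOf_one] at ox; omega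
  have cj : ∀ z : K, (z : L) ∈ Z → z ≠ 1 → IsConj (z : L) x := fun z hz z1 =>
    one _ hz _ hx (fun e => z1 (Subtype.ext e)) fun e => x1 (Subtype.ext e)
  have cst : ∀ (χ : IrrCharacter G) (z : K), (z : L) ∈ Z → z ≠ 1 → (χ : G → ℂ) (j z) = (χ : G → ℂ) (j x) :=
    fun χ z hz z1 => χ.2.isClassFunction.isConj ((h.fus _ _).2 (cj z hz z1))
  have pw : ∀ i, ¬ p ∣ i → x ^ i ≠ 1 := fun i hi e => hi (ox ▸ orderOf_dvd_of_pow_eq_one e)
  have oj : orderOf (j x) = p := orderOf_eq_prime (by rw [← map_pow, ← ox, pow_orderOf_eq_one, map_one]) (h.j_ne x1)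
  have hint : ∀ χ : IrrCharacter G, ∃ a : ℤ, (χ : G → ℂ) (j x) = a := fun χ =>
    χ.2.isGeneralizedCharacter.exists_int_of_pow_eq _ fun k hk => by
      rw [← map_pow, cst χ _ (Z.pow_mem hx k) (pw k ((Nat.Prime.coprime_iff_not_dvd hp.out).1 (oj ▸ hk.symm)))]
  choose a ha using hint
  set q := Nat.card K with hq
  set B := PB M G with hB
  have hΦ : ∀ g, ∑ χ ∈ B, (χ : G → ℂ) g * conj ((χ : G → ℂ) (j x)) = if IsConj (h.rep g : L) x then (q : ℂ) else 0 := by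
    intro g
    rw [h.col c.md g x1, c.cK hx x1]
  have := c.md.2.1
  have h1B : H21.irrOne G ∈ B := mem_PB.2 H21.one_mem_principal
  have hdeg1 := H19.charDegree_irrOne21 (G := G)
  have ha1 : a (H21.irrOne G) = 1 := by
    have := ha (H21.irrOne G)
    rw [H21.irrOne_apply] at this
    exact_mod_cast this.symm
  have hsq : ∑ χ ∈ B, a χ ^ 2 = q := by
    have := hΦ (j x)
    rw [if_pos (h.rep_j x), Finset.sum_congr rfl (g := fun χ => ((a χ ^ 2 : ℤ) : ℂ)) fun χ hχ => by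
      rw [ha χ]; simp [sq]] at this
    exact_mod_cast this
  have hdeg : ∑ χ ∈ B, (charDegree (χ : G → ℂ) : ℤ) * a χ = 0 := by
    have := c.col1 x1
    rw [Finset.sum_congr rfl (g := fun χ : IrrCharacter G => (((charDegree (χ : G → ℂ) : ℤ) * a χ : ℤ) : ℂ)) fun χ hχ => by
      rw [ha χ, ← χ.2.charDegree_eq]; simp] at this
    exact_mod_cast this
  have e0 : 0 < K.index := Nat.pos_of_ne_zero Subgroup.index_ne_zero_of_finite
  have sZ : ∀ F : L → ℂ, (∀ z ∈ Z, z ≠ 1 → F z = F x) → ∑ z : Z, F z = F 1 + ((Nat.card Z : ℂ) - 1) * F x := by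
    intro F hF
    rw [← Finset.add_sum_erase _ _ (Finset.mem_univ 1), Finset.sum_congr rfl (g := fun _ => F x) fun z hz =>
      hF _ z.2 fun e => (Finset.mem_erase.1 hz).1 (Subtype.ext e), Finset.sum_const, Finset.card_erase_of_mem (Finset.mem_univ _),
      Finset.card_univ, ← Nat.card_eq_fintype_card, nsmul_eq_mul, Nat.cast_sub Nat.card_pos]
    simp
  have z2 : 1 < Nat.card Z := (Subgroup.one_lt_card_iff_ne_bot Z).2 fun e => x1 (Subtype.ext (by simpa [e] using hx))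
  have hX : ∀ ξ ∈ sInd K Z ⊥, ξ x = η x := by
    have k : ∀ ξ ∈ sInd K Z ⊥, (K.index : ℂ) + ((Nat.card Z : ℂ) - 1) * ξ x = 0 := fun ξ hξ => by
      rw [← hab ξ hξ, ← sZ ξ fun z hz z1 => (sInd_isCh hξ).isClassFunction.isConj (cj ⟨z, c.le hz⟩ hz
        fun e => z1 (congrArg Subtype.val e))]
      have m := (PF6.sInd_eq_irr c.le fun _ => c.irr).le hξ
      have t : ⟪ξ, indFun Z 1⟫ = 0 := by
        by_contra n0
        obtain ⟨z, hz, ne⟩ := m.2
        exact ne (ker_of_constituent (H06.isCharacter_indFun Z isCharacter_one) m.1 (fun e => n0 (ip_eq_zero_symm e))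
          ((inKer_iff_ind le_rfl isIrrCharacter_one).1 (inKer_one Z) z hz))
      rw [H06.frobenius_reciprocity_right Z 1 ξ m.1.isClassFunction, classInner_one_right, mul_eq_zero] at t
      exact t.resolve_left (inv_ne_zero card_ne_zero_complex)
    intro ξ hξ
    exact mul_left_cancel₀ (sub_ne_zero.2 (by exact_mod_cast z2.ne' : (Nat.card Z : ℂ) ≠ 1))
      (by linear_combination k ξ hξ - k η hη)
  have bd : ∀ χ ∈ B, χ ≠ H21.irrOne G → 2 * a χ ≤ charDegree (χ : G → ℂ) := by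
    intro χ hχ h1
    have c1 := H01.PP2.lt_deg χ h1 (h.j_ne x1) (ha χ)
    suffices k : ∃ m r : ℤ, 0 ≤ m ∧ a χ ^ 2 ≤ m ∧ (charDegree (χ : G → ℂ) : ℤ) - a χ = m * r by
      obtain ⟨m, r, m0, m1, m2⟩ := k
      have : 0 < r := by
        by_contra r0
        nlinarith [mul_nonneg m0 (by omega : 0 ≤ -r)]
      nlinarith
    by_cases hi : χ ∈ (sInd K Z ⊥).image f
    · obtain ⟨r, hr⟩ := vc_ip_int ((χ.2.isCharacter.comp j).comp (Subgroup.inclusion c.le)).isGeneralizedCharacter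
        isGeneralizedCharacter_one
      have s := sZ (ex j χ) fun z hz z1 => (ex_coe _ ⟨z, c.le hz⟩).trans ((cst χ _ hz
        fun e => z1 (congrArg Subtype.val e)).trans (ex_coe _ x).symm)
      rw [classInner_one_right, inv_mul_eq_iff_eq_mul₀ card_ne_zero_complex] at hr
      rw [Finset.sum_congr rfl (f := fun z : Z => ex j χ z) fun z _ => ex_coe _ (Subgroup.inclusion c.le z), hr, ex_one, ex_coe, ha, ← χ.2.charDegree_eq] at s
      refine ⟨Nat.card Z, r - a χ, Int.natCast_nonneg _, ?_, by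
        have : ((Nat.card Z : ℤ) * r : ℤ) = charDegree (χ : G → ℂ) + (Nat.card Z - 1) * a χ := by exact_mod_cast s
        linear_combination -this⟩
      have sq : ∀ ξ ∈ sInd K Z ⊥, ((a (f ξ) ^ 2 : ℤ) : ℂ) = ν η (j x) ^ 2 := fun ξ hξ => by
        have e := c.cross_j hξ hη x
        rw [hab ξ hξ, hab η hη, hX ξ hξ, sub_self, sub_eq_zero] at e
        rw [← mul_left_cancel₀ (by exact_mod_cast e0.ne') e, (hf ξ hξ).2.1, Pi.smul_apply, ha]
        rcases (hf ξ hξ).1 with e | e <;> simp [e]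
      obtain ⟨ξ, hξ, rfl⟩ := Finset.mem_image.1 hi
      have s1 : ∑ χ ∈ (sInd K Z ⊥).image f, a χ ^ 2 ≤ q := hsq ▸ Finset.sum_le_sum_of_subset_of_nonneg
        (Finset.image_subset_iff.2 fun ξ hξ => (hf ξ hξ).2.2.1) fun _ _ _ => sq_nonneg _
      rw [Finset.sum_image inj, Finset.sum_congr rfl (g := fun _ => a (f ξ) ^ 2) fun φ hφ => by
        exact_mod_cast (sq φ hφ).trans (sq ξ hξ).symm, Finset.sum_const, nsmul_eq_mul] at s1
      obtain ⟨n, hn, hT⟩ := c.degs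
      rw [Finset.sum_congr rfl (g := fun _ => 1) fun φ hφ => by
        have := (hn φ hφ).1
        rw [hab φ hφ, eq_comm, mul_eq_left₀ (by exact_mod_cast e0.ne')] at this
        rw [show n φ = 1 by exact_mod_cast this, one_pow], Finset.sum_const, smul_eq_mul, mul_one] at hT
      have qZ : q = Z.relIndex K * Nat.card Z := by
        rw [hq, ← (Z.subgroupOf K).index_mul_card, Nat.card_congr (Subgroup.subgroupOfEquivOfLe c.le).toEquiv]; rfl
      have Q0 : 0 < Z.relIndex K := Nat.pos_of_ne_zero Subgroup.index_ne_zero_of_finite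
      obtain ⟨y, hy⟩ := Nat.exists_eq_add_of_lt z2
      have t : K.index * (sInd K Z ⊥).card = Z.relIndex K * (y + 1) := by
        rw [← hq, qZ, hy] at hT; linarith
      have d : K.index ≤ y + 1 := Nat.le_of_dvd y.succ_pos
        (((PF6.frob_coprime h.frob).coprime_dvd_right (Subgroup.relIndex_dvd_card Z K)).dvd_of_dvd_mul_left ⟨_, t.symm⟩)
      have l : Z.relIndex K ≤ (sInd K Z ⊥).card := Nat.le_of_mul_le_mul_left (by nlinarith) e0
      rw [qZ] at s1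
      push_cast at s1
      have l' : (Z.relIndex K : ℤ) ≤ (sInd K Z ⊥).card := by exact_mod_cast l
      have Q0' : (0 : ℤ) < Z.relIndex K := by exact_mod_cast Q0
      exact le_of_mul_le_mul_left ((mul_le_mul_of_nonneg_right l' (sq_nonneg _)).trans s1) Q0'
    · obtain ⟨r, hr⟩ := h.ip_int (mem_zspan hη) χ
      have d := c.diff hχ (ho χ hi) hη hx x1
      rw [ip_symm_of_int hr, hab η hη, ha, ← χ.2.charDegree_eq] at d
      refine ⟨q, r, Int.natCast_nonneg _, hsq ▸ Finset.single_le_sum (f := fun χ => a χ ^ 2) (fun _ _ => sq_nonneg _) hχ, ?_⟩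
      have : ((charDegree (χ : G → ℂ) : ℂ) - a χ) = q * r :=
        mul_left_cancel₀ (by exact_mod_cast e0.ne' : (K.index : ℂ) ≠ 0) (by linear_combination d)
      exact_mod_cast this
  obtain ⟨χ₀, hχ₀, hneg⟩ : ∃ χ ∈ B, a χ < 0 := by
    by_contra hn
    push Not at hn
    have := (Finset.sum_eq_zero_iff_of_nonneg fun χ hχ => mul_nonneg (Int.natCast_nonneg _) (hn χ hχ)).1 hdeg _ h1B
    rw [hdeg1, ha1] at this
    simp at this
  set A : ℝ := ∑ χ ∈ B, (a χ : ℝ) ^ 3 / charDegree (χ : G → ℂ) with hA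
  have hup : A < q / 2 := by
    have hne : χ₀ ≠ H21.irrOne G := by rintro rfl; omega
    have e1 : ∀ f : IrrCharacter G → ℝ, ∑ χ ∈ B, f χ =
        f (H21.irrOne G) + (f χ₀ + ∑ χ ∈ (B.erase (H21.irrOne G)).erase χ₀, f χ) := fun f => by
      rw [Finset.add_sum_erase _ _ (Finset.mem_erase.2 ⟨hne, hχ₀⟩), Finset.add_sum_erase _ _ h1B]
    have hsq' : ∑ χ ∈ B, (a χ : ℝ) ^ 2 = q := by exact_mod_cast hsq
    rw [e1] at hsq'
    rw [hA, e1]
    simp only [ha1, hdeg1] at hsq' ⊢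
    have b1 : (a χ₀ : ℝ) ^ 3 / charDegree (χ₀ : G → ℂ) < 0 := by
      have : (0 : ℝ) < charDegree (χ₀ : G → ℂ) := by exact_mod_cast χ₀.2.charDegree_pos
      have : (a χ₀ : ℝ) < 0 := by exact_mod_cast hneg
      exact div_neg_of_neg_of_pos (Odd.pow_neg (by decide) this) ‹_›
    have b2 : (1 : ℝ) ≤ (a χ₀ : ℝ) ^ 2 := by
      have : (a χ₀ : ℝ) ≤ -1 := by exact_mod_cast (by omega : a χ₀ ≤ -1)
      nlinarith
    have b3 : ∑ χ ∈ (B.erase (H21.irrOne G)).erase χ₀, (a χ : ℝ) ^ 3 / charDegree (χ : G → ℂ) ≤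
        (∑ χ ∈ (B.erase (H21.irrOne G)).erase χ₀, (a χ : ℝ) ^ 2) / 2 := by
      rw [Finset.sum_div]
      refine Finset.sum_le_sum fun χ hχ => ?_
      have hχ1 := Finset.mem_erase.1 (Finset.mem_erase.1 hχ).2
      have c0 : (0 : ℝ) < charDegree (χ : G → ℂ) := by exact_mod_cast χ.2.charDegree_pos
      have c5 : 2 * (a χ : ℝ) ≤ charDegree (χ : G → ℂ) := by exact_mod_cast bd χ hχ1.2 hχ1.1
      rw [div_le_div_iff₀ c0 (by norm_num)]
      nlinarith [sq_nonneg (a χ : ℝ)]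
    push_cast at hsq' ⊢
    linarith
  have hpair : ∀ i ∈ Finset.Ico 1 p, (Nat.card G : ℝ) ^ 2 * A =
      ∑ b : G, ∑ d : G, if IsConj (h.rep (d * j x * d⁻¹ * (b * j x ^ i * b⁻¹)) : L) x then (q : ℝ) else 0 := by
    intro i hi
    rw [Finset.mem_Ico] at hi
    have : (Nat.card G : ℂ) ^ 2 * (A : ℂ) =
        ∑ b : G, ∑ d : G, if IsConj (h.rep (d * j x * d⁻¹ * (b * j x ^ i * b⁻¹)) : L) x then (q : ℂ) else 0 := by
      simp only [← hΦ]
      rw [hA]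
      push_cast
      rw [Finset.mul_sum, Finset.sum_congr rfl (g := fun χ : IrrCharacter G => ∑ b : G, ∑ d : G,
        (χ : G → ℂ) (d * j x * d⁻¹ * (b * j x ^ i * b⁻¹)) * conj ((χ : G → ℂ) (j x))) fun χ hχ => by
          simp only [← Finset.sum_mul]
          rw [← H08.pairSum, H08.pairSum_irr χ.2, ← map_pow, cst χ _ (Z.pow_mem hx i)
            (pw i (Nat.not_dvd_of_pos_of_lt hi.1 hi.2)), ha, χ.2.charDegree_eq]
          simp; ring, Finset.sum_comm]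
      exact Finset.sum_congr rfl fun _ _ => Finset.sum_comm
    apply Complex.ofReal_injective
    push_cast
    rw [this]
    refine Finset.sum_congr rfl fun _ _ => Finset.sum_congr rfl fun _ _ => ?_
    split_ifs <;> simp
  have hone : ∀ b d : G, ((p : ℝ) - 2) * q ≤ ∑ i ∈ Finset.Ico 1 p,
      if IsConj (h.rep (d * j x * d⁻¹ * (b * j x ^ i * b⁻¹)) : L) x then (q : ℝ) else 0 := by
    intro b d
    obtain ⟨u, v, hu, hv, o3, hσ⟩ := sig b d
    have hreg : ∀ i : ℕ, ¬ IsConj (h.rep (d * j x * d⁻¹ * (b * j x ^ i * b⁻¹)) : L) x → u * v ^ i = 1 := fun i hi =>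
      by_contra fun n1 => hi ((h.rep_of (hσ i)).trans (cj _ (Z.mul_mem hu (Z.pow_mem hv i)) n1))
    rw [← Finset.sum_filter, Finset.sum_const, nsmul_eq_mul]
    refine mul_le_mul_of_nonneg_right ?_ (Nat.cast_nonneg _)
    have hc1 : ((Finset.Ico 1 p).filter fun i => ¬ IsConj (h.rep (d * j x * d⁻¹ * (b * j x ^ i * b⁻¹)) : L) x).card ≤ 1 := by
      rw [Finset.card_le_one]
      intro i hi k hk
      rw [Finset.mem_filter, Finset.mem_Ico] at hi hk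
      have := (hreg i hi.2).trans (hreg k hk.2).symm
      exact pow_injOn_Iio_orderOf (by rw [o3]; exact hi.1.2) (by rw [o3]; exact hk.1.2) (mul_left_cancel this)
    have hc2 := Finset.card_filter_add_card_filter_not (s := Finset.Ico 1 p)
      (fun i => IsConj (h.rep (d * j x * d⁻¹ * (b * j x ^ i * b⁻¹)) : L) x)
    rw [Nat.card_Ico] at hc2
    have : p ≤ ((Finset.Ico 1 p).filter fun i => IsConj (h.rep (d * j x * d⁻¹ * (b * j x ^ i * b⁻¹)) : L) x).card + 2 := by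
      omega
    have : (p : ℝ) ≤ ((Finset.Ico 1 p).filter
        fun i => IsConj (h.rep (d * j x * d⁻¹ * (b * j x ^ i * b⁻¹)) : L) x).card + 2 := by
      exact_mod_cast this
    linarith
  have hsum : (Nat.card G : ℝ) ^ 2 * (((p : ℝ) - 2) * q) ≤ ((p : ℝ) - 1) * ((Nat.card G : ℝ) ^ 2 * A) := by
    have e1 : ((p : ℝ) - 1) * ((Nat.card G : ℝ) ^ 2 * A) = ∑ i ∈ Finset.Ico 1 p, (Nat.card G : ℝ) ^ 2 * A := by
      rw [Finset.sum_const, Nat.card_Ico, nsmul_eq_mul, Nat.cast_sub hp.out.one_le]; simp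
    rw [e1, Finset.sum_congr rfl hpair, Finset.sum_comm]
    have e2 : (Nat.card G : ℝ) ^ 2 * (((p : ℝ) - 2) * q) = ∑ b : G, ∑ d : G, ((p : ℝ) - 2) * q := by
      simp only [Finset.sum_const, Finset.card_univ, nsmul_eq_mul, Nat.card_eq_fintype_card]; ring
    rw [e2]
    refine Finset.sum_le_sum fun b _ => ?_
    rw [Finset.sum_comm]
    exact Finset.sum_le_sum fun d _ => hone b d
  have hG : (0 : ℝ) < (Nat.card G : ℝ) ^ 2 := by have := Nat.card_pos (α := G); positivity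
  have hq0 : (0 : ℝ) < q := by exact_mod_cast Nat.card_pos
  have hp3' : (3 : ℝ) ≤ p := by exact_mod_cast hp3
  have : ((p : ℝ) - 2) * q ≤ ((p : ℝ) - 1) * A := by
    apply le_of_mul_le_mul_left _ hG
    linarith
  nlinarith

end Co

end H17.BR
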