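import Mathlib
import Cfsg.Agent.H17.BR2

/-! For odd `p` the Frobenius kernel is elementary abelian with one class of non-trivial elements. -/

set_option autoImplicit false
set_option linter.unusedSectionVars false

open H05 H25 Cfsg Classical
open scoped ComplexConjugate

namespace H17.BR

variable {G L : Type*} [Group G] [Fintype G] [Group L] [Fintype L] {p : ℕ} [hp : Fact p.Prime] {K : Subgroup L}
  [hK : K.Normal] {j : K →* G}

/-- central elements of order dividing `p` -/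
def ZZ (p : ℕ) (K : Subgroup L) : Subgroup L where
  carrier := {z | z ∈ K ∧ (∀ k ∈ K, z * k = k * z) ∧ z ^ p = 1}
  one_mem' := ⟨K.one_mem, by simp, one_pow _⟩
  mul_mem' := fun {a b} ha hb => ⟨K.mul_mem ha.1 hb.1, fun k hk => by
    rw [mul_assoc, hb.2.1 k hk, ← mul_assoc, ha.2.1 k hk, mul_assoc], by
    rw [Commute.mul_pow (ha.2.1 b hb.1), ha.2.2, hb.2.2, mul_one]⟩
  inv_mem' := fun {a} ha => ⟨K.inv_mem ha.1, fun k hk => (Commute.inv_left (ha.2.1 k hk)).eq, by rw [inv_pow, ha.2.2, inv_one]⟩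

instance ZZ_normal : (ZZ p K).Normal := ⟨fun z hz g => ⟨hK.conj_mem z hz.1 g, fun k hk => by
  have := hz.2.1 _ (hK.conj_mem k hk g⁻¹)
  calc _ = g * (z * (g⁻¹ * k * g⁻¹⁻¹)) * g⁻¹ := by group
    _ = _ := by rw [this]; group, by rw [conj_pow, hz.2.2]; simp⟩⟩

theorem ZZ_ne (hK' : IsPGroup p K) (h1 : K ≠ ⊥) : ∃ z ∈ ZZ p K, z ≠ 1 := by
  have := (Subgroup.nontrivial_iff_ne_bot K).2 h1
  have := hK'.center_nontrivial
  obtain ⟨k, hk⟩ := IsPGroup.iff_card.1 (hK'.to_subgroup (Subgroup.center K))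
  obtain ⟨z, hz⟩ := exists_prime_orderOf_dvd_card' (G := Subgroup.center K) p (by
    rw [hk]; exact dvd_pow_self p fun e => by
      rw [e, pow_zero] at hk; exact Finite.one_lt_card.ne' hk)
  refine ⟨z.1.1, ⟨z.1.2, fun k hk => (congrArg Subtype.val (Subgroup.mem_center_iff.1 z.2 ⟨k, hk⟩)).symm, ?_⟩, fun e => ?_⟩
  · exact congrArg (fun y : Subgroup.center K => y.1.1) (hz ▸ pow_orderOf_eq_one z : z ^ p = 1)
  · rw [show z = 1 from Subtype.ext (Subtype.ext e), orderOf_one] at hz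
    exact hp.out.one_lt.ne hz

theorem Hy.odd [IsSimpleGroup G] (h : Hy p K j) (hna : ¬ IsMulCommutative G) (hp2 : 2 < p) (K1 : K ≠ ⊥)
    (sig : ∀ x w : K, (x : L) ∈ ZZ p K → (w : L) ∈ ZZ p K → x ≠ 1 → w ≠ 1 → ∀ b d : G, ∃ u v : K,
      IsConj (x : L) u ∧ IsConj (w : L) v ∧
      ∀ i : ℕ, IsConj (j (u * v ^ i)) (H21.pPart p (d * j x * d⁻¹ * (b * j w ^ i * b⁻¹)))) :
    ZZ p K = K ∧ ∀ x ∈ K, ∀ y ∈ K, x ≠ 1 → y ≠ 1 → IsConj x y := by
  by_contra no
  obtain ⟨M, hM⟩ := H21.exists_isPModular hp.out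
  set Z := ZZ p K with hZ
  have le : Z ≤ K := fun _ h => h.1
  obtain ⟨z, hz, z1⟩ := ZZ_ne h.pg K1
  have irr := PF6.frob_sInd_irr h.frob
  have irrZ : ∀ ξ ∈ sInd K Z ⊥, IsIrr ξ := fun ξ hξ => irr ξ (sInd_mono le le_rfl hξ)
  obtain ⟨η, hη⟩ := sInd_nonempty (K := K) (H := Z) (M := ⊥) le bot_le fun e => z1 (e hz)
  obtain ⟨m, hm⟩ := IsPGroup.iff_card.1 h.pg
  have cj : ∀ {x u : L}, x ∈ Z → IsConj x u → u ∈ Z := fun hx e => by
    obtain ⟨c, rfl⟩ := isConj_iff.1 e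
    exact Subgroup.Normal.conj_mem inferInstance _ hx c
  have A : ∀ {ν}, Co h M Z ν → ∀ x ∈ Z, ∀ y ∈ Z, x ≠ 1 → y ≠ 1 → IsConj x y := fun c x hx y hy x1 y1 => by
    by_contra nc
    have x1' : (⟨x, le hx⟩ : K) ≠ 1 := fun e => x1 (congrArg Subtype.val e)
    have y1' : (⟨y, le hy⟩⁻¹ : K) ≠ 1 := inv_ne_one.2 fun e => y1 (congrArg Subtype.val e)
    refine c.caseA hna (x := ⟨x, le hx⟩) (w := ⟨y, le hy⟩⁻¹) hx (Z.inv_mem hy) x1' y1' fun b d => ?_
    obtain ⟨u, v, hu, hv, e⟩ := sig ⟨x, le hx⟩ ⟨y, le hy⟩⁻¹ hx (Z.inv_mem hy) x1' y1' b d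
    refine ⟨u * v, Z.mul_mem (cj hx hu) (cj (Z.inv_mem hy) hv), fun e => nc (hu.trans ?_), by simpa using e 1⟩
    obtain ⟨c, hc⟩ := isConj_iff.1 hv
    rw [eq_inv_of_mul_eq_one_left e, Subgroup.coe_inv, ← hc]
    exact isConj_iff.2 ⟨c⁻¹, by simp [mul_assoc]⟩
  by_cases hodd : Odd (Nat.card L)
  · have P := h.preCoh hM K
    obtain ⟨R, hS⟩ := irr_subCoh irr (fun _ => sInd_conj) (fun _ => sInd_conj_ne hodd) P.iso P.vc P.map_one
    obtain ⟨ν, hν⟩ := PF6.coh_center_pGroup hS hp.out hp2 hm (fun d => hp.out.one_lt.ne' (Nat.eq_one_of_dvd_coprimes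
      (PF6.frob_coprime h.frob) d (h.pg.card_eq_or_dvd.resolve_left (Subgroup.one_lt_card_iff_ne_bot K |>.2 K1).ne')))
      Z le (fun _ h => h.2.1) irrZ
    exact z1 (eq_one_of_isConj_inv hodd (A ⟨hM, le, fun _ h => h.2.1, hν, Finset.one_lt_card.2
      ⟨_, sInd_conj hη, _, hη, sInd_conj_ne hodd hη⟩⟩ z hz _ (Z.inv_mem hz) z1 (inv_ne_one.2 z1)))
  have he : 2 ∣ K.index := by
    rw [← K.card_mul_index, Nat.odd_mul, hm, not_and_or] at hodd
    exact (Nat.not_odd_iff_even.1 (hodd.resolve_left (not_not.2 (hp.out.odd_of_ne_two hp2.ne').pow))).two_dvd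
  have hab : ∀ ξ ∈ sInd K Z ⊥, ξ 1 = K.index := fun ξ hξ => PF6.sInd_deg_lin (PF6.frob_comm_of_even h.frob he).le bot_le hξ
  obtain ⟨ν, hν⟩ := (h.preCoh hM Z).coh_of_deg_irr irrZ fun a ha b hb => (hab a ha).trans (hab b hb).symm
  by_cases two : 1 < (sInd K Z ⊥).card
  · have c : Co h M Z ν := ⟨hM, le, fun _ h => h.2.1, hν, two⟩
    have z1' : (⟨z, le hz⟩ : K) ≠ 1 := fun e => z1 (congrArg Subtype.val e)
    refine c.caseB hp2 hab (A c) (x := ⟨z, le hz⟩) hz (orderOf_eq_prime (Subtype.ext hz.2.2) z1') fun b d => ?_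
    obtain ⟨u, v, hu, hv, e⟩ := sig _ _ hz hz z1' z1' b d
    exact ⟨u, v, cj hz hu, cj hz hv, orderOf_eq_prime (Subtype.ext (cj hz hv).2.2) fun e => z1 (by
      rwa [e, Subgroup.coe_one, isConj_one_left] at hv), e⟩
  have s := sInd_sum_sq (K := K) (H := Z) (M := ⊥) le bot_le
  rw [Finset.eq_singleton_iff_unique_mem.2 ⟨hη, fun a ha => Finset.card_le_one.1 (not_lt.1 two) a ha η hη⟩,
    Finset.sum_singleton, irr_nsq (irrZ η hη), hab η hη, div_one, Complex.natCast_re, sq, sup_bot_eq,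
    Subgroup.relIndex_bot_left] at s
  have e0 : K.index ≠ 0 := Subgroup.index_ne_zero_of_finite
  have s1 : K.index + Z.relIndex K = Nat.card K := by
    exact_mod_cast eq_sub_iff_add_eq.1 (mul_left_cancel₀ (Nat.cast_ne_zero.2 e0) s)
  have d := Subgroup.relIndex_dvd_card Z K
  have q1 : Z.relIndex K = 1 := Nat.eq_one_of_dvd_coprimes (PF6.frob_coprime h.frob)
    ((Nat.dvd_add_left dvd_rfl).1 (s1 ▸ d)) d
  have eZ : Z = K := le_antisymm le (Subgroup.relIndex_eq_one.1 q1)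
  refine no ⟨eZ, fun x hx y hy x1 y1 => ?_⟩
  have cx : Subgroup.centralizer ({x} : Set L) = K :=
    le_antisymm (fun y hy => h.frob _ hx x1 y (Subgroup.mem_centralizer_singleton_iff.1 hy))
      fun y hy => Subgroup.mem_centralizer_singleton_iff.2 ((eZ.ge hx).2.1 y hy).symm
  have := Finset.eq_of_subset_of_card_le (s := Finset.univ.filter fun y => IsConj x y)
    (t := (Finset.univ.filter (· ∈ K)).erase 1) (fun y hy => by
      obtain ⟨c, rfl⟩ := isConj_iff.1 (Finset.mem_filter.1 hy).2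
      simpa [x1] using hK.conj_mem x hx c) (by
      rw [card_filter_isConj, cx, Finset.card_erase_of_mem (by simp), ← Fintype.card_subtype, ← Nat.card_eq_fintype_card]
      omega)
  exact (Finset.mem_filter.1 (this.ge (by simp [hy, y1]))).2

end H17.BR
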