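import Mathlib
import Cfsg.Agent.H17.BR3
import Cfsg.Agent.H03.ThNPC
import Cfsg.Agent.H03.Tate
import Cfsg.Agent.H04.Basic
import Cfsg.Agent.H24.PSolv

/-! Groups in which the Sylow normalizer controls fusion of elements and centralizers of `p`-elements have
normal `p`-complements: local analysis. -/

set_option autoImplicit false
set_option linter.unusedSectionVars false

open Cfsg BG Subgroup

namespace H17.BR

variable {G : Type*} [Group G] [Finite G] {p : ℕ} [hp : Fact p.Prime] {P : Sylow p G} {a g r x y z : G} {M Q : Subgroup G}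

/-- the local hypotheses -/
structure HH (P : Sylow p G) : Prop where
  fu : ∀ x ∈ P.1, ∀ g : G, g * x * g⁻¹ ∈ P.1 → ∃ n ∈ N_(P.1), n * x * n⁻¹ = g * x * g⁻¹
  np : ∀ x ∈ P.1, x ≠ 1 → HasNormalPComplement p C_[x]
  ps : ∀ x y : G, orderOf x = p → orderOf y = p → IsPSolvable p (closure ({x, y} : Set G))

theorem pPart_mem_sylow (hg : g ∈ N_(P.1)) : H21.pPart p g ∈ P.1 :=
  (isSylowIn_top hp.out P).le_of_norm_pg' hp.out (H21.isPGroup_zpowers (H21.orderOf_pPart p g)) le_top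
    (zpowers_le.2 (H21.pPart_mem p hg)) (mem_zpowers _)

theorem exists_z [M.Normal] (h : P.1 ⊓ M ≠ ⊥) : ∃ z ∈ P.1 ⊓ C_(P.1), z ∈ M ∧ z ≠ 1 := by
  have := P.2.isNilpotent
  obtain ⟨x, hx, x1⟩ := exists_mem_ne_one h
  obtain ⟨z, hz, z1, c⟩ := H04.exists_mem_center_of_normal (M.subgroupOf P.1) fun e =>
    x1 (congrArg Subtype.val ((e.le (show (⟨x, hx.1⟩ : P.1) ∈ _ from hx.2)) : (⟨x, hx.1⟩ : P.1) = 1))
  exact ⟨z, ⟨z.2, mem_cent.2 fun a ha => congrArg Subtype.val (mem_center_iff.1 c ⟨a, ha⟩)⟩, hz, fun e => z1 (Subtype.ext e)⟩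

namespace HH
variable (h : HH P)
include h

theorem cz (hz : z ∈ P.1 ⊓ C_(P.1)) (e : g * z * g⁻¹ ∈ P.1) : g * z * g⁻¹ ∈ C_(P.1) := by
  obtain ⟨n, hn, e'⟩ := h.fu z hz.1 g e
  exact e' ▸ conj_mem_of_norm (norm_le_norm_cent _ hn) hz.2

theorem r0 (ha : a ∈ P.1) (a1 : a ≠ 1) (hQ : Q ≤ P.1) (hc : Q ≤ C_[a]) (r1 : r ∈ C_[a]) (r2 : r ∈ N_(Q))
    (r3 : ¬ p ∣ orderOf r) : r ∈ C_(Q) :=
  H03.mem_centralizer_of_hasNPC (h.np a ha a1) (P.2.to_le hQ) hc r1 r2 (H03.coprime_iff_not_dvd.2 r3)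

theorem r1 (ha : a ∈ P.1) (a1 : a ≠ 1) (r1 : r ∈ C_[a]) (r2 : r ∈ N_(P.1)) (r3 : ¬ p ∣ orderOf r) : r ∈ C_(P.1) := by
  obtain ⟨z, hz, z1⟩ := exists_mem_ne_one (pg_center_ne_bot hp.out P.2 fun e => a1 (e.le ha))
  have := h.r0 ha a1 (Q := P.1 ⊓ C_[a]) inf_le_left inf_le_right r1 (H03.mem_normalizer_of_conj_le fun x hx =>
    ⟨conj_mem_of_norm r2 hx.1, (C_[a]).mul_mem ((C_[a]).mul_mem r1 hx.2) ((C_[a]).inv_mem r1)⟩) r3
  exact h.r0 hz.1 z1 le_rfl (fun y hy => mem_cent1.2 (mem_cent.1 hz.2 y hy))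
    (mem_cent1.2 (mem_cent.1 this z ⟨hz.1, cent_le_cent1 ha hz.2⟩).symm) r2 r3

theorem syl (ha : a ∈ P.1) : IsSylowIn p (P.1 ⊓ C_[a]) C_[a] := by
  obtain ⟨Q, hQ, k⟩ := sylow_superset hp.out (P.2.to_le (zpowers_le.2 ha)) (zpowers_le.2 (mem_cent1_self a))
  obtain ⟨g, -, hg⟩ := sylow_Jsub hp.out (isSylowIn_top hp.out P) (hQ.pg hp.out) le_top
  obtain ⟨n, hn, e⟩ := h.fu a ha g (hg (conj_mem_cj g (k (mem_zpowers a))))
  have c : n⁻¹ * g ∈ C_[a] := mem_cent1.2 (by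
    calc _ = n⁻¹ * (g * a * g⁻¹) * g := by group
      _ = _ := by rw [← e]; group)
  have s := hQ.cj_of_mem c
  rwa [IsSylowIn.eq_of_pg s hp.out (P.2.to_le inf_le_left) (le_inf (by
    rw [← cj_cj]; exact cj_le_of_mem_norm hg (inv_mem hn)) s.le) inf_le_right]

theorem dec (ha : a ∈ P.1) (a1 : a ≠ 1) (hg : g ∈ C_[a]) :
    ∃ r ∈ C_[a], ∃ s ∈ P.1 ⊓ C_[a], ¬ p ∣ orderOf r ∧ g = r * s := by
  obtain ⟨S, hS⟩ := (h.syl ha).exists_sylow hp.out
  obtain ⟨⟨r, s⟩, e, -⟩ := (H03.HasNPC.isComplement' (h.np a ha a1) S).existsUnique ⟨g, hg⟩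
  exact ⟨r.1.1, r.1.2, s.1.1, hS ▸ ⟨_, s.2, rfl⟩, by
    simpa using H03.coprime_iff_not_dvd.1 ((H03.HasNPC.mem_pResidual_iff (h.np a ha a1)).1 r.2), (congrArg Subtype.val e).symm⟩

theorem l1 [hM : M.Normal] (ha : a ∈ P.1) (a1 : a ≠ 1) (r1 : r ∈ C_[a]) (r3 : ¬ p ∣ orderOf r) :
    ∃ c ∈ C_(P.1 ⊓ C_[a] ⊓ (M ⊓ C_[a])), ¬ p ∣ orderOf c ∧ (c : G ⧸ M) = r := by
  have s := (h.syl ha).inf_normal (K := M ⊓ C_[a]) inf_le_right (norm_inf (by simp [normalizer_eq_top]) (le_norm _))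
  obtain ⟨m, hm, e⟩ := sylow_trans hp.out (s.cj_of_norm (g := r) (norm_inf (by simp [normalizer_eq_top]) (le_norm _) r1)) s
  rw [cj_cj] at e
  refine ⟨H21.pReg p (m * r), h.r0 ha a1 (inf_le_left.trans inf_le_left) (inf_le_left.trans inf_le_right)
    (H21.pReg_mem p (mul_mem hm.2 r1)) (H21.pReg_mem p (mem_norm_of_cj_le e.ge)) (H21.not_dvd_orderOf_pReg p _),
    H21.not_dvd_orderOf_pReg p _, ?_⟩
  have := H21.map_pReg (p := p) (QuotientGroup.mk' M) (m * r)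
  rwa [map_mul, QuotientGroup.mk'_apply M m, (QuotientGroup.eq_one_iff m).2 hm.1, one_mul, H21.pReg_eq_self_iff.2
    fun d => r3 (d.trans (orderOf_map_dvd _ r))] at this

theorem fuM [hM : M.Normal] (hx : x ∈ P.1 ⊓ M) (hg : g ∈ M) (e : g * x * g⁻¹ ∈ P.1) :
    ∃ n ∈ M ⊓ N_(P.1 ⊓ M), n * x * n⁻¹ = g * x * g⁻¹ := by
  by_cases x1 : x = 1
  · exact ⟨1, one_mem _, by simp [x1]⟩
  obtain ⟨z, hz, zM, z1⟩ := exists_z (P := P) (M := M) fun e => x1 (e.le hx)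
  obtain ⟨n, hn, e⟩ := h.fu x hx.1 g e
  obtain ⟨r, r1, s, hs, r3, e1⟩ := h.dec hx.1 x1 (g := n⁻¹ * g) (mem_cent1.2 (by
    calc _ = n⁻¹ * (g * x * g⁻¹) * g := by group
      _ = _ := by rw [← e]; group))
  have zx := cent_le_cent1 hx.1 hz.2
  obtain ⟨c, c1, c2, c3⟩ := h.l1 (M := M) hx.1 x1 r1 r3
  obtain ⟨d, d1, -, d3⟩ := h.l1 (M := M) hz.1 z1 (mem_cent1.2 (mem_cent.1 c1 z ⟨⟨hz.1, zx⟩, zM, zx⟩).symm) c2
  have d4 : d ∈ C_(P.1 ⊓ M) := mem_cent.2 fun b hb => mem_cent.1 d1 b (by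
    have := mem_cent1.2 (mem_cent.1 hz.2 b hb.1)
    exact ⟨⟨hb.1, this⟩, hb.2, this⟩)
  have k : N_(P.1) ≤ N_(P.1 ⊓ M) := norm_inf le_rfl (by simp [normalizer_eq_top])
  refine ⟨n * (d * s), mem_inf.2 ⟨?_, mul_mem (k hn) (mul_mem (cent_le_norm _ d4) (k (le_norm _ hs.1)))⟩, ?_⟩
  · rw [← QuotientGroup.eq_one_iff, QuotientGroup.mk_mul, QuotientGroup.mk_mul, d3, c3, ← QuotientGroup.mk_mul,
      ← QuotientGroup.mk_mul, ← e1, mul_inv_cancel_left, QuotientGroup.eq_one_iff]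
    exact hg
  · rw [← e, mul_assoc n, mem_cent1.1 (mul_mem (cent_le_cent1 hx d4) hs.2)]
    group

theorem sub [hM : M.Normal] {T : Sylow p M} (hT : T.1 = P.1.subgroupOf M) : HH T := by
  refine ⟨fun x hx g e => ?_, fun x hx x1 => ?_, fun x y hx hy => ?_⟩
  · rw [hT] at hx e ⊢
    obtain ⟨n, hn, e⟩ := h.fuM ⟨hx, x.2⟩ g.2 e
    exact ⟨⟨n, hn.1⟩, H03.mem_normalizer_of_conj_le fun y hy => (conj_mem_of_norm hn.2 (show y.1 ∈ _ from ⟨hy, y.2⟩)).1,
      Subtype.ext e⟩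
  · rw [hT] at hx
    exact H03.HasNPC.of_injective (h.np x hx fun e => x1 (Subtype.ext e)) ((M.subtype.comp (Subgroup.subtype _)).codRestrict _
      fun y => mem_cent1.2 (congrArg Subtype.val (mem_cent1.1 y.2))) fun a b e =>
        Subtype.ext (Subtype.ext (congrArg Subtype.val e :))
  · have := h.ps x y (by simpa) (by simpa)
    rw [show closure ({x.1, y.1} : Set G) = (closure ({x, y} : Set M)).map M.subtype by
      rw [MonoidHom.map_closure, Set.image_pair]; rfl] at this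
    exact H24.PS.congr this (equivMapOfInjective _ _ M.subtype_injective).symm

/-- a `p'`-element normalizing but not centralizing `P` -/
theorem exists_reg (hn : ¬ HasNormalPComplement p G) : ∃ r ∈ N_(P.1), ¬ p ∣ orderOf r ∧ r ∉ C_(P.1) := by
  by_contra! k
  refine hn (H03.hasNPC_of_sylow_controls_fusion P fun x hx g e => ?_)
  obtain ⟨n, hn, e⟩ := h.fu x hx g e
  refine ⟨_, pPart_mem_sylow hn, ?_⟩
  have := mem_cent.1 (k _ (H21.pReg_mem p hn) (H21.not_dvd_orderOf_pReg p n)) x hx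
  rw [← e]
  conv_rhs => rw [← H21.pPart_mul_pReg p n, mul_assoc _ _ x, ← this]
  group

theorem le_of_reg [hM : M.Normal] (r0 : r ∈ M) (r2 : r ∈ N_(P.1)) (r3 : ¬ p ∣ orderOf r) (r4 : r ∉ C_(P.1)) : P.1 ≤ M := by
  have i : Function.Injective fun a : P.1 => (⟨a⁻¹ * (r * a * r⁻¹), mul_mem (inv_mem a.2) (conj_mem_of_norm r2 a.2)⟩ : P.1) := by
    intro a b e
    replace e : (a : G)⁻¹ * (r * a * r⁻¹) = (b : G)⁻¹ * (r * b * r⁻¹) := congrArg Subtype.val e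
    by_contra ne
    refine r4 (h.r1 (mul_mem a.2 (inv_mem b.2)) (fun c => ne (Subtype.ext (mul_inv_eq_one.1 c))) (mem_cent1.2 ?_) r2 r3)
    calc r * (a * (b : G)⁻¹) = a * ((a : G)⁻¹ * (r * a * r⁻¹)) * (r * (b : G)⁻¹) := by group
      _ = _ := by rw [e]; group
  intro x hx
  obtain ⟨a, e⟩ := Finite.surjective_of_injective i ⟨x, hx⟩
  rw [← show (a : G)⁻¹ * (r * a * r⁻¹) = x from congrArg Subtype.val e]
  simpa [mul_assoc] using mul_mem (hM.conj_mem r r0 (a : G)⁻¹) (inv_mem r0)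

theorem le_normal [hM : M.Normal] (hn : ¬ HasNormalPComplement p M) : P.1 ≤ M := by
  have nM : ∀ X : Subgroup G, X ≤ N_(M) := by simp [normalizer_eq_top]
  set T := H03.sylowInf P.1 P.2 M (H03.not_dvd_relIndex_inf_normal P M)
  have hT : T.1 = P.1.subgroupOf M := rfl
  obtain ⟨r, r2, r3, r4⟩ := (h.sub hT).exists_reg hn
  obtain ⟨z, hz, zM, z1⟩ := exists_z (P := P) (M := M) fun e => r4 (mem_cent.2 fun a ha => by
    rw [show a = 1 from Subtype.ext (e.le (show a.1 ∈ _ from ⟨ha, a.2⟩))]; simp)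
  have rz : r.1 ∉ C_[z] := fun c => r4 ((h.sub hT).r1 (a := ⟨z, zM⟩) hz.1 (fun e => z1 (congrArg Subtype.val e))
    (mem_cent1.2 (Subtype.ext (mem_cent1.1 c))) r2 r3)
  set B := P.1 ⊓ C_(P.1) ⊓ M
  have rB : r.1 ∈ N_(B) := H03.mem_normalizer_of_conj_le fun b hb => by
    have : r.1 * b * r.1⁻¹ ∈ P.1 := (conj_mem_of_norm r2 (show (⟨b, hb.2⟩ : M) ∈ T.1 from hb.1.1) :)
    exact ⟨⟨this, h.cz hb.1 this⟩, hM.conj_mem b hb.2 _⟩
  have PB : P.1 ≤ C_(B) := fun a ha => mem_cent.2 fun b hb => (mem_cent.1 hb.1.2 a ha).symm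
  obtain ⟨c, hc, e⟩ := H03.exists_mul_mem_normalizer_sylow P (C := C_(B) ⊓ (M ⊔ P.1)) (le_inf PB le_sup_right) (g := r.1)
    fun x hx => mem_inf.2 ⟨conj_mem_of_norm' (norm_le_norm_cent _ rB) (PB hx), mul_mem (mul_mem (inv_mem (mem_sup_left r.2))
      (mem_sup_right hx)) (mem_sup_left r.2)⟩
  refine h.le_of_reg (r := H21.pReg p (r * c)) ?_ (H21.pReg_mem p e) (H21.not_dvd_orderOf_pReg p _) fun k => rz ?_
  · obtain ⟨m, hm, s, hs, rfl⟩ := mem_sup_of_normal_left.1 hc.2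
    rw [← QuotientGroup.eq_one_iff, ← QuotientGroup.mk'_apply, H21.map_pReg, H21.pReg_eq_one_iff, map_mul, map_mul,
      QuotientGroup.mk'_apply M m, (QuotientGroup.eq_one_iff m).2 hm, QuotientGroup.mk'_apply M r,
      (QuotientGroup.eq_one_iff r.1).2 r.2, one_mul, one_mul]
    exact H21.orderOf_pow_of_mem (P.2.map _) (mem_map_of_mem _ hs)
  · have : r * c ∈ C_[z] := H21.pPart_mul_pReg p (r * c) ▸ mul_mem
      (mem_cent1.2 (mem_cent.1 hz.2 _ (pPart_mem_sylow e))) (cent_le_cent1 hz.1 k)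
    exact (mul_mem_cancel_right (cent_le_cent1 (show z ∈ B from ⟨hz, zM⟩) hc.1)).1 this

theorem not_npc (hO : pPrimeCore p G = ⊥) (hnn : ¬ P.1.Normal) [hM : M.Normal] (h0 : M ≠ ⊥) : ¬ HasNormalPComplement p M := by
  have k : ∀ (N : Subgroup G) [N.Normal], HasNormalPComplement p N → IsPGroup p N := fun N _ hN => by
    rw [← H03.pResidual_eq_bot_iff, H03.HasNPC.pResidual_eq_pPrimeCore hN, ← H02.pPrimeCoreOf_eq_bot_iff,
      H02.pPrimeCoreOf_eq_inf, hO, bot_inf_eq]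
  intro hN
  have le := (k M hN).le_sylow_of_normal P
  obtain ⟨z, hz, zM, z1⟩ := exists_z (P := P) (M := M) (by rwa [inf_eq_right.2 le])
  have : (C_(P.1) ⊓ M).Normal := ⟨fun b hb g => ⟨h.cz ⟨le hb.2, hb.1⟩ (le (hM.conj_mem b hb.2 g)), hM.conj_mem b hb.2 g⟩⟩
  have e := (k C_(C_(P.1) ⊓ M) (H03.HasNPC.of_le (h.np z hz.1 z1) (cent_le_cent1 ⟨hz.2, zM⟩))).le_sylow_of_normal P
  exact hnn (le_antisymm e (fun a ha => mem_cent.2 fun b hb => (mem_cent.1 hb.1 a ha).symm) ▸ inferInstance)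

theorem sigma (hx : orderOf x = p) (hy : orderOf y = p) {x' y' : G} (h1 : x' ∈ P.1 ⊓ C_(P.1)) (h2 : y' ∈ P.1 ⊓ C_(P.1))
    (e1 : IsConj x' x) (e2 : IsConj y' y) :
    ∃ σ : closure ({x, y} : Set G) →* P.1, ∀ g, IsConj (σ g : G) (H21.pPart p (g : G)) := by
  have hs := h.ps x y hx hy
  set H := Subgroup.closure ({x, y} : Set G) with hH
  have hmem : ∀ (z : H) (z' : G), orderOf (z : G) = p → z' ∈ P.1 ⊓ C_(P.1) → IsConj z' z → z ∈ pPrimePCore p H := by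
    intro z z' hz h1 e
    obtain ⟨S, hS⟩ := (H21.isPGroup_zpowers (x := z) (p := p) ⟨1, by rw [pow_one, ← hz, orderOf_coe]⟩).exists_le_sylow
    refine H16.mem_pPrimePCore_of_comm hs S fun s hs => Subtype.ext ?_
    obtain ⟨c, hc⟩ := H03.exists_conj_mem_sylow P (S.2.map H.subtype)
    obtain ⟨d, hd⟩ := isConj_iff.1 e
    have k := h.cz (g := c * d) h1 (by
      have := hc z (mem_map_of_mem H.subtype (hS (mem_zpowers z)))
      rwa [← hd, show c * (d * z' * d⁻¹) * c⁻¹ = c * d * z' * (c * d)⁻¹ by group] at this)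
    have := mem_cent.1 k _ (hc s (mem_map_of_mem H.subtype hs))
    rw [coe_mul, coe_mul, ← hd]
    simpa [mul_assoc] using congrArg (· * c) this
  have htop : pPrimePCore p H = ⊤ := by
    rw [eq_top_iff]
    rintro ⟨z, hz⟩ -
    induction hz using Subgroup.closure_induction with
    | mem w hw =>
      rcases hw with rfl | rfl
      · exact hmem _ _ hx h1 e1
      · exact hmem _ _ hy h2 e2
    | one => exact one_mem _
    | mul a b ha hb h1 h2 => exact mul_mem h1 h2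
    | inv a ha h1 => exact inv_mem h1
  set K := pPrimeCore p H with hK
  have hq : IsPGroup p (H ⧸ K) := by
    rw [← H02.pCore_eq_top_iff, eq_top_iff]
    intro z _
    obtain ⟨z, rfl⟩ := QuotientGroup.mk'_surjective K z
    exact (htop ▸ Subgroup.mem_top z : z ∈ pPrimePCore p H)
  obtain ⟨Q⟩ : Nonempty (Sylow p H) := inferInstance
  have hb : Function.Bijective ((QuotientGroup.mk' K).comp (Q : Subgroup H).subtype) := by
    constructor
    · rw [injective_iff_map_eq_one]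
      intro a ha
      have h1 : (a : H) ∈ (Q : Subgroup H) ⊓ K := ⟨a.2, (QuotientGroup.eq_one_iff _).1 ha⟩
      rw [hK, H02.isPGroup_inf_pPrimeCore Q.2] at h1
      exact Subtype.ext h1
    · intro z
      have h1 : (Q : Subgroup H).map (QuotientGroup.mk' K) = ⊤ :=
        ((Q.mapSurjective (QuotientGroup.mk'_surjective K)).is_maximal' (hq.to_subgroup ⊤) le_top).symm
      obtain ⟨a, ha, rfl⟩ := (h1 ▸ Subgroup.mem_top z : z ∈ (Q : Subgroup H).map (QuotientGroup.mk' K))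
      exact ⟨⟨a, ha⟩, rfl⟩
  set e := MulEquiv.ofBijective _ hb with he
  obtain ⟨c, hc⟩ := H03.exists_conj_mem_sylow P (Q.2.map H.subtype)
  let π : H →* (Q : Subgroup H) := e.symm.toMonoidHom.comp (QuotientGroup.mk' K)
  have hπ : ∀ g, QuotientGroup.mk' K (π g : H) = QuotientGroup.mk' K g := fun g => e.apply_symm_apply _
  refine ⟨(((MulAut.conj c).toMonoidHom.comp (H.subtype.comp (Q : Subgroup H).subtype)).comp π).codRestrict _
    fun g => hc _ ⟨π g, (π g).2, rfl⟩, fun g => ?_⟩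
  have h1 : QuotientGroup.mk' K (H21.pPart p g) = QuotientGroup.mk' K g := by
    rw [H21.map_pPart, H21.pPart_of_pow]
    exact (IsPGroup.iff_orderOf.1 hq) _
  obtain ⟨k, -, hk⟩ := H21.exists_conj_of_coset (K := K) (H02.not_dvd_card_pPrimeCore hp.out) (a := (π g : H))
    (b := H21.pPart p g) (by rw [Subgroup.normalizer_eq_top]; trivial) (H21.orderOf_pow_of_mem Q.2 (π g).2)
    (H21.orderOf_pPart p g) (by
      rw [← QuotientGroup.eq_one_iff, ← QuotientGroup.mk'_apply, map_mul, map_inv, h1, hπ, mul_inv_cancel])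
  rw [← H21.coe_pPart, ← hk]
  refine IsConj.trans (b := ((π g : H) : G)) (isConj_iff.2 ⟨c⁻¹, ?_⟩) (isConj_iff.2 ⟨k, rfl⟩)
  simp [mul_assoc]

end HH

end H17.BR
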