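import Mathlib
import Cfsg.Agent.H17.BR4

/-! The case of a simple group and an odd prime. -/

set_option autoImplicit false
set_option linter.unusedSectionVars false

open Cfsg BG Subgroup Classical

namespace H17.BR

universe u
variable {G : Type u} [Group G] [Fintype G] {p : ℕ} [hp : Fact p.Prime] {P : Sylow p G}

theorem HH.exists_hy (h : HH P) : ∃ (L : Type u) (_ : Group L) (_ : Fintype L) (K : Subgroup L) (_ : K.Normal)
    (e : P.1 ≃* K), Hy p K (P.1.subtype.comp e.symm.toMonoidHom) := by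
  set W := pPrimeCore p N_(P.1) with hW
  set φ : P.1 →* N_(P.1) ⧸ W := (QuotientGroup.mk' W).comp (inclusion (le_norm _)) with hφ
  have inj : Function.Injective φ := by
    rw [injective_iff_map_eq_one]
    intro a ha
    have h1 : inclusion (le_norm _) a ∈ P.1.subgroupOf N_(P.1) ⊓ W := ⟨a.2, (QuotientGroup.eq_one_iff _).1 ha⟩
    rw [hW, H02.isPGroup_inf_pPrimeCore (P := P.1.subgroupOf _) (P.2.comap_of_injective _ (subtype_injective _))] at h1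
    exact Subtype.ext (congrArg Subtype.val h1 :)
  have F1 : ∀ (n : N_(P.1)) (a b : P.1), (n : N_(P.1) ⧸ W) * φ a * (n : N_(P.1) ⧸ W)⁻¹ = φ b ↔ n.1 * a * n.1⁻¹ = b := by
    intro n a b
    rw [show (n : N_(P.1) ⧸ W) * φ a * (n : N_(P.1) ⧸ W)⁻¹ = φ ⟨_, conj_mem_of_norm n.2 a.2⟩ from rfl, inj.eq_iff,
      Subtype.ext_iff]
  have frob : ∀ a : P.1, a ≠ 1 → ∀ x, Commute x (φ a) → ∃ b : P.1, b.1 ∈ C_[a.1] ∧ φ b = x := by
    intro a a1 x hx
    obtain ⟨n, rfl⟩ := QuotientGroup.mk_surjective x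
    have a1' : a.1 ≠ 1 := fun e => a1 (Subtype.ext e)
    have c : n.1 ∈ C_[a.1] := mem_cent1.2 (mul_inv_eq_iff_eq_mul.1 ((F1 n a a).1 (mul_inv_eq_iff_eq_mul.2 hx)))
    have c1 := h.r1 a.2 a1' (H21.pReg_mem p c) (H21.pReg_mem p n.2) (H21.not_dvd_orderOf_pReg p _)
    have np := H03.HasNPC.of_le (h.np a a.2 a1') (cent_le_cent1 a.2)
    have c2 := (H03.HasNPC.mem_pResidual_iff np (x := ⟨_, c1⟩)).2 (by
      simpa using H03.coprime_iff_not_dvd.2 (H21.not_dvd_orderOf_pReg p n.1))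
    rw [H03.HasNPC.pResidual_eq_pPrimeCore np] at c2
    have c3 : H21.pReg p n ∈ W := by
      rw [hW, ← H02.pPrimeCoreOf_subgroupOf, mem_subgroupOf, H21.coe_pReg]
      exact H02.pPrimeCoreOf_le_pPrimeCoreOf_of_le_normalizer (cent_le_norm _) (norm_le_norm_cent _) ⟨_, c2, rfl⟩
    refine ⟨⟨_, pPart_mem_sylow n.2⟩, H21.pPart_mem p c, ?_⟩
    conv_rhs => rw [← H21.pPart_mul_pReg p n, QuotientGroup.mk_mul, (QuotientGroup.eq_one_iff _).2 c3, mul_one]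
    exact congrArg (QuotientGroup.mk' W) (Subtype.ext (H21.coe_pPart (p := p) n).symm)
  have hK : φ.range.Normal := ⟨fun _ ⟨a, ha⟩ x => by
    obtain ⟨n, rfl⟩ := QuotientGroup.mk_surjective x
    exact ⟨⟨_, conj_mem_of_norm n.2 a.2⟩, ha ▸ rfl⟩⟩
  set e := MonoidHom.ofInjective inj
  have he : ∀ a, (e a : N_(P.1) ⧸ W) = φ a := fun _ => rfl
  have hj : ∀ a, P.1.subtype.comp e.symm.toMonoidHom (e a) = a := by simp
  refine ⟨_, _, Fintype.ofFinite _, φ.range, hK, e, P.2.of_equiv e, ?_, fun g hg => ?_, fun a b => ?_, fun a a1 => ?_,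
    fun a a1 => ?_⟩
  · rintro _ ⟨a, rfl⟩ a1 x hx
    obtain ⟨b, -, rfl⟩ := frob a (fun e => a1 (by rw [e, map_one])) x hx
    exact ⟨b, rfl⟩
  · obtain ⟨c, hc⟩ := H03.exists_conj_mem_sylow P (H21.isPGroup_zpowers hg)
    exact ⟨e ⟨_, hc g (mem_zpowers g)⟩, by rw [hj]; exact (isConj_iff.2 ⟨c, rfl⟩).symm⟩
  · obtain ⟨a, rfl⟩ := e.surjective a
    obtain ⟨b, rfl⟩ := e.surjective b
    rw [hj, hj, he, he, isConj_iff, isConj_iff]
    refine ⟨fun ⟨g, hg⟩ => ?_, fun ⟨x, hx⟩ => ?_⟩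
    · obtain ⟨n, hn, k⟩ := h.fu a a.2 g (hg ▸ b.2)
      exact ⟨_, (F1 ⟨n, hn⟩ a b).2 (k.trans hg)⟩
    · obtain ⟨n, rfl⟩ := QuotientGroup.mk_surjective x
      exact ⟨_, (F1 n a b).1 hx⟩
  · obtain ⟨a, rfl⟩ := e.surjective a
    rw [hj]
    exact h.np a a.2 fun c => a1 (by rw [show a = 1 from Subtype.ext c, map_one])
  · obtain ⟨a, rfl⟩ := e.surjective a
    obtain ⟨S, hS⟩ := (h.syl a.2).exists_sylow hp.out
    have : C_[φ a] = ((P.1 ⊓ C_[a.1]).subgroupOf P.1).map φ := le_antisymm (fun x hx => by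
      obtain ⟨b, hb, rfl⟩ := frob a (fun c => a1 (by rw [c, map_one])) x (mem_cent1.1 hx)
      exact ⟨b, ⟨b.2, hb⟩, rfl⟩) (by
      rintro _ ⟨b, hb, rfl⟩
      rw [mem_cent1, ← map_mul, ← map_mul]
      exact congrArg φ (Subtype.ext (mem_cent1.1 hb.2)))
    rw [hj, he, this, card_map_of_injective inj, Nat.card_congr (subgroupOfEquivOfLe inf_le_left).toEquiv, ← hS,
      card_map_of_injective (subtype_injective _), S.card_eq_multiplicity]

theorem HH.two [IsSimpleGroup G] (h : HH P) (hna : ¬ IsMulCommutative G) (P1 : P.1 ≠ ⊥) : p = 2 := by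
  by_contra h2
  obtain ⟨L, _, _, K, _, e, hy⟩ := h.exists_hy
  have hj : ∀ a, P.1.subtype.comp e.symm.toMonoidHom (e a) = a := by simp
  have hz : ∀ a : P.1, (e a : L) ∈ ZZ p K → a.1 ∈ P.1 ⊓ C_(P.1) ∧ a.1 ^ p = 1 := fun a ha =>
    ⟨⟨a.2, mem_cent.2 fun b hb => congrArg Subtype.val (e.injective (a₁ := ⟨b, hb⟩ * a) (a₂ := a * ⟨b, hb⟩) (Subtype.ext (by
      simpa using (ha.2.1 _ (e ⟨b, hb⟩).2).symm)))⟩, congrArg Subtype.val (e.injective (a₁ := a ^ p) (a₂ := 1)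
      (Subtype.ext (by simpa using ha.2.2)))⟩
  obtain ⟨k1, k2⟩ := hy.odd hna (by have := hp.out.two_le; omega) ((nontrivial_iff_ne_bot K).1
    (e.toEquiv.nontrivial_congr.1 ((nontrivial_iff_ne_bot _).2 P1))) fun x w hx hw x1 w1 b d => by
      obtain ⟨x, rfl⟩ := e.surjective x
      obtain ⟨w, rfl⟩ := e.surjective w
      have o : ∀ (a : P.1) (g : G), (e a : L) ∈ ZZ p K → e a ≠ 1 → orderOf (g * a * g⁻¹) = p := fun a g ha a1 => by
        rw [H01.PP2.ord_conj]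
        exact orderOf_eq_prime (hz a ha).2 fun c => a1 (by rw [show a = 1 from Subtype.ext c, map_one])
      obtain ⟨σ, hσ⟩ := h.sigma (o x d hx x1) (o w b hw w1) (hz x hx).1 (hz w hw).1 (isConj_iff.2 ⟨d, rfl⟩)
        (isConj_iff.2 ⟨b, rfl⟩)
      set u : closure ({d * x * d⁻¹, b * w * b⁻¹} : Set G) := ⟨_, subset_closure (Or.inl rfl)⟩
      set v : closure ({d * x * d⁻¹, b * w * b⁻¹} : Set G) := ⟨_, subset_closure (Or.inr rfl)⟩
      have h1 := hσ u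
      have h2 := hσ v
      rw [H21.pPart_of_pow ⟨1, by rw [pow_one]; exact o x d hx x1⟩] at h1
      rw [H21.pPart_of_pow ⟨1, by rw [pow_one]; exact o w b hw w1⟩] at h2
      refine ⟨e (σ u), e (σ v), (hy.fus _ _).1 ?_, (hy.fus _ _).1 ?_, fun i => ?_⟩
      · rw [hj, hj]; exact (isConj_iff.2 ⟨d, rfl⟩).trans h1.symm
      · rw [hj, hj]; exact (isConj_iff.2 ⟨b, rfl⟩).trans h2.symm
      · rw [← map_pow, ← map_mul, ← map_pow, ← map_mul, hj, hj, hj]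
        convert hσ (u * v ^ i) using 2
        simp [u, v]
  have k : ∀ a : P.1, a.1 ∈ P.1 ⊓ C_(P.1) ∧ a.1 ^ p = 1 := fun a => hz a (k1.ge (e a).2)
  refine h2 (H01.PP2.two_of_trans P P1 ⟨⟨⟨fun a b => Subtype.ext (mem_cent.1 (k b).1.2 a a.2)⟩⟩, fun a ha => (k ⟨a, ha⟩).2⟩
    (fun x hx y hy' x1 y1 => isConj_iff.1 ?_) (fun x hx o => h.np x hx fun c => hp.out.one_lt.ne (by rw [← o, c, orderOf_one])) h.ps)
  have n : ∀ a : P.1, a.1 ≠ 1 → (e a : L) ≠ 1 := fun a a1 c =>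
    a1 (congrArg Subtype.val (e.injective (a₂ := 1) (Subtype.ext (by simpa using c))))
  simpa only [hj] using (hy.fus (e ⟨x, hx⟩) (e ⟨y, hy'⟩)).2 (k2 _ (e _).2 _ (e _).2 (n _ x1) (n _ y1))

end H17.BR
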