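import Mathlib
import Cfsg.Agent.BG.C4_18
import Cfsg.Agent.BG.C4_16
import Cfsg.Agent.BG.C4_5
import Cfsg.Agent.BG.Quo3
import Cfsg.Agent.BG.Api4
import Cfsg.Agent.H16.Primitive
import Cfsg.Agent.H04.Aut

/-!
Odd order groups moving a small part of a normal abelian 2-subgroup (namespace `H17.FG`).
`o k` is the odd part of the order of `GL k 2`.
-/

set_option autoImplicit false
set_option linter.unusedSectionVars false
open Cfsg BG Subgroup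
open scoped commutatorElement

namespace H17.FG
universe u
variable {G : Type u} [Group G] [Finite G] {A B E F H K L M T W X Y : Subgroup G} {p r s k d : ℕ}

def o (k : ℕ) : ℕ := ∏ i ∈ Finset.range k, (2 ^ (i + 1) - 1)

theorem o_dvd {j : ℕ} (h : j ≤ k) : o j ∣ o k :=
  Finset.prod_dvd_prod_of_subset _ _ _ (Finset.range_subset_range.2 h)

theorem prod_eq (r : ℕ) : ∏ i : Fin r, (2 ^ r - 2 ^ (i : ℕ)) = (∏ i ∈ Finset.range r, 2 ^ i) * o r := by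
  rw [Fin.prod_univ_eq_prod_range (fun i => 2 ^ r - 2 ^ i) r, o,
    ← Finset.prod_range_reflect (fun i => 2 ^ (i + 1) - 1) r, ← Finset.prod_mul_distrib]
  refine Finset.prod_congr rfl fun i hi => ?_
  have := Finset.mem_range.1 hi
  rw [Nat.mul_sub, mul_one, ← pow_add, show i + (r - 1 - i + 1) = r by omega]

theorem relIndex_cent_dvd (h : A ≤ N_(X)) : (C_(X)).relIndex A ∣ Nat.card (MulAut X) := by
  have := Subgroup.index_ker (X.normalizerMonoidHom.comp (Subgroup.inclusion h))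
  rw [← MonoidHom.comap_ker, Subgroup.normalizerMonoidHom_ker] at this
  exact (show (C_(X)).relIndex A = _ from this) ▸ Subgroup.card_subgroup_dvd_card _

theorem idx_dvd (hW : IsPGroup 2 W) (hk : Nat.card W ≤ 2 ^ k) (hA : A ≤ N_(W)) (ho : Odd (Nat.card A)) :
    (C_(W)).relIndex A ∣ o k := by
  obtain ⟨n, hn⟩ := pg_card Nat.prime_two hW
  have hnk : n ≤ k := (Nat.pow_le_pow_iff_right one_lt_two).1 (hn ▸ hk)
  obtain ⟨r, hr, e⟩ := (Nat.dvd_prime_pow Nat.prime_two).1 (hn ▸ index_dvd_card (frattini W))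
  have h1 := (relIndex_cent_dvd hA).trans (H04.card_mulAut_dvd hn e)
  have h2 : ((C_(W)).relIndex A).Coprime 2 :=
    (Nat.coprime_two_right.2 (ho.of_dvd_nat (BG.relIndex_dvd_card _ _)))
  rw [prod_eq, Finset.prod_pow_eq_pow_sum, ← mul_assoc, ← pow_add] at h1
  exact ((h2.pow_right _).dvd_of_dvd_mul_left h1).trans (o_dvd (hr.trans hnk))

theorem pow_le_of_dvd (hr : r.Prime) {m n j : ℕ} (h : r ^ m ∣ n) (h' : ¬ r ^ (j + 1) ∣ n) : m ≤ j := by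
  by_contra e
  exact h' ((pow_dvd_pow r (by omega)).trans h)

theorem idx_pow (hr : r.Prime) (hA : IsPGroup r A) (X : Subgroup G) : ∃ m, X.relIndex A = r ^ m := by
  obtain ⟨n, hn⟩ := pg_card hr hA
  obtain ⟨m, -, e⟩ := (Nat.dvd_prime_pow hr).1 (hn ▸ BG.relIndex_dvd_card X A)
  exact ⟨m, e⟩

theorem le_of_idx (hr : r.Prime) (hA : IsPGroup r A) {n : ℕ} (h : X.relIndex A ∣ n) (hn : ¬ r ∣ n) : A ≤ X := by
  obtain ⟨m, e⟩ := idx_pow hr hA X
  have : m ≤ 0 := pow_le_of_dvd hr (e ▸ h) (by rwa [zero_add, pow_one])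
  rw [Nat.le_zero.1 this, pow_zero] at e
  exact relIndex_eq_one.1 e

theorem odd_of_pg (hr : r.Prime) (h2 : r ≠ 2) (hA : IsPGroup r A) : Odd (Nat.card A) := by
  obtain ⟨n, hn⟩ := pg_card hr hA
  exact hn ▸ (hr.odd_of_ne_two h2).pow

section
variable [M.Normal] (hM : IsMulCommutative M) (h2 : IsPGroup 2 M)

omit [Finite G] in
theorem nM (X : Subgroup G) : X ≤ N_(M) := le_normalizer_of_normal

omit [Finite G] in
theorem nC (X : Subgroup G) : X ≤ N_(C_(M)) := norm_cent (nM X)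

omit [Finite G] in
theorem cm_le (X : Subgroup G) : ⁅X, M⁆ ≤ M := comm_le_right (nM X)

include h2 in
theorem cop (ho : Odd (Nat.card B)) : (Nat.card B).Coprime (Nat.card M) := by
  obtain ⟨n, hn⟩ := pg_card Nat.prime_two h2
  rw [hn]; exact (Nat.coprime_two_right.2 ho).pow_right _

include hM h2 in
theorem cent_of_cent (ho : Odd (Nat.card B)) (h1 : ⁅B, M⁆ ≤ W) (hc : B ≤ C_(W)) : B ≤ C_(M) :=
  coprime_cent_of_comm (nM B) (cop h2 ho) (Or.inr (sol_of_abelian hM))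
    ((BG.comm_comm M B).le.trans (h1.trans (cent_symm hc)))

include hM h2 in
theorem idxM_dvd (ho : Odd (Nat.card X)) (hk : Nat.card ↥⁅X, M⁆ ≤ 2 ^ k) : (C_(M)).relIndex X ∣ o k := by
  have h1 := idx_dvd (pg_le h2 (cm_le X)) hk (left_le_norm_comm X M) ho
  have e : C_(⁅X, M⁆) ⊓ X = C_(M) ⊓ X := le_antisymm
    (le_inf (cent_of_cent hM h2 (odd_of_le ho inf_le_right) (comm_mono inf_le_right le_rfl) inf_le_left) inf_le_right)
    (inf_le_inf_right _ (cent_anti (cm_le X)))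
  rwa [← inf_relIndex_right, e, inf_relIndex_right] at h1

include hM in
theorem card_cm_sup (A B : Subgroup G) : Nat.card ↥⁅A ⊔ B, M⁆ ≤ Nat.card ↥⁅A, M⁆ * Nat.card ↥⁅B, M⁆ := by
  have hl : ⁅A, M⁆ ⊔ ⁅B, M⁆ ≤ M := sup_le (cm_le A) (cm_le B)
  have h1 : ⁅A ⊔ B, M⁆ ≤ ⁅A, M⁆ ⊔ ⁅B, M⁆ :=
    comm_sup_le (le_norm_of_comm ((BG.comm_comm M A).le.trans le_sup_left) hl)
      (le_norm_of_comm ((BG.comm_comm M B).le.trans le_sup_right) hl) le_sup_left le_sup_right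
  refine (card_le h1).trans (Nat.le_of_dvd (Nat.mul_pos (BG.card_pos _) (BG.card_pos _)) (card_sup_dvd ?_))
  exact (cm_le B).trans (le_norm_of_abelian hM (cm_le A))

omit [Finite G] in
theorem cm_sup_cent (A : Subgroup G) : ⁅A ⊔ C_(M), M⁆ = ⁅A, M⁆ :=
  comm_sup_cent le_rfl (le_norm_of_cent (cent_anti (cm_le A)))

theorem norm_of_comm (h : ⁅Y, A⁆ ≤ C_(M)) : Y ≤ N_(⁅A, M⁆) := by
  rw [← cm_sup_cent A]
  refine norm_comm (le_norm_of_comm_le (comm_sup_le (BG.le_norm _ |> le_sup_left.trans)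
    (BG.le_norm _ |> le_sup_right.trans) ?_ ?_)) (nM Y)
  · exact (BG.comm_comm A Y).le.trans (h.trans le_sup_right)
  · exact (comm_le_left (nC Y)).trans le_sup_right

include hM h2 in
theorem fpf (ho : Odd (Nat.card A)) : ⁅A, M⁆ ⊓ C_(A) = ⊥ := by
  have := (coprime_abelian_dprod (nM A) (cop h2 ho) hM).disj
  rw [eq_bot_iff, ← this, BG.comm_comm M A]
  exact le_inf (le_inf (inf_le_left.trans (cm_le A)) inf_le_right) inf_le_left

omit [Finite G] in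
theorem cj_cm (t : G) (A : Subgroup G) : cj t ⁅A, M⁆ = ⁅cj t A, M⁆ := by
  rw [cj_comm, cj_of_mem_norm (nM (M := M) ⊤ (mem_top t))]

include hM h2 in
theorem irr (hr : r.Prime) (hr2 : r ≠ 2) (hA : IsPGroup r A) (hW : Nat.card ↥⁅A, M⁆ = 2 ^ (d + 1)) (hd : ¬ r ∣ o d)
    (hle : W ≤ ⁅A, M⁆) (hn : A ≤ N_(W)) : W = ⊥ ∨ W = ⁅A, M⁆ := by
  refine or_iff_not_imp_right.2 fun hne => ?_
  have hW2 : IsPGroup 2 W := pg_le h2 (hle.trans (cm_le A))
  obtain ⟨n, e⟩ := pg_card Nat.prime_two hW2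
  have h1 := card_lt (lt_of_le_of_ne hle hne)
  rw [e, hW] at h1
  have h3 : n ≤ d := Nat.lt_succ_iff.1 ((Nat.pow_lt_pow_iff_right one_lt_two).1 h1)
  have h4 := le_of_idx hr hA (idx_dvd hW2 (e.le.trans (Nat.pow_le_pow_right two_pos h3)) hn (odd_of_pg hr hr2 hA)) hd
  rw [eq_bot_iff, ← fpf hM h2 (odd_of_pg hr hr2 hA)]
  exact le_inf hle (cent_symm h4)

include hM h2 in
theorem ti (hr : r.Prime) (hr2 : r ≠ 2) (hT : IsPGroup r T) (hA : A ≤ T) (hW : Nat.card ↥⁅A, M⁆ = 2 ^ (d + 1))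
    (hd : ¬ r ∣ o d) (h3 : ¬ r ^ 3 ∣ o (d + 1 + (d + 1))) {t : G} (ht : t ∈ T) :
    t ∈ N_(⁅A, M⁆) ∨ cj t A ≤ C_(⁅A, M⁆) := by
  have hB : cj t A ≤ T := cj_le_of_mem_norm hA (BG.le_norm T ht)
  have hX : IsPGroup r ↥(A ⊔ cj t A) := pg_le hT (sup_le hA hB)
  have hW' : Nat.card ↥⁅cj t A, M⁆ = 2 ^ (d + 1) := by rw [← cj_cm, card_cj, hW]
  have h4 := idxM_dvd hM h2 (odd_of_pg hr hr2 hX) ((card_cm_sup hM A (cj t A)).trans (by rw [hW, hW', ← pow_add]))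
  obtain ⟨m, e⟩ := idx_pow hr hX C_(M)
  have h5 : m ≤ 2 := pow_le_of_dvd hr (e ▸ h4) h3
  have h6 := (abelian_quo_iff (nC (M := M) (A ⊔ cj t A))).1 (abelian_of_card_le_sq hr (pgroup_quo _ hX)
    (by rw [card_quo (nC _), e]; exact Nat.pow_le_pow_right hr.pos h5))
  have n1 : cj t A ≤ N_(⁅A, M⁆) := norm_of_comm ((comm_mono le_sup_right le_sup_left).trans h6)
  have n2 : A ≤ N_(⁅cj t A, M⁆) := norm_of_comm ((comm_mono le_sup_left le_sup_right).trans h6)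
  rcases irr hM h2 hr hr2 (pg_le hT hA) hW hd (W := ⁅A, M⁆ ⊓ ⁅cj t A, M⁆) inf_le_left
    (norm_inf (left_le_norm_comm A M) n2) with h | h
  · right
    rw [← comm_eq_bot, eq_bot_iff, ← h]
    exact le_inf (comm_le_right n1) (comm_mono le_rfl (cm_le A))
  · left
    rw [← cj_eq_self_iff, cj_cm]
    exact (eq_of_le_of_card_eq (inf_eq_left.1 h) (hW.trans hW'.symm)).symm

include hM h2 in
theorem ab_norm (hr : r.Prime) (hr2 : r ≠ 2) (hT : IsPGroup r T) (hA : A ≤ T) (hW : Nat.card ↥⁅A, M⁆ = 2 ^ (d + 1))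
    (hd : ¬ r ∣ o d) (h3 : ¬ r ^ 3 ∣ o (d + 1 + (d + 1))) (hF : F ≤ T) (hn : T ≤ N_(F)) (hc : IsMulCommutative F) :
    F ≤ N_(⁅A, M⁆) := by
  intro f hf
  by_contra h0
  have ho : Odd (orderOf f) := (odd_of_pg hr hr2 hT).of_dvd_nat (BG.orderOf_dvd_card (hF hf))
  have h1 : f ^ 2 ∉ N_(⁅A, M⁆) := fun h => h0 (zpowers_le.2 h
    (mem_zpowers_pow_iff.2 (Nat.coprime_two_left.2 ho)))
  have c1 := (ti hM h2 hr hr2 hT hA hW hd h3 (hF hf)).resolve_left h0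
  have c2 := (ti hM h2 hr hr2 hT hA hW hd h3 (pow_mem (hF hf) 2)).resolve_left h1
  have hA' : A ≤ C_(⁅A, M⁆) := fun a ha => by
    have m1 := c1 (conj_mem_cj f ha)
    have m2 := c2 (conj_mem_cj (f ^ 2) ha)
    have m3 : a⁻¹ * f * a ∈ F := conj_mem_of_norm' (hn (hA ha)) hf
    have m4 := mul_comm_of_abelian hc hf m3
    have : a = (f * a * f⁻¹) * (f ^ 2 * a * (f ^ 2)⁻¹)⁻¹ * (f * a * f⁻¹) := by
      have e2 : f * (a⁻¹ * f * a) * f⁻¹ = a⁻¹ * f * a := by rw [m4]; group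
      calc a = f * a * (a⁻¹ * f * a)⁻¹ := by group
        _ = f * a * (f * (a⁻¹ * f * a) * f⁻¹)⁻¹ := by rw [e2]
        _ = _ := by group
    rw [this]
    exact mul_mem (mul_mem m1 (inv_mem m2)) m1
  have h5 := fpf hM h2 (odd_of_pg hr hr2 (pg_le hT hA))
  rw [inf_eq_left.2 (cent_symm hA')] at h5
  rw [h5, card_bot] at hW
  exact absurd hW.symm (Nat.one_lt_two_pow (by omega)).ne'

include hM h2 in
theorem rank3 (hr : r.Prime) (hr2 : r ≠ 2) (hA : IsPGroup r A) (hAH : A ≤ H) (hH : ¬ PRankLE r 2 H)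
    (hW : Nat.card ↥⁅A, M⁆ = 2 ^ (d + 1)) (hd : ¬ r ∣ o d) (h3 : ¬ r ^ 3 ∣ o (d + 1 + (d + 1)))
    (h4 : ¬ r ^ 2 ∣ o (d + 1)) : ∃ F : Subgroup G, IsElem r 3 F ⊤ ∧ ¬ IsCyclic ↥(F ⊓ C_(⁅A, M⁆)) := by
  have := Fact.mk hr
  obtain ⟨T, hT, hAT⟩ := sylow_superset hr hA hAH
  obtain ⟨B, hB, hB3⟩ := T4_5.rank3_scn (hT.pg hr) hr2 (mt (hT.pRankLE_iff hr).1 hH)
  obtain ⟨F, hF⟩ := (not_pRankLE_iff hr).1 hB3
  have hn := hF.le.trans (ab_norm hM h2 hr hr2 (hT.pg hr) hAT hW hd h3 hB.le hB.norm hB.abelian)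
  refine ⟨F, hF.top, fun hc => ?_⟩
  have h5 := idx_dvd (pg_le h2 (cm_le A)) hW.le hn (odd_of_pg hr hr2 hF.pg)
  obtain ⟨m, e⟩ := idx_pow hr hF.pg C_(⁅A, M⁆)
  have h6 : m ≤ 1 := pow_le_of_dvd hr (e ▸ h5) h4
  have h7 := (hF.elemAb.of_le (inf_le_left : F ⊓ C_(⁅A, M⁆) ≤ F)).card_le_of_cyclic hr hc
  have h8 := card_inf_mul_relIndex C_(⁅A, M⁆) F
  rw [inf_comm, e, hF.card] at h8
  have h9 : r ^ (2 + 1) ≤ r ^ 2 := by
    rw [← h8, pow_two]
    exact Nat.mul_le_mul h7 ((Nat.pow_le_pow_right hr.pos h6).trans (pow_one r).le)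
  exact absurd ((Nat.pow_le_pow_iff_right hr.one_lt).1 h9) (by omega)

omit [Finite G] in
theorem comm_mem_of_coprime {N : Subgroup G} [N.Normal] {x a : G} (h : ⁅⁅x, a⁆, a⁆ ∈ N)
    (hc : (orderOf ⁅x, a⁆).Coprime (orderOf a)) : ⁅x, a⁆ ∈ N := by
  have h1 : Commute (QuotientGroup.mk' N ⁅x, a⁆) (QuotientGroup.mk' N a) := by
    rw [← commutatorElement_eq_one_iff_commute, ← map_commutatorElement]
    exact (QuotientGroup.eq_one_iff _).2 h
  have h3 := h1.mul_pow (orderOf a)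
  rw [← map_mul, ← map_pow, ← map_pow, ← map_pow, pow_orderOf_eq_one, map_one, mul_one,
    show ⁅x, a⁆ * a = x * a * x⁻¹ by group, conj_pow, pow_orderOf_eq_one, mul_one, mul_inv_cancel, map_one,
    map_pow] at h3
  have h4 : orderOf (QuotientGroup.mk' N ⁅x, a⁆) = 1 :=
    Nat.eq_one_of_dvd_coprimes hc (orderOf_map_dvd _ _) (orderOf_dvd_of_pow_eq_one h3.symm)
  exact (QuotientGroup.eq_one_iff _).1 (orderOf_eq_one_iff.1 h4)

include hM in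
theorem exists_sub (hr : r.Prime) (hA : IsPGroup r A) (hn : A ≤ N_(L)) (hL : ¬ r ∣ Nat.card L)
    (h : ¬ ⁅L, A⁆ ≤ C_(M)) : ∃ s : ℕ, s.Prime ∧ s ∣ Nat.card L ∧ ∃ Y ≤ L, IsPGroup s Y ∧ A ≤ N_(Y) ∧
      Nat.card ↥⁅Y ⊔ A, M⁆ ≤ Nat.card ↥⁅A, M⁆ * Nat.card ↥⁅A, M⁆ ∧ ¬ ⁅Y, A⁆ ≤ C_(M) := by
  by_contra h0
  refine h ((quo_le_cent_iff (nC L) (nC A)).1 ((quo_le_iff (nC L)).2 (le_of_sylows fun s hs hd => ?_)))
  obtain ⟨P, hP, hAP⟩ := coprime_sylow_exists hs (Or.inl (pg_sol hr hA)) hn (pg_coprime hr hA hL)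
  refine ⟨P, hP, (quo_le_iff (nC P)).1 ((quo_le_cent_iff (nC P) (nC A)).2 (commutator_le.2 fun x hx a ha => ?_))⟩
  by_contra h1
  have hy : ⁅x, a⁆ ∈ P := comm_le_left hAP (commutator_mem_commutator hx ha)
  have hy' : ⁅x, a⁆ ∈ A ⊔ cj x A := by
    rw [commutatorElement_def]
    exact mul_mem (mem_sup_right (conj_mem_cj x ha)) (inv_mem (mem_sup_left ha))
  refine h0 ⟨s, hs, hd, (A ⊔ cj x A) ⊓ P, inf_le_right.trans hP.le, pg_le (hP.pg hs) inf_le_right,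
    norm_inf (norm_of_le le_sup_left) hAP, ?_, fun h3 => h1 ?_⟩
  · refine (card_le (comm_mono (sup_le inf_le_left le_sup_left) le_rfl)).trans ((card_cm_sup hM _ _).trans ?_)
    rw [← cj_cm, card_cj]
  · have := normal_centralizer (H := M)
    refine comm_mem_of_coprime (h3 (commutator_mem_commutator ⟨hy', hy⟩ ha)) ?_
    exact Nat.Coprime.coprime_dvd_left (BG.orderOf_dvd_card (hP.le hy))
      (Nat.Coprime.coprime_dvd_right (BG.orderOf_dvd_card ha) (pg_coprime hr hA hL).symm)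

include hM h2 in
theorem prime_cond (hr : r.Prime) (hr2 : r ≠ 2) (hs : s.Prime) (hs2 : s ≠ 2) (hA : IsPGroup r A) (hY : IsPGroup s Y)
    (hn : A ≤ N_(Y)) (hk : Nat.card ↥⁅Y ⊔ A, M⁆ ≤ 2 ^ k) (h : ¬ ⁅Y, A⁆ ≤ C_(M)) :
    s ∣ o k ∧ (¬ s ^ 2 ∣ o k → r ∣ s - 1) := by
  have ho : Odd (Nat.card ↥(Y ⊔ A)) :=
    ((odd_of_pg hs hs2 hY).mul (odd_of_pg hr hr2 hA)).of_dvd_nat (card_sup_dvd hn)
  have h1 := (relIndex_dvd_of_norm le_sup_left (nC _)).trans (idxM_dvd hM h2 ho hk)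
  refine ⟨by_contra fun h3 => h ((comm_le_left hn).trans (le_of_idx hs hY h1 h3)), fun h3 => by_contra fun h4 => ?_⟩
  obtain ⟨m, e⟩ := idx_pow hs hY C_(M)
  have h5 : m ≤ 1 := pow_le_of_dvd hs (e ▸ h1) h3
  rcases Nat.le_one_iff_eq_zero_or_eq_one.1 h5 with rfl | rfl
  · exact h ((comm_le_left hn).trans (relIndex_eq_one.1 e))
  · have h6 : Nat.card (quo C_(M) Y) = s := by rw [card_quo (nC Y), e, pow_one]
    have h7 := relIndex_cent_dvd (quo_le_norm C_(M) hn)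
    have := cyclic_of_prime (h6 ▸ hs : (Nat.card (quo C_(M) Y)).Prime)
    rw [IsCyclic.card_mulAut, h6, Nat.totient_prime hs] at h7
    exact h ((quo_le_cent_iff (nC Y) (nC A)).1 (cent_symm (le_of_idx hr (pgroup_quo _ hA) h7 h4)))

include h2 in
theorem cent_of_comm (hp : p.Prime) (hp2 : p ≠ 2) (hE : IsPGroup p E) (h : ⁅E, A⁆ ≤ C_(M))
    (hk : Nat.card ↥⁅A, M⁆ ≤ 2 ^ k) (hd : ¬ p ∣ o k) : E ≤ C_(⁅A, M⁆) :=
  le_of_idx hp hE (idx_dvd (pg_le h2 (cm_le A)) hk (norm_of_comm h) (odd_of_pg hp hp2 hE)) hd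

include hM h2 in
theorem seven (hA : IsPGroup 3 A) (hW : Nat.card ↥⁅A, M⁆ = 2 ^ (1 + 1)) (hn : A ≤ N_(K)) (hK : ¬ 3 ∣ Nat.card K)
    (ho : Odd (Nat.card K)) (h : ¬ ⁅K, A⁆ ≤ C_(M)) :
    ∃ Y ≤ K, IsPGroup 7 Y ∧ Nat.card ↥⁅Y, M⁆ = 2 ^ (2 + 1) ∧ ⁅A, M⁆ ≤ ⁅Y, M⁆ := by
  obtain ⟨s, hs, hd, Y, hYK, hY, hAY, hc, h1⟩ := exists_sub hM Nat.prime_three hA hn hK h
  have hs2 : s ≠ 2 := by rintro rfl; exact ho.not_two_dvd_nat hd
  have hs3 : s ≠ 3 := by rintro rfl; exact hK hd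
  rw [hW, ← pow_add] at hc
  obtain ⟨h3, h4⟩ := prime_cond hM h2 Nat.prime_three (by norm_num) hs hs2 hA hY hAY hc h1
  have e : o (1 + 1 + (1 + 1)) = 3 ^ 2 * (5 * 7) := by decide
  rw [e] at h3 h4
  have h7 : s = 7 := by
    rcases (Nat.Prime.dvd_mul hs).1 h3 with h | h
    · exact absurd ((Nat.prime_dvd_prime_iff_eq hs Nat.prime_three).1 (hs.dvd_of_dvd_pow h)) hs3
    rcases (Nat.Prime.dvd_mul hs).1 h with h | h
    · obtain rfl := (Nat.prime_dvd_prime_iff_eq hs Nat.prime_five).1 h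
      exact absurd (h4 (by norm_num)) (by norm_num)
    · exact (Nat.prime_dvd_prime_iff_eq hs Nat.prime_seven).1 h
  subst h7
  have hoY := odd_of_le ho hYK
  have hAW : A ≤ N_(⁅Y, M⁆) := norm_comm hAY (nM A)
  refine ⟨Y, hYK, hY, ?_, ?_⟩
  · obtain ⟨j, hj⟩ := pg_card Nat.prime_two (pg_le h2 (cm_le Y))
    have := Fact.mk hs
    have h5 := H16.card_modEq_card_inf_centralizer hY (left_le_norm_comm Y M)
    have h6 := (card_le (comm_mono le_sup_left le_rfl)).trans hc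
    rw [fpf hM h2 hoY, card_bot, hj] at h5
    rw [hj] at h6
    have h8 : j ≤ 4 := (Nat.pow_le_pow_iff_right one_lt_two).1 h6
    have h9 : j ≠ 0 := by
      rintro rfl
      exact h1 ((comm_le_left hAY).trans (comm_eq_bot.1 (BG.card_eq_one.1 hj)))
    rw [hj]
    interval_cases j <;> simp_all [Nat.ModEq]
  · rcases irr hM h2 Nat.prime_three (by norm_num) hA hW (by decide) (W := ⁅A, M⁆ ⊓ ⁅Y, M⁆) inf_le_left
      (norm_inf (left_le_norm_comm A M) hAW) with h5 | h5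
    · refine absurd (cent_of_cent hM h2 (odd_of_le hoY (comm_le_left hAY)) (comm_mono (comm_le_left hAY) le_rfl) ?_) h1
      have h6 : A ≤ C_(⁅Y, M⁆) := by
        rw [← comm_eq_bot, eq_bot_iff, ← h5]
        exact le_inf (comm_mono le_rfl (cm_le Y)) (comm_le_right hAW)
      exact (comm_mono le_rfl h6).trans (comm_le_right (norm_cent (left_le_norm_comm Y M)))
    · exact inf_eq_left.1 h5

theorem comm_le_core (hr : r.Prime) (hr2 : r ≠ 2) (hp : p.Prime) (hp2 : p ≠ 2) (hne : p ≠ r) (hX : Group.IsSolvable X)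
    (ho : Odd (Nat.card X)) (hk : PRankLE r 2 X) (hB : IsPGroup r B) (hBX : B ≤ X) (hE : IsPGroup p E) (hEX : E ≤ X)
    (h : ¬ (2 * p ∣ r + 1 ∨ 2 * p ∣ r - 1)) : ⁅E, B⁆ ≤ piCoreOf {r}ᶜ X := by
  have := Fact.mk hr
  have := Fact.mk hp
  obtain ⟨-, -, h1⟩ := T4_18.der hX ho hk
  have n0 := le_norm_pcore {r}ᶜ X
  have h3 : B ≤ pPrimePCoreOf r X := le_of_idx hr hB (relIndex_dvd_of_norm hBX (norm_ppcore r (BG.le_norm X))) h1
  have h4 := quo_mono (piCoreOf {r}ᶜ X) h3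
  rw [quo_ppcore hr] at h4
  refine comm_le_of_quo (hEX.trans n0) (hBX.trans n0) (le_cent_mono (by_contra fun h5 => h ?_) le_rfl h4)
  exact (T4_16.pi_aut hr2 hp2 (pcore_pg hr _) (pRankLE_of_le (pRankLE_quo hr
    (not_dvd_of_le (pcore_not_dvd hr X) inf_le_left) hk) (pcore_le _ _)) (pgroup_quo _ hE) hne
    ((quo_mono _ hEX).trans (le_norm_pcore _ _)) h5).2

include hM h2 in
theorem main (hs : Group.IsSolvable H) (ho : Odd (Nat.card H)) (hp : p.Prime) (hE : IsElem p 3 E H)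
    (hA : IsPGroup 3 A) (hAH : A ≤ H) (hW : Nat.card ↥⁅A, M⁆ = 2 ^ (1 + 1)) :
    ∃ (r : ℕ) (F : Subgroup G), r.Prime ∧ r ≠ 2 ∧ IsElem r 3 F ⊤ ∧ ¬ IsCyclic ↥(F ⊓ C_(⁅A, M⁆)) := by
  have h3 := Nat.prime_three
  have h7 := Nat.prime_seven
  have hp2 : p ≠ 2 := by rintro rfl; exact ho.not_two_dvd_nat hE.dvd'
  by_cases r3 : PRankLE 3 2 H
  swap
  · obtain ⟨F, hF⟩ := rank3 hM h2 h3 (by norm_num) hA hAH r3 hW (by decide) (by decide) (by decide)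
    exact ⟨3, F, h3, by norm_num, hF⟩
  have fin : E ≤ C_(⁅A, M⁆) → ∃ (r : ℕ) (F : Subgroup G), r.Prime ∧ r ≠ 2 ∧ IsElem r 3 F ⊤ ∧
      ¬ IsCyclic ↥(F ⊓ C_(⁅A, M⁆)) := fun h =>
    ⟨p, E, hp, hp2, hE.top, by rw [inf_eq_left.2 h]; exact hE.not_cyclic hp⟩
  have hp3 : p ≠ 3 := by rintro rfl; exact hE.not_pRankLE hp r3
  have := Fact.mk h3
  have hK := T4_18.min_compl hs ho r3 (Or.inl rfl)
  have hEK : E ≤ piCoreOf {3}ᶜ H := hK.le_pcore_of_pcore (hE.isPi hp hp3) hE.le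
  have hK3 := pcore_not_dvd h3 H
  have hoK := odd_of_le ho hK.le
  by_cases c1 : ⁅piCoreOf {3}ᶜ H, A⁆ ≤ C_(M)
  · exact fin (cent_of_comm h2 hp hp2 hE.pg ((comm_mono hEK le_rfl).trans c1) hW.le
      fun h => hp3 ((Nat.prime_dvd_prime_iff_eq hp h3).1 h))
  obtain ⟨Y, hYK, hY, hW', hle⟩ := seven hM h2 hA hW (hAH.trans (le_norm_pcore _ _)) hK3 hoK c1
  generalize piCoreOf {3}ᶜ H = K at *
  by_cases r7 : PRankLE 7 2 K
  swap
  · obtain ⟨F, hF, hc⟩ := rank3 hM h2 h7 (by norm_num) hY hYK r7 hW' (by decide) (by decide) (by decide)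
    exact ⟨7, F, h7, by norm_num, hF, fun h => hc (cyclic_of_le h (inf_le_inf_left _ (cent_anti hle)))⟩
  have hp7 : p ≠ 7 := by rintro rfl; exact (hE.sub hEK).not_pRankLE hp r7
  have c2 := comm_le_core h7 (by norm_num) hp hp2 hp7 (sol_of_le hs hK.le) hoK r7 hY hYK hE.pg hEK (by
    have := hp.two_le
    rintro (h | h) <;> have := Nat.le_of_dvd (by norm_num) h <;> have : p ≤ 4 := by omega
    all_goals interval_cases p <;> first | omega | exact absurd hp (by norm_num))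
  have hL7 := pcore_not_dvd h7 K
  have c3 : ⁅piCoreOf {7}ᶜ K, Y⁆ ≤ C_(M) := by
    by_contra h
    obtain ⟨s, hs', hd, Z, -, hZ, hYZ, hc, h1⟩ := exists_sub hM h7 hY (hYK.trans (le_norm_pcore _ _)) hL7 h
    have hd' := hd.trans (card_dvd (pcore_le _ _))
    have hs2 : s ≠ 2 := by rintro rfl; exact hoK.not_two_dvd_nat hd'
    have hs3 : s ≠ 3 := by rintro rfl; exact hK3 hd'
    have hs7 : s ≠ 7 := by rintro rfl; exact hL7 hd
    rw [hW', ← pow_add] at hc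
    obtain ⟨h5, h6⟩ := prime_cond hM h2 h7 (by norm_num) hs' hs2 hY hZ hYZ hc h1
    have e : o (2 + 1 + (2 + 1)) = 3 ^ 4 * (7 ^ 2 * (5 * 31)) := by decide
    rw [e] at h5 h6
    rcases (Nat.Prime.dvd_mul hs').1 h5 with h | h
    · exact hs3 ((Nat.prime_dvd_prime_iff_eq hs' h3).1 (hs'.dvd_of_dvd_pow h))
    rcases (Nat.Prime.dvd_mul hs').1 h with h | h
    · exact hs7 ((Nat.prime_dvd_prime_iff_eq hs' h7).1 (hs'.dvd_of_dvd_pow h))
    rcases (Nat.Prime.dvd_mul hs').1 h with h | h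
    · obtain rfl := (Nat.prime_dvd_prime_iff_eq hs' Nat.prime_five).1 h
      exact absurd (h6 (by norm_num)) (by norm_num)
    · obtain rfl := (Nat.prime_dvd_prime_iff_eq hs' (by norm_num : Nat.Prime 31)).1 h
      exact absurd (h6 (by norm_num)) (by norm_num)
  have c4 : ⁅E, Y⁆ ≤ C_(M) := commutator_le.2 fun x hx b hb => by
    have := normal_centralizer (H := M)
    have m := c2 (commutator_mem_commutator hx hb)
    refine comm_mem_of_coprime (c3 (commutator_mem_commutator m hb)) ?_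
    exact Nat.Coprime.coprime_dvd_left (BG.orderOf_dvd_card m)
      (Nat.Coprime.coprime_dvd_right (BG.orderOf_dvd_card hb) (pg_coprime h7 hY hL7).symm)
  refine fin ((cent_of_comm h2 hp hp2 hE.pg c4 hW'.le fun h => ?_).trans (cent_anti hle))
  rcases (Nat.Prime.dvd_mul hp).1 (show p ∣ 3 * 7 from h) with h | h
  · exact hp3 ((Nat.prime_dvd_prime_iff_eq hp h3).1 h)
  · exact hp7 ((Nat.prime_dvd_prime_iff_eq hp h7).1 h)

end
end H17.FG
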