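import Cfsg.Agent.H22.FStar
import Cfsg.Agent.H22.SigF1
import Cfsg.Agent.H26.PMin
import Cfsg.Agent.BG.Api4

/-!
# Isolated `p`-minimal subgroups (Meierfrankenfeld, Parker, Rowley)

* `H17.Is.Iso` : the abstract configuration; `H17.Is.iso_of` derives it; `Iso.map` passes to quotients;
* `Iso.caseA`, `Iso.main` : the structure of the normal closure of `O^p(P)` when `O_p(G) = 1`.
-/

set_option autoImplicit false
set_option linter.unusedSectionVars false
open Cfsg BG Subgroup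
open scoped commutatorElement

namespace H17.Is
variable {G : Type*} [Group G] [Finite G] {p : ℕ} [hp : Fact p.Prime] {S L R Q P : Subgroup G}

/-- the configuration of an isolated `p`-minimal subgroup with `R = O^p(P)` and `Q = O_p(L)` -/
structure Iso (p : ℕ) (S L R Q : Subgroup G) : Prop where
  sp : IsPGroup p S
  sl : S ≤ L
  dich : ∀ W : Subgroup G, S ≤ N_(W) → W ≤ L ∨ R ≤ W
  nle : ¬ R ≤ L
  sr : S ≤ N_(R)
  mx : ∀ N : Subgroup G, N.Normal → ¬ N ≤ L → N ⊔ L = ⊤
  qs : Q ≤ S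
  lq : L ≤ N_(Q)
  rq : R ≤ ⁅R, Q⁆

theorem nrm (A N : Subgroup G) [N.Normal] : A ≤ N_(N) := by rw [normalizer_eq_top]; exact le_top

theorem normal_of {N : Subgroup G} (h : ⊤ ≤ N_(N)) : N.Normal := normalizer_eq_top_iff.1 (top_le_iff.1 h)

theorem gen (S : Sylow p G) (hN : N_((S : Subgroup G)) ≤ L)
    (hL : ∀ P' : Subgroup G, (S : Subgroup G) ≤ P' → IsPMinimal p P' → P' ≠ P → P' ≤ L) {H W : Subgroup G}
    (hH : (S : Subgroup G) ≤ H) (hW : L ≤ W) (h : P ≤ H → P ≤ W) : H ≤ W := by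
  have h1 := H26.isSyl_of_le S hH
  rw [← h1.pElementClosure_sup]
  refine sup_le (H26.mcbride h1 (le_normalizer.trans (hN.trans hW)) fun P' M a b => ?_) (inf_le_right.trans (hN.trans hW))
  by_cases e : P' = P
  · exact e ▸ h (e ▸ a)
  · exact (hL P' b.syl.le ((H26.isPMinimal_iff b.syl).2 ⟨M, b⟩) e).trans hW

theorem iso_of (S : Sylow p G) (hSP : (S : Subgroup G) ≤ P) (hP : IsPMinimal p P) (hN : N_((S : Subgroup G)) ≤ L)
    (hL : ∀ P' : Subgroup G, (S : Subgroup G) ≤ P' → IsPMinimal p P' → P' ≠ P → P' ≤ L)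
    (hiso : ¬ pCoreOf p L ≤ pCoreOf p P) : Iso p (S : Subgroup G) L (pResidualOf p P) (pCoreOf p L) := by
  have hSL : (S : Subgroup G) ≤ L := le_normalizer.trans hN
  have hS := H26.isSyl_of_le S hSP
  obtain ⟨M, hM⟩ := (H26.isPMinimal_iff hS).1 hP
  have hPL : ¬ P ≤ L := fun h => hiso (by
    have : L = ⊤ := top_le_iff.1 (gen S hN hL le_top le_rfl fun _ => h)
    rw [this, H26.pCoreOf_top]
    exact H26.pCore_le_pCoreOf (((H02.pCore_isPGroup p G).le_sylow_of_normal S).trans hSP))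
  have hd : ∀ W : Subgroup G, (S : Subgroup G) ≤ N_(W) → W ≤ L ∨ pResidualOf p P ≤ W := fun W hW => by
    by_cases h : P ≤ (S : Subgroup G) ⊔ W
    · exact Or.inr (H26.le_of_le_pGroup_sup S.2 hW ((H26.pResidualOf_le P).trans h))
    · exact Or.inl (le_sup_right.trans (gen S hN hL le_sup_left le_rfl fun a => absurd a h))
  have hQS : pCoreOf p L ≤ S := (H26.isSyl_of_le S hSL).pCoreOf_le
  have hr : (S : Subgroup G) ≤ N_(pResidualOf p P) := hSP.trans (H26.le_normalizer_pResidualOf P)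
  have hq : (S : Subgroup G) ≤ N_(pCoreOf p L) := hSL.trans (H26.le_normalizer_pCoreOf L)
  refine ⟨S.2, hSL, hd, fun h => hPL (hS.pResidualOf_sup ▸ sup_le h hSL), hr, fun N _ h => ?_, hQS,
    H26.le_normalizer_pCoreOf L, ?_⟩
  · refine top_le_iff.1 (gen S hN hL le_top le_sup_right fun _ => ?_)
    rw [← hS.pResidualOf_sup]
    exact sup_le (((hd N (nrm _ _)).resolve_left h).trans le_sup_left) (hSL.trans le_sup_right)
  · set R := pResidualOf p P with hR
    set Q := pCoreOf p L with hQ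
    have hRP : R ≤ P := H26.pResidualOf_le P
    have h1 : Q ⊔ ⁅R, Q⁆ ≤ P := sup_le (hQS.trans hSP) (comm_le_of_le hRP (hQS.trans hSP))
    have h2 : (S : Subgroup G) ≤ N_(Q ⊔ ⁅R, Q⁆) := norm_sup hq (norm_comm hr hq)
    have h3 : R ≤ N_(Q ⊔ ⁅R, Q⁆) := by
      refine le_norm_of_cj_le fun r hr => ?_
      rw [cj_sup, cj_of_mem_norm (left_le_norm_comm R Q hr)]
      refine sup_le (fun x hx => ?_) le_sup_right
      obtain ⟨y, hy, rfl⟩ := mem_cj'.1 hx
      have : r * y * r⁻¹ = ⁅r, y⁆ * y := by rw [commutatorElement_def]; group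
      rw [this]
      exact mul_mem (mem_sup_right (commutator_mem_commutator hr hy)) (mem_sup_left hy)
    have h4 : P ≤ N_(Q ⊔ ⁅R, Q⁆) := hS.pResidualOf_sup ▸ sup_le h3 h2
    rcases hM.res_le_or h1 h2 with h | h
    · exact H26.le_of_le_pGroup_sup (H26.isPGroup_pCoreOf L) (right_le_norm_comm R Q) h
    · exact absurd ((le_inf hQS le_sup_left).trans
        (hM.inf_le_pCoreOf (H26.SubN.step _ _ h1 h4 H26.SubN.refl) h)) hiso

theorem Iso.map (h : Iso p S L R Q) {G' : Type*} [Group G'] (f : G →* G') (hf : Function.Surjective f) (hk : f.ker ≤ L) :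
    Iso p (S.map f) (L.map f) (R.map f) (Q.map f) := by
  have key : ∀ {X : Subgroup G'}, X ≤ L.map f ↔ X.comap f ≤ L := fun {X} =>
    ⟨fun a => (comap_mono a).trans (comap_map_eq_self hk).le, fun a => map_comap_eq_self_of_surjective hf X ▸ map_mono a⟩
  refine ⟨h.sp.map f, map_mono h.sl, fun W hW => ?_, fun a => h.nle ((le_comap_map f R).trans (key.1 a)),
    H26.le_normalizer_map f h.sr, fun N _ a => ?_, map_mono h.qs, H26.le_normalizer_map f h.lq,
    map_commutator R Q f ▸ map_mono h.rq⟩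
  · exact (h.dich (W.comap f) ((map_le_iff_le_comap.1 hW).trans (le_normalizer_comap f))).imp key.2 map_le_iff_le_comap.2
  · have := congrArg (Subgroup.map f) (h.mx (N.comap f) inferInstance fun b => a (key.2 b))
    rwa [Subgroup.map_sup, map_comap_eq_self_of_surjective hf, ← MonoidHom.range_eq_map, MonoidHom.range_eq_top.2 hf] at this

theorem Iso.qp (h : Iso p S L R Q) : IsPGroup p Q := h.sp.to_le h.qs

theorem Iso.cent (h : Iso p S L R Q) {T W : Subgroup G} [T.Normal] (hT : ¬ p ∣ Nat.card T) (hW : W ≤ T) (hL : W ≤ L) :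
    W ≤ C_(Q) := by
  rw [← comm_eq_bot, eq_bot_iff, ← BG.inf_eq_bot_of_coprime (pg_coprime hp.out h.qp hT)]
  exact le_inf (comm_le_right (hL.trans h.lq)) ((comm_mono hW le_rfl).trans (comm_le_left (nrm _ _)))

theorem Iso.caseA (h : Iso p S L R Q) {t : ℕ} (ht : t.Prime) (htp : t ≠ p) {T : Subgroup G} [T.Normal]
    (hT : IsPGroup t T) (hTL : ¬ T ≤ L) : R.Normal ∧ R ≤ T ∧ ⁅⁅R, R⁆, R⁆ = ⊥ := by
  haveI := Fact.mk ht
  have hRT : R ≤ T := (h.dich T (nrm _ _)).resolve_left hTL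
  have hpT : ¬ p ∣ Nat.card T := fun a => htp (by
    obtain ⟨n, hn⟩ := hT.exists_card_eq
    exact ((Nat.prime_dvd_prime_iff_eq hp.out ht).1 (hp.out.dvd_of_dvd_pow (hn ▸ a))).symm)
  set U := ⁅T, Q⁆ with hU
  haveI hUn : U.Normal := normal_of (h.mx T inferInstance hTL ▸ sup_le (left_le_norm_comm T Q) (norm_comm (nrm _ _) h.lq))
  have hUT : U ≤ T := comm_le_left (nrm _ _)
  have hUp : IsPGroup t U := hT.to_le hUT
  have hRU : R ≤ U := h.rq.trans (comm_mono hRT le_rfl)
  have hUU : ⁅U, Q⁆ = U := coprime_comm_comm (nrm _ _) (pg_coprime hp.out h.qp hpT)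
    (Or.inl (by haveI := h.qp.isNilpotent; infer_instance))
  haveI hΦ : (frattiniOf U).Normal := normal_of (norm_phi (nrm _ _))
  have hRΦ : ¬ R ≤ frattiniOf U := fun a => by
    have h1 := h.mx _ hΦ fun b => h.nle (a.trans b)
    have h2 : U ⊓ L = U := eq_of_le_sup_phi inf_le_left (by
      rw [← H26.inf_sup_eq_of_le_normalizer' (nrm _ _) (phi_le U), sup_comm, h1, inf_top_eq])
    exact h.nle (hRU.trans (h2 ▸ inf_le_right))
  set π := QuotientGroup.mk' (frattiniOf U) with hπ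
  have hk : π.ker = frattiniOf U := QuotientGroup.ker_mk' _
  have hA : IsElementaryAbelian t (U.map π) := by
    refine ⟨abelian_iff_der.2 ?_, ?_⟩
    · rw [← map_commutator, Subgroup.map_eq_bot_iff, hk]; exact der_le_phi ht hUp
    · rintro _ ⟨x, hx, rfl⟩
      rw [← map_pow]
      exact (QuotientGroup.eq_one_iff _).2 (pow_mem_phi ht hUp hx)
  obtain ⟨C, hC, hSC⟩ := hA.maschke (K := S.map π) ht (map_mono hRU) (H26.le_normalizer_map π (nrm _ _))
    (H26.le_normalizer_map π h.sr) (fun a => htp (by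
      obtain ⟨n, hn⟩ := (h.sp.map π).exists_card_eq
      exact (Nat.prime_dvd_prime_iff_eq ht hp.out).1 (ht.dvd_of_dvd_pow (hn ▸ a))))
  have hWU : C.comap π ≤ U := (comap_mono hC.le_right).trans (comap_map_eq_self (hk.le.trans (phi_le U))).le
  have hW : C.comap π ≤ C_(Q) := by
    refine h.cent hpT (hWU.trans hUT) ((h.dich _ ((map_le_iff_le_comap.1 hSC).trans (le_normalizer_comap π))).resolve_right
      fun a => hRΦ ?_)
    rw [← hk, ← Subgroup.map_eq_bot_iff, eq_bot_iff, ← hC.disj]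
    exact le_inf le_rfl (map_le_iff_le_comap.2 a)
  have hUR : U ≤ R := by
    rw [← hUU, commutator_le]
    intro u hu q hq
    obtain ⟨_, ⟨r, hr, rfl⟩, c, hc, e⟩ := hC.mem.1 (mem_map_of_mem π hu)
    have h1 : r⁻¹ * u ∈ C.comap π := by
      rw [mem_comap, map_mul, map_inv, ← e, inv_mul_cancel_left]; exact hc
    have h2 : ⁅u, q⁆ = r * (q * r⁻¹ * q⁻¹) := by
      have := hW h1 q hq
      calc ⁅u, q⁆ = r * ((r⁻¹ * u) * q) * (r⁻¹ * u)⁻¹ * r⁻¹ * q⁻¹ := by rw [commutatorElement_def]; group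
        _ = _ := by rw [← this]; group
    rw [h2]
    exact mul_mem hr ((mem_normalizer_iff.1 (h.sr (h.qs hq)) _).1 (inv_mem hr))
  obtain e : R = U := le_antisymm hRU hUR
  refine ⟨e ▸ hUn, hRT, ?_⟩
  have h1 : frattiniOf U ≤ C_(Q) := h.cent hpT ((phi_le U).trans hUT) ((h.dich _ (nrm _ _)).resolve_right hRΦ)
  have h2 : R ≤ C_(frattiniOf U) := h.rq.trans ((comm_mono le_rfl (le_centralizer_iff.1 h1)).trans (comm_le_right (nrm _ _)))
  rw [comm_eq_bot]
  exact ((der_mono hRU).trans (der_le_phi ht hUp)).trans (le_centralizer_iff.1 h2)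

/-- the join of the `S`-conjugates of `K` -/
def orb (S K : Subgroup G) : Subgroup G := ⨆ s : S, cj (s : G) K

theorem cj_le_orb {K : Subgroup G} {s : G} (hs : s ∈ S) : cj s K ≤ orb S K := le_iSup (fun s : S => cj (s : G) K) ⟨s, hs⟩

theorem le_orb (S K : Subgroup G) : K ≤ orb S K := (cj_one K).ge.trans (cj_le_orb S.one_mem)

theorem norm_orb (S K : Subgroup G) : S ≤ N_(orb S K) := fun g hg => mem_norm_of_cj_le (cj_le_iff.2 (iSup_le fun x =>
  cj_le_iff.1 ((cj_cj g x K).le.trans (cj_le_orb (mul_mem hg x.2)))))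

theorem orb_le_layer {K : Subgroup G} (hK : IsComponent K) : orb S K ≤ layer G :=
  iSup_le fun s => H22.le_layer (H22.comp_conj hK s)

theorem le_cent_orb {K M : Subgroup G} (hK : IsComponent K) (hM : IsComponent M) (h : ∀ s ∈ S, M ≠ cj s K) :
    M ≤ C_(orb S K) :=
  le_centralizer_iff.1 (iSup_le fun s => comm_eq_bot.1 (H22.comp_comm_of_ne (H22.comp_conj hK s) hM fun e => h s s.2 e.symm))

theorem Iso.caseB (h : Iso p S L R Q) (hO : pCore p G = ⊥) (hF : fittingSubgroup G ≤ L) :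
    ∃ K : Subgroup G, IsComponent K ∧ normalClosure (R : Set G) = orb S K ∧ p ∣ Nat.card (orb S K) := by
  haveI := H22.fstar_normal (G := G)
  haveI := H22.layer_normal (G := G)
  have hE : ¬ layer G ≤ L := fun hE => by
    have h1 : generalizedFittingSubgroup G ≤ N_(Q) := (H22.fstar_def.le.trans (sup_le hE hF)).trans h.lq
    have h2 : ∀ X : Subgroup G, X ≤ Q → X ≤ generalizedFittingSubgroup G → generalizedFittingSubgroup G ≤ N_(X) → X = ⊥ :=
      fun X a b c => le_bot_iff.1 (hO ▸ (H26.le_pCoreOf b c (h.qp.to_le a)).trans (H26.pCoreOf_le_pCore _))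
    have h3 := h2 ⁅generalizedFittingSubgroup G, Q⁆ (comm_le_right h1) (comm_le_left (nrm _ _)) (left_le_norm_comm _ _)
    have h4 := h2 Q le_rfl ((le_centralizer_iff.1 (comm_eq_bot.1 h3)).trans H22.centralizer_fstar_le) h1
    exact h.nle (h.rq.trans (by rw [h4, commutator_bot_right]; exact bot_le))
  rw [H22.layer_le_iff] at hE
  push Not at hE
  obtain ⟨K, hK, hKL⟩ := hE
  have hR : ∀ {M : Subgroup G}, ¬ M ≤ L → R ≤ orb S M := fun {M} a =>
    (h.dich _ (norm_orb S M)).resolve_left fun b => a ((le_orb S M).trans b)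
  have hC : ¬ R ≤ C_(layer G) := fun a => h.nle (le_trans ?_ (H22.centralizer_fstar_le_fitting.trans hF))
  swap
  · rw [H22.fstar_def, le_centralizer_iff]
    exact sup_le (le_centralizer_iff.1 a)
      (H22.fitting_le_centralizer_layer.trans (centralizer_le ((hR hKL).trans (orb_le_layer hK))))
  have hT : ∀ {M : Subgroup G}, IsComponent M → ¬ M ≤ L → ∃ s ∈ S, M = cj s K := fun {M} hM a => by
    by_contra hc
    push Not at hc
    refine hC (le_centralizer_iff.1 (H22.layer_le_iff.2 fun X hX => ?_))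
    by_cases b : ∃ s ∈ S, X = cj s K
    · obtain ⟨s, hs, rfl⟩ := b
      refine (le_cent_orb (S := S) hM hX fun y hy e => hc (y⁻¹ * s) (mul_mem (inv_mem hy) hs) ?_).trans (centralizer_le (hR a))
      exact (cj_eq_iff.1 e.symm).trans (cj_cj _ _ _)
    · push Not at b
      exact (le_cent_orb hK hX b).trans (centralizer_le (hR hKL))
  haveI hn : (orb S K).Normal := by
    refine normal_of (h.mx (layer G) inferInstance (fun a => hKL ((H22.le_layer hK).trans a)) ▸ sup_le ?_ ?_)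
    · exact fun g hg => mem_norm_of_cj_le (cj_le_iff.2 (iSup_le fun x => cj_le_iff.1
        ((cj_of_mem_norm (H22.layer_le_normalizer (H22.comp_conj hK x) hg)).le.trans (cj_le_orb x.2))))
    · refine fun g hg => mem_norm_of_cj_le (cj_le_iff.2 (iSup_le fun x => cj_le_iff.1 ?_))
      obtain ⟨s, hs, e⟩ := hT (M := cj g (cj x K)) (H22.comp_conj (H22.comp_conj hK x) g) fun a =>
        hKL ((cj_le_iff_of_mem_norm (le_normalizer (mul_mem hg (h.sl x.2)))).1 (cj_cj g x K ▸ a))
      exact e.le.trans (cj_le_orb hs)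
  have hab : ∀ X : Subgroup G, X.Normal → R ≤ X → ¬ Group.IsNilpotent X := fun X _ a b =>
    h.nle (a.trans ((H02.le_fitting b).trans hF))
  have hY : normalClosure (R : Set G) = orb S K := by
    refine le_antisymm (normalClosure_le_normal (hR hKL)) (iSup_le fun s => ?_)
    have h1 : K ≤ normalClosure (R : Set G) := by
      refine (H22.comp_le_or_comm_of_subnormal hK (Normal.isSubnormal inferInstance)).resolve_right fun a => ?_
      have h2 : orb S K ≤ C_(normalClosure (R : Set G)) := iSup_le fun s => cj_le_of_mem_norm (comm_eq_bot.1 a) (nrm ⊤ _ trivial)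
      haveI := abelian_iff.2 ((normalClosure_le_normal (hR hKL) : _ ≤ orb S K).trans h2)
      exact hab _ inferInstance le_normalClosure (H02.isNilpotent_of_isMulCommutative _)
    exact cj_le_of_mem_norm h1 (nrm ⊤ _ trivial)
  refine ⟨K, hK, hY, by_contra fun hd => ?_⟩
  set Y := orb S K with hYd
  have hsyl : ∀ r : ℕ, r.Prime → ∃ T, IsSylowIn r T Y ∧ S ≤ N_(T) := fun r hr => coprime_sylow_exists hr
    (Or.inl (by haveI := h.sp.isNilpotent; infer_instance)) (nrm _ _) (pg_coprime hp.out h.sp hd)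
  choose T hT1 hT2 using hsyl
  obtain ⟨t, ht, htL⟩ : ∃ t ht, ¬ T t ht ≤ L := by
    by_contra hc
    push Not at hc
    exact h.nle ((hR hKL).trans (le_of_sylows fun r hr _ => ⟨_, hT1 r hr, hc r hr⟩))
  have hRT := (h.dich _ (hT2 t ht)).resolve_left htL
  have hprd : H22.Prd (T t ht) (Y ⊓ C_(Q)) Y := by
    refine H22.prd_of_coprime (hT1 t ht).le (coprime_of_forall fun r hr a b => ?_)
    have hrt : r ≠ t := by rintro rfl; exact (hT1 r hr).not_dvd' hr a
    have h1 : T r hr ≤ L := (h.dich _ (hT2 r hr)).resolve_right fun c => h.nle (le_trans (le_inf c hRT)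
      ((BG.inf_eq_bot_of_coprime (pg_coprime_ne hr ht ((hT1 r hr).pg hr) ((hT1 t ht).pg ht) hrt)).le.trans bot_le))
    exact (hT1 r hr).not_dvd' hr (b.trans (relIndex_dvd_left Y (le_inf (hT1 r hr).le (h.cent hd (hT1 r hr).le h1))))
  have h1 : ⁅Y, Q⁆ ≤ T t ht := by
    rw [commutator_le]
    intro u hu q hq
    obtain ⟨r, hr, c, hc, rfl⟩ := hprd u hu
    have h2 : ⁅r * c, q⁆ = r * (q * r⁻¹ * q⁻¹) := by
      calc ⁅r * c, q⁆ = r * (c * q) * c⁻¹ * r⁻¹ * q⁻¹ := by rw [commutatorElement_def]; group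
        _ = _ := by rw [← hc.2 q hq]; group
    rw [h2]
    exact mul_mem hr ((mem_normalizer_iff.1 (hT2 t ht (h.qs hq)) _).1 (inv_mem hr))
  haveI := Fact.mk ht
  exact hab ⁅Y, Q⁆ (normal_of (h.mx Y hn (fun a => h.nle ((hR hKL).trans a)) ▸
    sup_le (left_le_norm_comm Y Q) (norm_comm (nrm _ _) h.lq))) (h.rq.trans (comm_mono (hR hKL) le_rfl))
    (((hT1 t ht).pg ht).to_le h1).isNilpotent

theorem Iso.main (h : Iso p S L R Q) (hO : pCore p G = ⊥) : R ≤ generalizedFittingSubgroup G ∧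
    ((R.Normal ∧ ∃ t : ℕ, t.Prime ∧ t ≠ p ∧ IsPGroup t R ∧ ⁅⁅R, R⁆, R⁆ = ⊥) ∨
      ∃ K : Subgroup G, IsComponent K ∧ normalClosure (R : Set G) = orb S K ∧ p ∣ Nat.card (orb S K)) := by
  by_cases hF : fittingSubgroup G ≤ L
  · obtain ⟨K, hK, h1, h2⟩ := h.caseB hO hF
    exact ⟨(le_normalClosure.trans h1.le).trans ((orb_le_layer hK).trans H22.layer_le_fstar), Or.inr ⟨K, hK, h1, h2⟩⟩
  · rw [H02.fitting_eq_iSup_pCore, iSup_le_iff] at hF
    push Not at hF
    obtain ⟨⟨t, ht⟩, hF⟩ := hF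
    have htp : t ≠ p := by rintro rfl; exact hF (hO.le.trans bot_le)
    haveI := Fact.mk ht
    obtain ⟨h1, h2, h3⟩ := h.caseA ht htp (H02.pCore_isPGroup t G) hF
    exact ⟨h2.trans H22.pCore_le_fstar, Or.inl ⟨h1, t, ht, htp, (H02.pCore_isPGroup t G).to_le h2, h3⟩⟩

theorem Iso.final (h : Iso p S L R Q) (hO : pCore p G ≤ S) (hR : pResidualOf p R = R) {Y : Subgroup G}
    (hY : Y = normalClosure (R : Set G)) :
    R ≤ (generalizedFittingSubgroup (G ⧸ pCore p G)).comap (QuotientGroup.mk' (pCore p G)) ∧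
    ((R = Y ∧ ∃ t : ℕ, t.Prime ∧ t ≠ p ∧ IsPGroup t (Y ⧸ pCore p Y) ∧
        ⁅⁅(⊤ : Subgroup (Y ⧸ pCore p Y)), (⊤ : Subgroup (Y ⧸ pCore p Y))⁆, (⊤ : Subgroup (Y ⧸ pCore p Y))⁆ = ⊥) ∨
      (¬ Group.IsSolvable Y ∧ p ∣ Nat.card (Y ⧸ pCore p Y) ∧ layer (Y ⧸ pCore p Y) = ⊤ ∧
        ∀ K₁ K₂ : Subgroup (Y ⧸ pCore p Y), IsComponent K₁ → IsComponent K₂ → ∃ s ∈ S,
          (K₂.comap (QuotientGroup.mk' (pCore p Y))).map Y.subtype =
            cj s ((K₁.comap (QuotientGroup.mk' (pCore p Y))).map Y.subtype))) := by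
  set π := QuotientGroup.mk' (pCore p G) with hπ
  have hs : Function.Surjective π := QuotientGroup.mk'_surjective _
  have hk : π.ker = pCore p G := QuotientGroup.ker_mk' _
  haveI hYn : Y.Normal := hY ▸ inferInstance
  obtain ⟨h1, h2⟩ := (h.map π hs (hk.le.trans (hO.trans h.sl))).main (H02.pCore_quotient_pCore p G)
  refine ⟨map_le_iff_le_comap.1 h1, ?_⟩
  have hker : pCore p Y = (π.comp Y.subtype).ker := by
    ext x
    rw [← H26.mem_pCoreOf_iff, H26.pCoreOf_eq_inf_of_normal le_top (nrm _ _), H26.pCoreOf_top]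
    exact ⟨fun a => hk.ge a.2, fun a => ⟨x.2, hk.le a⟩⟩
  let φ : Y ⧸ pCore p Y →* G ⧸ pCore p G := QuotientGroup.lift _ (π.comp Y.subtype) hker.le
  have hφ : Function.Injective φ := (QuotientGroup.injective_lift_iff _ _ _).2 hker
  have hr : φ.range = Y.map π := by
    ext z
    constructor
    · rintro ⟨y, rfl⟩
      obtain ⟨y, rfl⟩ := QuotientGroup.mk_surjective y
      exact ⟨y, y.2, rfl⟩
    · rintro ⟨y, hy, rfl⟩
      exact ⟨((⟨y, hy⟩ : Y) : Y ⧸ pCore p Y), rfl⟩
  rcases h2 with ⟨h2, t, ht, htp, h3, h4⟩ | ⟨K, hK, h2, h3⟩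
  · have e : R = Y := by
      haveI : (pCore p G ⊔ R).Normal := by
        have := h2.comap π
        rwa [comap_map_eq, hk, sup_comm] at this
      haveI : R.Normal := by
        rw [← hR, ← H26.pResidualOf_sup_eq (H02.pCore_isPGroup p G) (hO.trans h.sr)]
        exact H26.pResidualOf_normal _
      rw [hY, normalClosure_eq_self]
    subst e
    refine Or.inl ⟨rfl, t, ht, htp, (hr ▸ h3 : IsPGroup t φ.range).of_equiv (MonoidHom.ofInjective hφ).symm, ?_⟩
    rw [← map_eq_bot_iff_of_injective _ hφ, map_commutator, map_commutator, ← MonoidHom.range_eq_map, hr, h4]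
  · have e : φ.range = orb (S.map π) K := by rw [hr, hY, map_normalClosure _ π hs, ← h2, coe_map]
    haveI : φ.range.Normal := hr ▸ hYn.map π hs
    have hc : ∀ X : Subgroup (Y ⧸ pCore p Y), IsComponent X → ∃ s ∈ S, X.map φ = cj (π s) K := fun X hX => by
      have h4 : IsComponent (X.map φ) := by
        have := (H22.comp_map_subtype_iff (H := φ.range) (Normal.isSubnormal inferInstance) _).1
          (H22.comp_map_equiv (MonoidHom.ofInjective hφ) hX)
        rwa [Subgroup.map_map] at this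
      by_contra hc
      refine H22.comp_not_le_centralizer h4 ((le_cent_orb (S := S.map π) hK h4 ?_).trans
        (centralizer_le (e ▸ map_le_range φ X)))
      rintro _ ⟨s, hs, rfl⟩ a
      exact hc ⟨s, hs, a⟩
    have hx : ∀ X : Subgroup (Y ⧸ pCore p Y), (X.comap (QuotientGroup.mk' (pCore p Y))).map Y.subtype =
        (X.map φ).comap π ⊓ Y := fun X => by
      ext g
      constructor
      · rintro ⟨y, hy, rfl⟩
        exact ⟨⟨_, hy, rfl⟩, y.2⟩
      · rintro ⟨⟨z, hz, a⟩, hg⟩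
        refine ⟨⟨g, hg⟩, ?_, rfl⟩
        have : z = QuotientGroup.mk' _ (⟨g, hg⟩ : Y) := hφ a
        subst this
        exact hz
    refine Or.inr ⟨fun a => ?_, ?_, ?_, fun K₁ K₂ a b => ?_⟩
    · haveI : Group.IsSolvable φ.range := Group.isSolvable_of_surjective φ.rangeRestrict_surjective
      exact H22.comp_not_le_of_solvable hK (e ▸ le_orb _ K : K ≤ φ.range)
    · rwa [← e, ← Nat.card_congr (MonoidHom.ofInjective hφ).toEquiv] at h3
    · refine map_injective hφ (le_antisymm (map_mono le_top) ?_)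
      rw [← MonoidHom.range_eq_map, e]
      refine iSup_le fun s => ?_
      have h4 : cj (s : G ⧸ pCore p G) K ≤ φ.range := e ▸ cj_le_orb s.2
      rw [← map_comap_eq_self h4]
      exact map_mono (H22.le_layer (H22.comp_comap_injective hφ (H22.comp_conj hK _) h4))
    · obtain ⟨s, hs, a⟩ := hc _ a
      obtain ⟨t, ht, b⟩ := hc _ b
      refine ⟨t * s⁻¹, mul_mem ht (inv_mem hs), ?_⟩
      rw [hx, hx, a, b, cj_inf, cj_of_mem_norm (nrm ⊤ Y trivial)]
      congr 1
      ext g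
      simp only [mem_comap, mem_cj, map_mul, map_inv]
      group

end H17.Is
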