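import Cfsg.Agent.H01.KS91
import Cfsg.Agent.H17.Chief
import Cfsg.Agent.H26.Repl

/-!
# Replacement lemmas for abelian subgroups of largest order

* `H17.JT.tim`, `surj` : Timmesfeld and Thompson replacement for `maxAb 0 S`;
* `H17.JT.parity` : the vanishing of a top-degree commutator;
* `H17.JT.swap`, `dd_comm`, `map_iter`.
-/

set_option autoImplicit false
set_option linter.unusedSectionVars false
open Cfsg BG Subgroup
open scoped commutatorElement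

namespace H17.JT

theorem parity {V Z : Type*} [AddCommGroup Z] (φ : V → V → Z) (g c : V → V) (γ κ : Z →+ Z) (E : ℕ → V → Prop)
    (h2 : ∀ z : Z, z + z = 0 → z = 0) (anti : ∀ x y, φ x y = - φ y x)
    (hg : ∀ x y, γ (φ x y) = φ (g x) y + φ x (g y) - φ (g x) (g y))
    (hc : ∀ x y, κ (φ x y) = φ (c x) y + φ x (c y) - φ (c x) (c y))
    (gg : ∀ z, γ (γ z) = 0) (cg : ∀ z, κ (γ z) = 0)
    (Eg : ∀ i x, E i x → E (i + 1) (g x)) (Ec : ∀ i x, E i x → E (i + 1) (c x))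
    (E6 : ∀ i j x y, 6 ≤ i + j → E i x → E j y → φ x y = 0) (E5 : ∀ x y, E 5 x → φ x y = 0)
    (s1 : ∀ x y, φ (g (c x)) y = φ (c (g x)) y) (s2 : ∀ x y, φ (g (g (c x))) y = φ (c (g (g x))) y)
    {v : V} (hv : E 0 v) : φ (g (g v)) (c (g (g v))) = 0 := by
  have key1 : ∀ i j x y, i + j = 3 → E i x → E j y → φ (g (g x)) y + φ (g x) (g y) + φ (g x) (g y) + φ x (g (g y)) = 0 := by
    intro i j x y h a b
    have := gg (φ x y)
    rw [hg, map_sub, map_add, hg, hg, hg, E6 _ _ (g (g x)) (g y) (by omega) (Eg _ _ (Eg _ _ a)) (Eg _ _ b),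
      E6 _ _ (g x) (g (g y)) (by omega) (Eg _ _ a) (Eg _ _ (Eg _ _ b)),
      E6 _ _ (g (g x)) (g (g y)) (by omega) (Eg _ _ (Eg _ _ a)) (Eg _ _ (Eg _ _ b))] at this
    rw [← this]; abel
  have key2 : ∀ i j x y, i + j = 3 → E i x → E j y → φ (c (g x)) y + φ (g x) (c y) + φ (c x) (g y) + φ x (c (g y)) = 0 := by
    intro i j x y h a b
    have := cg (φ x y)
    rw [hg, map_sub, map_add, hc, hc, hc, E6 _ _ (c (g x)) (c y) (by omega) (Ec _ _ (Eg _ _ a)) (Ec _ _ b),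
      E6 _ _ (c x) (c (g y)) (by omega) (Ec _ _ a) (Ec _ _ (Eg _ _ b)),
      E6 _ _ (c (g x)) (g y) (by omega) (Ec _ _ (Eg _ _ a)) (Eg _ _ b),
      E6 _ _ (g x) (c (g y)) (by omega) (Eg _ _ a) (Ec _ _ (Eg _ _ b)),
      E6 _ _ (c (g x)) (c (g y)) (by omega) (Ec _ _ (Eg _ _ a)) (Ec _ _ (Eg _ _ b))] at this
    rw [← this]; abel
  have v1 := Eg _ _ hv
  have v2 := Eg _ _ v1
  have v3 := Eg _ _ v2
  have v4 := Eg _ _ v3
  have a0 := key1 _ _ _ _ rfl (Ec _ _ hv) v2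
  have a1 := key1 _ _ _ _ rfl (Ec _ _ v1) v1
  have a2 := key1 _ _ _ _ rfl (Ec _ _ v2) hv
  have b := key2 _ _ _ _ rfl hv v3
  rw [s2, s1] at a0 a1 a2
  rw [E5 _ _ (Ec _ _ v4)] at a2
  rw [anti (g v), anti v, E5 _ _ (Ec _ _ v4)] at b
  have h3 : φ (c (g (g (g v)))) (g v) = 0 := h2 _ (by linear_combination (norm := abel) a0 - a1 - b + a2)
  rw [anti, neg_eq_zero]
  simpa [h3] using a2

universe u
variable {G : Type u} [Group G] {S A B T Y U V X K Z : Subgroup G} {p : ℕ}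

theorem dd_comm (hV : IsMulCommutative V) {g c x : G} (hg : g ∈ N_(V)) (hc : c ∈ N_(V)) (h : g * c = c * g) (hx : x ∈ V) :
    ⁅⁅x, c⁆, g⁆ = ⁅⁅x, g⁆, c⁆ := by
  have h1 := conj_mem_of_norm hc hx
  have h2 := conj_mem_of_norm hg hx
  have h3 := conj_mem_of_norm hg h1
  have e1 : ⁅⁅x, c⁆, g⁆ = x * ((c * x * c⁻¹)⁻¹ * (g * (c * x * c⁻¹) * g⁻¹) * (g * x * g⁻¹)⁻¹) := by
    simp only [commutatorElement_def]; group
  have e2 : ⁅⁅x, g⁆, c⁆ = x * ((g * x * g⁻¹)⁻¹ * ((c * g) * x * (c * g)⁻¹) * (c * x * c⁻¹)⁻¹) := by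
    simp only [commutatorElement_def]; group
  have e3 : (g * c) * x * (g * c)⁻¹ = g * (c * x * c⁻¹) * g⁻¹ := by group
  rw [e1, e2, ← h, e3, mul_comm_of_abelian hV (mul_mem (inv_mem h1) h3) (inv_mem h2), mul_assoc (g * x * g⁻¹)⁻¹,
    mul_comm_of_abelian hV (inv_mem h1) h3]

theorem map_iter {G' : Type*} [Group G'] (f : G →* G') (X A : Subgroup G) (i : ℕ) :
    (iterCommutator X A i).map f = iterCommutator (X.map f) (A.map f) i := by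
  induction i with
  | zero => rfl
  | succ i ih => rw [H04.iterComm_succ, H04.iterComm_succ, map_commutator, ih]

theorem swap (hA : A ≤ C_(A)) (hAB : A ≤ N_(B)) (hX : X ≤ B) (hU : U ≤ A) (hK : B ≤ C_(K)) (hAK : A ≤ N_(K))
    (h : ⁅X, U⁆ ≤ K) (i : ℕ) : ⁅iterCommutator X A i, U⁆ ≤ iterCommutator K A i := by
  induction i with
  | zero => exact h
  | succ i ih =>
    have h1 : A ≤ N_(iterCommutator K A (i + 1)) := H04.le_norm_iterComm hAK le_normalizer _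
    refine H26.three_subgroups (le_norm_of_cent (((H04.iterComm_mono hX le_rfl i).trans (H04.iterComm_le hAB i)).trans
      (hK.trans (cent_anti (H04.iterComm_le hAK _))))) h1 (hU.trans h1) ?_ ?_
    · rw [comm_eq_bot.2 (hA.trans (cent_anti hU)), commutator_bot_left]; exact bot_le
    · rw [comm_comm U]; exact comm_mono ih le_rfl

variable [Finite G]

theorem ea0 (h : IsMulCommutative Y) : IsElementaryAbelian 0 Y := ⟨h, fun x _ => pow_zero x⟩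

theorem self_cent (hA : A ∈ maxAb 0 S) {x : G} (hx : x ∈ S) (h : x ∈ C_(A)) : x ∈ A :=
  mem_of_commute_maxAb hA hx (pow_zero x) h

theorem tim (hA : A ∈ maxAb 0 S) (hY : IsMulCommutative Y) (hYS : Y ≤ S) (hn : A ≤ N_(Y)) (hU : U ≤ Y) :
    Y ⊓ C_(A ⊓ C_(⁅U, A⁆)) = ⁅U, A⁆ ⊔ (Y ⊓ C_(A)) ∧ H01.mv Y (A ⊓ C_(⁅U, A⁆)) = H01.mv Y A ∧
      (Y ⊓ C_(A ⊓ C_(⁅U, A⁆))) ⊔ (A ⊓ C_(⁅U, A⁆)) ∈ maxAb 0 S := by
  have hb := H01.best_of_maxAb (ea0 hY) hYS hA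
  obtain ⟨h1, h2⟩ := H01.repl_core hY hn hb.2.1 hU hb.1
  exact ⟨h1, h2, H01.maxAb_of_mv (ea0 hY) hYS hA inf_le_left h2.ge⟩

theorem surj (hA : A ∈ maxAb 0 S) (hY : IsMulCommutative Y) (hYS : Y ≤ S) (hn : A ≤ N_(Y)) {y m : G} (hy : y ∈ Y)
    (hm : m ∈ ⁅zpowers y, A⁆) : ∃ c ∈ A, ⁅y, c⁆⁻¹ * m ∈ C_(A) := by
  obtain ⟨h1, h2, -⟩ := tim hA hY hYS hn (zpowers_le.2 hy)
  set M := ⁅zpowers y, A⁆ with hM
  set W := M ⊔ (Y ⊓ C_(A)) with hW
  have hc1 : H26.cm y A ≤ Y := H26.cm_le_iff.2 fun a ha => H01.comm_mem_of_norm (hn ha) hy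
  have hc2 : M ≤ H26.cm y A := by
    rw [hM, comm_comm]
    exact H01.comm_zp_le (le_norm_of_abelian hY hc1 hy) fun a ha => by
      rw [← commutatorElement_inv]; exact inv_mem (H26.mem_cm y ha)
  have hmem : ∀ a ∈ A, ⁅y, a⁆ ∈ W := fun a ha => mem_sup_left (commutator_mem_commutator (mem_zpowers y) ha)
  let f : A ⧸ (A ⊓ C_(M)).subgroupOf A → W ⧸ (Y ⊓ C_(A)).subgroupOf W := fun q => ((⟨⁅y, (q.out : G)⁆, hmem _ q.out.2⟩ : W) : _)
  have hf : Function.Injective f := fun q q' e => by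
    rw [← q.out_eq', ← q'.out_eq']
    refine QuotientGroup.eq.2 ⟨(q.out⁻¹ * q'.out).2, cent_anti hc2 ?_⟩
    exact H26.mem_centralizer_cm hA.2.1.1 (abelian_of_le hY hc1) q.out.2 q'.out.2 (QuotientGroup.eq.1 e).2
  have hcard : Nat.card (W ⧸ (Y ⊓ C_(A)).subgroupOf W) ≤ Nat.card (A ⧸ (A ⊓ C_(M)).subgroupOf A) := by
    show (Y ⊓ C_(A)).relIndex W ≤ (A ⊓ C_(M)).relIndex A
    unfold H01.mv at h2
    rw [h1, ← card_mul_relIndex (le_sup_right : Y ⊓ C_(A) ≤ W), ← card_mul_relIndex (inf_le_left : A ⊓ C_(M) ≤ A)] at h2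
    have h3 : 0 < Nat.card ↥(A ⊓ C_(M)) * Nat.card ↥(Y ⊓ C_(A)) := Nat.mul_pos Nat.card_pos Nat.card_pos
    refine (Nat.eq_of_mul_eq_mul_left h3 ?_).le
    linarith
  obtain ⟨q, hq⟩ := (hf.bijective_of_nat_card_le hcard).2 ((⟨m, mem_sup_left hm⟩ : W) : _)
  exact ⟨_, q.out.2, (QuotientGroup.eq.1 hq).2⟩

end H17.JT
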