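import Cfsg.Agent.H17.JTr1

/-!
# Glauberman's degree bound for `J(S)`

`H17.JT.Ch` : an abelian subgroup `A` of largest order in `S`, not in `T`, with `|A ∩ B|` largest; `Ch.four` : each `g ∈ A` has
degree at most `4` on `B / Z(B)`; `Ch.three` : degree at most `3` on `Z(B)` modulo the action of `T`.
-/

set_option autoImplicit false
set_option linter.unusedSectionVars false
open Cfsg BG Subgroup
open scoped commutatorElement

namespace H17.JT
universe u
variable {G : Type u} [Group G] [Finite G] {S A B T Y U V X K Z : Subgroup G} {p : ℕ} [hp : Fact p.Prime]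

/-- the extremal choice -/
structure Ch (p : ℕ) (S T B Z A : Subgroup G) : Prop where
  pS : IsPGroup p S
  TS : T ≤ S
  BT : B ≤ T
  ZB : Z ≤ B
  Zc : B ≤ C_(Z)
  TB : ⁅T, B⁆ ≤ Z
  mem : A ∈ maxAb 0 S
  nle : ¬ A ≤ T
  mx : ∀ A' ∈ maxAb 0 S, ¬ A' ≤ T → Nat.card ↥(A' ⊓ B) ≤ Nat.card ↥(A ⊓ B)

theorem exists_ch (pS : IsPGroup p S) (TS : T ≤ S) (BT : B ≤ T) (ZB : Z ≤ B) (Zc : B ≤ C_(Z)) (TB : ⁅T, B⁆ ≤ Z)
    (h : ¬ thompsonSubgroupOf 0 S ≤ T) : ∃ A, Ch p S T B Z A := by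
  rw [thompsonOf_le_iff] at h
  push Not at h
  obtain ⟨A, ⟨h1, h2⟩, h3⟩ := Set.exists_max_image {A | A ∈ maxAb 0 S ∧ ¬ A ≤ T} (fun A => Nat.card ↥(A ⊓ B))
    (Set.toFinite _) h
  exact ⟨A, pS, TS, BT, ZB, Zc, TB, h1, h2, fun A' a b => h3 A' ⟨a, b⟩⟩

namespace Ch
variable (h : Ch p S T B Z A) [B.Normal] [Z.Normal] [T.Normal]
include h

theorem ab : A ≤ C_(A) := abelian_iff.1 h.mem.2.1.1

theorem Zab : IsMulCommutative Z := abelian_iff.2 (h.ZB.trans h.Zc)

theorem pA : IsPGroup p A := h.pS.to_le h.mem.1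

theorem BS : B ≤ S := h.BT.trans h.TS

theorem R (hY : IsMulCommutative Y) (hYB : Y ≤ B) (hn : A ≤ N_(Y)) (hU : U ≤ Y) (hc : A ⊓ B ≤ C_(⁅U, A⁆)) :
    A ⊓ C_(⁅U, A⁆) ≤ T ∨ ⁅⁅U, A⁆, A⁆ = ⊥ := by
  obtain ⟨h1, -, h2⟩ := tim h.mem hY (hYB.trans h.BS) hn hU
  refine (em _).imp_right fun h3 => ?_
  have h4 := h.mx _ h2 fun a => h3 (le_sup_right.trans a)
  have h5 := eq_of_le_of_card_ge (le_inf (le_sup_of_le_right (le_inf inf_le_left hc)) inf_le_right) h4
  have h6 : ⁅U, A⁆ ≤ A ⊓ B := h5 ▸ le_inf (le_sup_of_le_left (h1 ▸ le_sup_left))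
    (((comm_mono hU le_rfl).trans (comm_le_left hn)).trans hYB)
  exact comm_eq_bot.2 ((h6.trans inf_le_left).trans h.ab)

theorem quad (hY : IsMulCommutative Y) (hYB : Y ≤ B) (hn : A ≤ N_(Y)) (hc : A ⊓ T ≤ C_(Y)) : ⁅⁅Y, A⁆, A⁆ = ⊥ := by
  rcases h.R hY hYB hn le_rfl ((inf_le_inf_left A h.BT).trans (hc.trans (cent_anti (comm_le_left hn)))) with h1 | h1
  swap
  · exact h1
  have h2 := (tim h.mem hY (hYB.trans h.BS) hn le_rfl).1
  rw [inf_eq_left.2 (cent_symm ((le_inf inf_le_left h1).trans hc))] at h2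
  by_contra h0
  have h3 : ⁅Y, A⁆ ≠ ⊥ := fun e => h0 (by rw [e, commutator_bot_left])
  refine (H04.commutator_lt_of_isPGroup ((h.pS.to_le (hYB.trans h.BS)).to_le (comm_le_left hn)) h.pA
    (right_le_norm_comm Y A) h3).ne ?_
  conv_rhs => rw [h2]
  rw [H01.comm_sup_left_ab hY hn (comm_le_left hn) inf_le_left, comm_eq_bot.2 (inf_le_right : Y ⊓ C_(A) ≤ C_(A)), sup_bot_eq]

theorem two_y {y : G} (hy : y ∈ Z) : ⁅⁅zpowers y, A⁆, A⁆ ≤ ⁅zpowers y, A ⊓ T⁆ ⊔ (Z ⊓ C_(A)) := by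
  classical
  have hn : A ≤ N_(Z) := norm_of_normal _ _
  have hyZ : zpowers y ≤ Z := zpowers_le.2 hy
  have hXZ : ∀ i, iterCommutator (zpowers y) A i ≤ Z := fun i => (H04.iterComm_mono hyZ le_rfl i).trans (H04.iterComm_le hn i)
  have hex : ∃ k, iterCommutator (zpowers y) A (k + 2) = ⊥ := by
    obtain ⟨n, hn'⟩ := (h.pS.to_le (h.ZB.trans h.BS)).exists_card_eq
    exact ⟨n, le_bot_iff.1 ((H04.iterComm_mono hyZ le_rfl _).trans ((H04.iterComm_anti hn (by omega)).trans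
      (H04.iterComm_eq_bot (h.pS.to_le (h.ZB.trans h.BS)) h.pA hn hn'.le).le))⟩
  have h1 := Nat.find_spec hex
  rcases e : Nat.find hex with _ | j
  · rw [e] at h1
    exact (le_of_eq h1).trans bot_le
  have h2 : iterCommutator (zpowers y) A (j + 2) ≠ ⊥ := Nat.find_min hex (by omega)
  rw [e] at h1
  have h3 := (h.R h.Zab h.ZB hn (hXZ j) (inf_le_right.trans (h.Zc.trans (cent_anti (hXZ (j + 1)))))).resolve_right h2
  intro m hm
  obtain ⟨c, hc, hs⟩ := surj h.mem h.Zab (h.ZB.trans h.BS) hn hy (comm_le_left (right_le_norm_comm _ _) hm)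
  have h4 : ⁅y, c⁆⁻¹ * m ∈ Z ⊓ C_(A) := ⟨Z.mul_mem (Z.inv_mem (H01.comm_mem_of_norm (hn hc) hy)) (hXZ 2 hm), hs⟩
  have hK : A ≤ N_(iterCommutator (zpowers y) A 2 ⊔ (Z ⊓ C_(A))) :=
    norm_sup (right_le_norm_comm _ _) (norm_inf hn (norm_cent le_normalizer))
  have hKZ : iterCommutator (zpowers y) A 2 ⊔ (Z ⊓ C_(A)) ≤ Z := sup_le (hXZ 2) inf_le_left
  have h5 := swap h.ab (norm_of_normal A B) (hyZ.trans h.ZB) (zpowers_le.2 hc) (h.Zc.trans (cent_anti hKZ)) hK
    (H01.comm_zp_zp_le (le_norm_of_abelian h.Zab hKZ hy) (hK hc) (by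
      rw [show ⁅y, c⁆ = m * (⁅y, c⁆⁻¹ * m)⁻¹ by group]
      exact mul_mem (mem_sup_left hm) (mem_sup_right (inv_mem h4)))) (j + 1)
  rw [add_comm j 1, H04.iterComm_add (_ ⊔ _), H04.iterComm_succ (_ ⊔ _), H04.iterComm_zero,
    H01.comm_sup_left_ab h.Zab hn (hXZ 2) inf_le_left, comm_eq_bot.2 (inf_le_right : Z ⊓ C_(A) ≤ C_(A)), sup_bot_eq,
    ← H04.iterComm_succ, ← H04.iterComm_add, show 2 + 1 + j = j + 1 + 2 by omega, h1, add_comm 1 j, le_bot_iff,
    comm_comm, comm_eq_bot] at h5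
  rw [show m = ⁅y, c⁆ * (⁅y, c⁆⁻¹ * m) by group]
  exact mul_mem (mem_sup_left (commutator_mem_commutator (mem_zpowers y) ⟨hc, h3 ⟨hc, h5 (mem_zpowers c)⟩⟩)) (mem_sup_right h4)

theorem three (hX : X ≤ Z) : iterCommutator X A 3 ≤ ⁅⁅X, A ⊓ T⁆, A⁆ := by
  have hn : A ≤ N_(Z) := norm_of_normal _ _
  have h1 : ⁅⁅X, A⁆, A⁆ ≤ ⁅X, A ⊓ T⁆ ⊔ (Z ⊓ C_(A)) := by
    rw [commutator_le]
    intro m hm b hb
    have h2 : ⁅X, A⁆ ≤ ((⁅X, A ⊓ T⁆ ⊔ (Z ⊓ C_(A))).comap (H01.commHom h.Zab (hn hb))).map Z.subtype := by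
      rw [commutator_le]
      intro y hy a ha
      exact ⟨⟨_, H01.comm_mem_of_norm (hn ha) (hX hy)⟩, ((h.two_y (hX hy)).trans
        (sup_le_sup_right (comm_mono (zpowers_le.2 hy) le_rfl) _))
        (commutator_mem_commutator (commutator_mem_commutator (mem_zpowers y) ha) hb), rfl⟩
    obtain ⟨m, hm', rfl⟩ := h2 hm
    exact hm'
  refine (comm_mono h1 le_rfl).trans ?_
  rw [H01.comm_sup_left_ab h.Zab hn ((comm_mono hX le_rfl).trans (comm_le_left (norm_of_normal _ _))) inf_le_left,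
    comm_eq_bot.2 (inf_le_right : Z ⊓ C_(A) ≤ C_(A)), sup_bot_eq]

theorem three' [X.Normal] (hX : X ≤ Z) : iterCommutator X A 3 ≤ ⁅X, T⁆ :=
  (h.three hX).trans ((comm_mono (comm_mono le_rfl inf_le_right) le_rfl).trans (comm_le_left (norm_of_normal _ _)))

theorem caseI (h1 : A ⊓ C_(⁅Z, A⁆) ≤ T) : iterCommutator B A 4 ≤ Z := by
  set U := A ⊓ C_(⁅Z, A⁆) with hU
  have hn : A ≤ N_(Z) := norm_of_normal _ _
  have hUA : A ≤ N_(U) := le_norm_of_cent (h.ab.trans (cent_anti inf_le_left))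
  have hKZ : ⁅B, U⁆ ≤ Z := by rw [comm_comm]; exact (comm_mono h1 le_rfl).trans h.TB
  have hW : A ≤ N_(⁅Z, U⁆) := norm_comm hn hUA
  have h2 : ⁅⁅B, U⁆, A ⊓ T⁆ ≤ ⁅Z, U⁆ := by
    refine H26.three_subgroups (le_norm_of_cent (h.Zc.trans (cent_anti (comm_le_left (norm_of_normal _ _)))))
      (inf_le_left.trans hW) (inf_le_left.trans hW) ?_ (comm_mono ((comm_mono inf_le_right le_rfl).trans h.TB) le_rfl)
    rw [comm_eq_bot.2 (inf_le_left.trans (h.ab.trans (cent_anti inf_le_left))), commutator_bot_left]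
    exact bot_le
  have h3 : ⁅⁅Z, U⁆, A⁆ = ⊥ := by
    refine commutator_commutator_eq_bot_of_rotate ?_ ?_
    · rw [comm_eq_bot.2 (inf_le_left.trans h.ab), commutator_bot_left]
    · rw [comm_comm A, comm_comm]; exact comm_eq_bot.2 inf_le_right
  have h4 := (swap h.ab (norm_of_normal A B) le_rfl inf_le_left (h.Zc.trans (cent_anti hKZ))
    (norm_comm (norm_of_normal _ _) hUA) le_rfl 3).trans ((h.three hKZ).trans ((comm_mono h2 le_rfl).trans h3.le))
  have h5 := (tim h.mem h.Zab (h.ZB.trans h.BS) hn le_rfl).2.2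
  have hE : iterCommutator B A 3 ≤ B := H04.iterComm_le (norm_of_normal _ _) 3
  have h6 : iterCommutator B A 3 ≤ A ⊔ Z := fun x hx => (sup_le (inf_le_left.trans le_sup_right) (inf_le_left.trans le_sup_left) :
    (Z ⊓ C_(U)) ⊔ U ≤ A ⊔ Z) (self_cent h5 (h.BS (hE hx)) (cent_symm (sup_le (inf_le_left.trans (cent_symm (hE.trans h.Zc)))
      (cent_symm (comm_eq_bot.1 (le_bot_iff.1 h4)))) hx))
  refine (comm_mono h6 le_rfl).trans ((iter_sup_le A Z A 1).trans ?_)
  rw [H04.iterComm_succ, H04.iterComm_zero, comm_eq_bot.2 h.ab, bot_sup_eq]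

section II
variable (h2 : ⁅⁅Z, A⁆, A⁆ = ⊥)
include h2

theorem cent_two : A ⊓ T ≤ C_(iterCommutator B A 2) :=
  cent_symm (comm_eq_bot.1 (le_bot_iff.1 ((swap h.ab (norm_of_normal A B) le_rfl inf_le_left h.Zc (norm_of_normal _ _)
    (by rw [comm_comm]; exact (comm_mono inf_le_right le_rfl).trans h.TB) 2).trans h2.le)))

theorem comm_iter {n : ℕ} (hn : iterCommutator B A n ≤ Z) {k l : ℕ} (hk : n + 1 ≤ k + l) :
    iterCommutator B A k ≤ C_(iterCommutator B A l) := by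
  have := bilin_iter (P := B) (X := B) (U := B) (U₁ := Z) (V := Z) (V₁ := ⊥) (B := A) le_rfl le_rfl h.ZB bot_le
    (comm_eq_bot.2 (cent_symm h.Zc)).le ((comm_mono h.BT le_rfl).trans h.TB) (comm_eq_bot.2 h.Zc).le hn k l 2 (by omega)
  rw [sup_bot_eq] at this
  exact comm_eq_bot.1 (le_bot_iff.1 (this.trans h2.le))

theorem five : iterCommutator B A 5 ≤ Z := by
  have hn : A ≤ N_(B) := norm_of_normal _ _
  have key : ∀ n, iterCommutator B A (n + 5) ≤ Z → iterCommutator B A 5 ≤ Z := by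
    intro n
    induction n with
    | zero => exact id
    | succ n ih =>
      intro a
      have h3 : iterCommutator B A (n + 4) ≤ C_(A) := by
        rw [H04.iterComm_succ, commutator_le]
        intro w hw b hb
        have hle : zpowers w ⊔ iterCommutator B A (n + 4) ≤ iterCommutator B A (n + 3) :=
          sup_le (zpowers_le.2 hw) (H04.iterComm_succ_le hn _)
        have h4 := h.quad (Y := zpowers w ⊔ iterCommutator B A (n + 4))
          (abelian_sup inferInstance (abelian_iff.2 (h.comm_iter h2 a (by omega)))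
            ((zpowers_le.2 hw).trans (h.comm_iter h2 a (by omega)))) (hle.trans (H04.iterComm_le hn _))
          (le_norm_of_comm_le ((comm_mono hle le_rfl).trans le_sup_right))
          ((h.cent_two h2).trans (cent_anti (hle.trans (H04.iterComm_anti hn (by omega)))))
        exact comm_eq_bot.1 h4 (commutator_mem_commutator (mem_sup_left (mem_zpowers w)) hb)
      exact ih ((comm_eq_bot.2 h3).le.trans bot_le)
  obtain ⟨n, hn'⟩ := (h.pS.to_le h.BS).exists_card_eq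
  exact key n ((H04.iterComm_anti hn (by omega)).trans
    ((H04.iterComm_eq_bot (h.pS.to_le h.BS) h.pA hn hn'.le).le.trans bot_le))

theorem comm_two (hp2 : p ≠ 2) {v g c : G} (hv : v ∈ B) (hg : g ∈ A) (hc : c ∈ A) :
    ⁅⁅⁅v, g⁆, g⁆, ⁅⁅⁅v, g⁆, g⁆, c⁆⁆ = 1 := by
  have hn : A ≤ N_(B) := norm_of_normal _ _
  have hZ : A ≤ N_(Z) := norm_of_normal _ _
  have hBB : ∀ x y : B, ⁅(x : G), (y : G)⁆ ∈ Z := fun x y => h.TB (commutator_mem_commutator (h.BT x.2) y.2)
  letI : CommGroup Z := { (inferInstance : Group Z) with mul_comm := fun a b => Subtype.ext (h.Zc (h.ZB b.2) a a.2) }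
  let φ : B → B → Additive Z := fun x y => Additive.ofMul ⟨_, hBB x y⟩
  let d : ∀ a ∈ A, B → B := fun a ha x => ⟨⁅(x : G), a⁆, H01.comm_mem_of_norm (hn ha) x.2⟩
  let γ : ∀ a ∈ A, Additive Z →+ Additive Z := fun a ha => MonoidHom.toAdditive
    ((H01.commHom h.Zab (hZ ha)).codRestrict Z fun z => H01.comm_mem_of_norm (hZ ha) z.2)
  have hφ : ∀ x y x' : B, QuotientGroup.mk' Z (x : G) = QuotientGroup.mk' Z (x' : G) → φ x y = φ x' y := fun x y x' e => by
    obtain ⟨z, hz, e⟩ := (QuotientGroup.mk'_eq_mk' Z).1 e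
    refine congrArg Additive.ofMul (Subtype.ext ?_)
    show ⁅(x : G), (y : G)⁆ = ⁅(x' : G), (y : G)⁆
    rw [← e, commutatorElement_def, commutatorElement_def, mul_assoc (x : G) z, h.Zc y.2 z hz]
    group
  have anti : ∀ x y, φ x y = - φ y x := fun x y => congrArg Additive.ofMul (Subtype.ext (commutatorElement_inv _ _).symm)
  have l1 : ∀ x y w, φ (x * y) w = φ x w + φ y w := fun x y w => by
    rw [add_comm]
    refine congrArg Additive.ofMul (Subtype.ext ?_)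
    show ⁅(x : G) * y, (w : G)⁆ = ⁅(y : G), (w : G)⁆ * ⁅(x : G), (w : G)⁆
    rw [commutatorElement_def (x : G), ← mul_assoc, ← mul_assoc, ← mul_assoc, h.Zc x.2 _ (hBB y w)]
    simp only [commutatorElement_def]
    group
  have l2 : ∀ x w, φ x⁻¹ w = - φ x w := fun x w => by
    rw [eq_neg_iff_add_eq_zero, ← l1, inv_mul_cancel]
    exact congrArg Additive.ofMul (Subtype.ext (commutatorElement_one_left _))
  have r1 : ∀ w x y, φ w (x * y) = φ w x + φ w y := fun w x y => by rw [anti, l1, anti x, anti y]; abel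
  have r2 : ∀ w x, φ w x⁻¹ = - φ w x := fun w x => by rw [anti, l2, anti x]; abel
  have hγ : ∀ a ha x y, γ a ha (φ x y) = φ (d a ha x) y + φ x (d a ha y) - φ (d a ha x) (d a ha y) := by
    intro a ha x y
    have e : γ a ha (φ x y) = φ x y - φ ((d a ha x)⁻¹ * x) ((d a ha y)⁻¹ * y) := by
      refine congrArg Additive.ofMul (Subtype.ext ?_)
      show ⁅⁅(x : G), (y : G)⁆, a⁆ = ⁅(x : G), (y : G)⁆ / ⁅⁅(x : G), a⁆⁻¹ * x, ⁅(y : G), a⁆⁻¹ * y⁆
      simp only [commutatorElement_def, div_eq_mul_inv]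
      group
    rw [e, l1, l2, r1, r1, r2, r2]
    abel
  have hab : IsMulCommutative (B.map (QuotientGroup.mk' Z)) := by
    rw [abelian_iff_der, ← map_commutator, Subgroup.map_eq_bot_iff, QuotientGroup.ker_mk']
    exact (comm_mono h.BT le_rfl).trans h.TB
  have hsw : ∀ x ∈ B, QuotientGroup.mk' Z ⁅⁅x, c⁆, g⁆ = QuotientGroup.mk' Z ⁅⁅x, g⁆, c⁆ := fun x hx => by
    simp only [map_commutatorElement]
    exact dd_comm hab (H26.le_normalizer_map _ hn (mem_map_of_mem _ hg)) (H26.le_normalizer_map _ hn (mem_map_of_mem _ hc))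
      (by rw [← map_mul, ← map_mul, h.ab hc g hg]) (mem_map_of_mem _ hx)
  have hq : ∀ a ha b hb z, γ b hb (γ a ha z) = 0 := fun a ha b hb z => congrArg Additive.ofMul (Subtype.ext
    (mem_bot.1 (h2 ▸ commutator_mem_commutator (commutator_mem_commutator (Additive.toMul z).2 ha) hb)))
  have := parity φ (d g hg) (d c hc) (γ g hg) (γ c hc) (fun i x => (x : G) ∈ iterCommutator B A i) (fun z hz => ?_)
    anti (hγ g hg) (hγ c hc)
    (hq g hg g hg) (hq g hg c hc) (fun i x hx => commutator_mem_commutator hx hg) (fun i x hx => commutator_mem_commutator hx hc)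
    (fun i j x y a b c => congrArg Additive.ofMul (Subtype.ext (commutatorElement_eq_one_iff_mul_comm.2
      (h.comm_iter h2 (h.five h2) (k := j) (l := i) (by omega) c x b))))
    (fun x y a => congrArg Additive.ofMul (Subtype.ext (commutatorElement_eq_one_iff_mul_comm.2 (h.Zc y.2 x (h.five h2 a)))))
    (fun x y => hφ _ _ _ (hsw x x.2)) (fun x y => hφ _ _ _ ?_) (v := ⟨v, hv⟩) hv
  · exact congrArg Subtype.val (congrArg Additive.toMul this)
  · obtain ⟨k, hk⟩ := h.pS.to_le (h.ZB.trans h.BS) (Additive.toMul z)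
    have h3 : Additive.toMul z ^ 2 = 1 := (sq _).trans (congrArg Additive.toMul hz)
    have := pow_gcd_eq_one.2 ⟨h3, hk⟩
    rwa [Nat.Coprime.gcd_eq_one (Nat.Coprime.pow_right k ((Nat.coprime_primes Nat.prime_two hp.out).2 hp2.symm)),
      pow_one] at this
  · show QuotientGroup.mk' Z ⁅⁅⁅(x : G), c⁆, g⁆, g⁆ = QuotientGroup.mk' Z ⁅⁅⁅(x : G), g⁆, g⁆, c⁆
    rw [map_commutatorElement, hsw x x.2, ← map_commutatorElement, hsw _ (H01.comm_mem_of_norm (hn hg) x.2)]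

theorem caseII (hp2 : p ≠ 2) {g : G} (hg : g ∈ A) : iterCommutator B (zpowers g) 4 ≤ Z := by
  have hn : A ≤ N_(B) := norm_of_normal _ _
  have key : ∀ v ∈ B, ⁅⁅⁅⁅v, g⁆, g⁆, g⁆, g⁆ = 1 := fun v hv => by
    have hx : ⁅⁅v, g⁆, g⁆ ∈ iterCommutator B A 2 := commutator_mem_commutator (commutator_mem_commutator hv hg) hg
    have hc := fun c hc => h.comm_two h2 hp2 hv hg (c := c) hc
    set x := ⁅⁅v, g⁆, g⁆
    have h3 : ⁅zpowers x, A⁆ ≤ iterCommutator B A 3 := comm_mono (zpowers_le.2 hx) le_rfl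
    have hle : zpowers x ⊔ ⁅zpowers x, A⁆ ≤ iterCommutator B A 2 :=
      sup_le (zpowers_le.2 hx) (h3.trans (H04.iterComm_succ_le hn _))
    have h4 : ⁅zpowers x, A⁆ ≤ C_(zpowers x) := by
      rw [comm_comm, cent_zpowers]
      refine H01.comm_zp_le (le_normalizer (zpowers_le_cent1 x (mem_zpowers x))) fun c a => ?_
      rw [← commutatorElement_inv]
      refine inv_mem ?_
      rintro _ rfl
      exact commutatorElement_eq_one_iff_mul_comm.1 (hc c a)
    have h5 := h.quad (Y := zpowers x ⊔ ⁅zpowers x, A⁆) (abelian_sup inferInstance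
      (abelian_iff.2 (le_cent_mono (h.comm_iter h2 (h.five h2) (k := 3) (l := 3) le_rfl) h3 h3)) (cent_symm h4))
      (hle.trans (H04.iterComm_le hn _)) ?_ ((h.cent_two h2).trans (cent_anti hle))
    · exact mem_bot.1 (h5 ▸ commutator_mem_commutator (commutator_mem_commutator (mem_sup_left (mem_zpowers x)) hg) hg)
    · refine le_norm_of_cj_le fun r hr => ?_
      rw [cj_sup, cj_of_mem_norm (right_le_norm_comm _ A hr)]
      refine sup_le (fun y hy => ?_) le_sup_right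
      obtain ⟨y, hy', rfl⟩ := mem_cj'.1 hy
      rw [show r * y * r⁻¹ = ⁅y, r⁆⁻¹ * y by rw [commutatorElement_def]; group]
      exact mul_mem (mem_sup_right (inv_mem (commutator_mem_commutator hy' hr))) (mem_sup_left hy')
  have hab : IsMulCommutative (B.map (QuotientGroup.mk' Z)) := by
    rw [abelian_iff_der, ← map_commutator, Subgroup.map_eq_bot_iff, QuotientGroup.ker_mk']
    exact (comm_mono h.BT le_rfl).trans h.TB
  rw [← QuotientGroup.ker_mk' Z, ← Subgroup.map_eq_bot_iff, map_iter, MonoidHom.map_zpowers, eq_bot_iff]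
  set π := QuotientGroup.mk' Z
  have hg' : zpowers (π g) ≤ N_(B.map π) := zpowers_le.2 (H26.le_normalizer_map _ hn (mem_map_of_mem _ hg))
  have step : ∀ i, ∀ x ∈ iterCommutator (B.map π) (zpowers (π g)) (i + 1),
      ∃ y ∈ iterCommutator (B.map π) (zpowers (π g)) i, ⁅y, π g⁆ = x := fun i x hx =>
    (H01.mem_comm_zp (abelian_of_le hab (H04.iterComm_le hg' i))
      (H04.le_norm_iterComm hg' le_normalizer i (mem_zpowers _))).1 hx
  intro x hx
  obtain ⟨_, hx3, rfl⟩ := step 3 _ hx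
  obtain ⟨_, hx2, rfl⟩ := step 2 _ hx3
  obtain ⟨_, hx1, rfl⟩ := step 1 _ hx2
  obtain ⟨_, ⟨v, hv, rfl⟩, rfl⟩ := step 0 _ hx1
  simp only [← map_commutatorElement]
  rw [key v hv, map_one]
  exact one_mem _

end II

theorem four (hp2 : p ≠ 2) {g : G} (hg : g ∈ A) : iterCommutator B (zpowers g) 4 ≤ Z := by
  rcases h.R h.Zab h.ZB (norm_of_normal _ _) le_rfl
    (inf_le_right.trans (h.Zc.trans (cent_anti (comm_le_left (norm_of_normal _ _))))) with h1 | h1
  · exact (H04.iterComm_mono le_rfl (zpowers_le.2 hg) 4).trans (h.caseI h1)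
  · exact h.caseII h1 hp2 hg

end Ch

end H17.JT
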