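import Cfsg.Agent.H17.JTr2
import Cfsg.Agent.H17.Red3
import Cfsg.Agent.H03.Tate

/-!
# `J(S)` controls transfer for `p ≥ 7`

* `H17.JT.jmain` : degree bounds on the chief factors below `O_p(G)` when `J(S)` is not normal;
* `H17.JT.J_tr` : the functor `J` controls transfer for `p ≥ 7`;
* `H17.JT.quot_iso` : the largest `p`-factor groups agree.
-/

set_option autoImplicit false
set_option linter.unusedSectionVars false

namespace H17.JT
open Cfsg Subgroup H26 H03

universe u

variable {p : ℕ} [Fact p.Prime] {G : Type u} [Group G] [Finite G]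

/-- the functor `J` -/
def jF : ∀ (Q : Type u) [Group Q], Subgroup Q := fun Q _ => thompsonSubgroupA Q

theorem ind_jF (S : Subgroup G) : inducedFunctor jF S = thompsonSubgroupOf 0 S := thompsonAOf_eq S

theorem cent_J_le {S : Subgroup G} : S ⊓ 𝐂(thompsonSubgroupOf 0 S) ≤ thompsonSubgroupOf 0 S := by
  obtain ⟨A, hA⟩ := maxAb_nonempty 0 S
  exact fun x hx => le_thompsonOf hA (self_cent hA hx.1 (centralizer_anti (le_thompsonOf hA) hx.2))

theorem isCharP_jF : IsCharPFunctor.{u} p jF := by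
  refine ⟨fun Q _ _ hQ _ h => ?_, fun Q R _ _ _ _ φ => ?_⟩
  · have h1 := cent_J_le (S := (⊤ : Subgroup Q))
    rw [jF, thompsonA_eq, thompsonSubgroup_eq_top] at h
    rw [h] at h1
    exact top_ne_bot (le_bot_iff.1 ((le_inf le_rfl (fun x _ y hy => by simp [mem_bot.1 hy])).trans h1))
  · rw [jF, jF, thompsonA_eq, thompsonA_eq, thompsonSubgroup_eq_top, thompsonSubgroup_eq_top,
      ← thompsonOf_map _ φ.injective.injOn, map_top_of_surjective _ φ.surjective]

theorem jmain (hp : p ≠ 2) {S : Subgroup G} (hS : IsPGroup p S) (hTS : pCore p G ≤ S)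
    (hJ : ¬ (thompsonSubgroupOf 0 S).Normal) :
    ∃ g ∈ S, g ∉ pCore p G ∧
      (∀ U V, IsChiefFactor U V → U ≤ pCore p G → iterCommutator U (zpowers g) 6 ≤ V) ∧
      (𝐂(pCore p G) ≤ pCore p G → ∃ U V, IsChiefFactor U V ∧ U ≤ pCore p G ∧
        iterCommutator U (zpowers g) 4 ≤ V ∧ ¬ ⁅U, zpowers g⁆ ≤ V) := by
  obtain ⟨B, hBn, hBT, hB3, hB4⟩ := exists_crit (isPGroup_pCore (p := p) (G := G))
  have h0 : ¬ thompsonSubgroupOf 0 S ≤ pCore p G := fun h => hJ (by
    rw [← thompsonOf_eq_of_le h hTS]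
    exact normalizer_eq_top_iff.1 (eq_top_iff.2
      ((norm_of_normal ⊤ _).trans (normalizer_le_normalizer_thompsonOf 0 _))))
  obtain ⟨A, hA⟩ := exists_ch hS hTS hBT inf_le_left (le_centralizer_iff.1 inf_le_right) hB3 h0
  obtain ⟨g, hg, hgT⟩ := SetLike.not_le_iff_exists.1 hA.nle
  have hB := isPGroup_pCore.to_le hBT
  have hZ : ∀ U V : Subgroup G, IsChiefFactor U V → U ≤ B ⊓ 𝐂(B) → iterCommutator U (zpowers g) 3 ≤ V :=
    fun U V h hU => by
      haveI := h.2.1
      exact (H04.iterComm_mono le_rfl (zpowers_le.2 hg) 3).trans ((hA.three' hU).trans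
        (chief_comm_le h (hB.to_le (hU.trans inf_le_left)) isPGroup_pCore))
  have hQ : ∀ U V : Subgroup G, IsChiefFactor U V → U ≤ B → iterCommutator U (zpowers g) 4 ≤ V := fun U V h hU => by
    haveI := h.2.1
    by_cases h4 : U ⊓ (B ⊓ 𝐂(B)) ≤ V
    · exact le_trans (le_inf (H04.iterComm_le (norm_of_normal _ _) 4)
        ((H04.iterComm_mono hU le_rfl 4).trans (hA.four hp hg))) h4
    · exact iter_le_of_cover h inf_le_left h4 (iter_le_of_le
        ((hZ _ _ (chief_inf h inf_le_left h4) inf_le_right).trans inf_le_right) (by norm_num))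
  refine ⟨g, hA.mem.1 hg, hgT, chief_iter_of_critical (i := 4) (j := 3) isPGroup_pCore hBT inf_le_left hB3 hB4
    (by norm_num) hQ hZ, fun hc => ?_⟩
  obtain ⟨U, V, h, hU, -, h4⟩ := exists_chief_not_comm (Z := B ⊓ 𝐂(B)) hB inf_le_left
    (fun x hx hxB => eq_one_of_mem_pGroup isPGroup_pCore (hc (mem_centralizer_of_selfCentralizing
      isPGroup_pCore hx (norm_of_normal ⊤ _ (mem_top x)) hBT hxB hB4)) hx) hgT
  exact ⟨U, V, h, hU.trans hBT, hQ U V h hU, h4⟩

theorem J_tr (hp : 7 ≤ p) : ControlsTransferIn p (inducedFunctor (G := G) jF) ⊤ := by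
  refine trIn_iff_fam_single.2 (famTr_of_min (forall_single isCharP_jF) (fun H _ _ _ hm => ?_) G sec_refl)
  obtain ⟨S⟩ : Nonempty (Sylow p H) := inferInstance
  have h1 := hm.not_normal S rfl
  rw [ind_jF] at h1
  obtain ⟨g, g1, g2, g3, -⟩ := jmain (by omega) S.2 (pCore_le_sylow S) h1
  obtain ⟨U, V, h1, h2, h3⟩ := hm.exists_chief S (Set.singleton_nonempty _) g1 g2
  haveI := h1.2.1
  exact h3 (iter_le_of_le (g3 U V h1 h2) (by omega))

theorem quot_iso (S : Sylow p G) {M : Subgroup G} (hM : (S : Subgroup G) ≤ M)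
    (h : _root_.commutator G ⊓ (S : Subgroup G) ≤ ⁅M, M⁆) [(pResidual p G).Normal] [(pResidual p M).Normal] :
    Nonempty (G ⧸ pResidual p G ≃* M ⧸ pResidual p M) := by
  have h1 := tate_sylow S hM h
  let f : M →* G ⧸ pResidual p G := (QuotientGroup.mk' _).comp M.subtype
  have hs : Function.Surjective f := by
    rw [← MonoidHom.range_eq_top, MonoidHom.range_comp, range_subtype, eq_top_iff,
      ← map_top_of_surjective _ (QuotientGroup.mk'_surjective (pResidual p G)), ← pResidual_sup_sylow S, Subgroup.map_sup,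
      QuotientGroup.map_mk'_self, bot_sup_eq]
    exact map_mono hM
  have hk : f.ker = pResidual p M := by
    apply map_injective M.subtype_injective
    rw [← h1, ← MonoidHom.comap_ker, QuotientGroup.ker_mk']
    exact subgroupOf_map_subtype _ _
  exact ⟨(QuotientGroup.quotientKerEquivOfSurjective f hs).symm.trans (QuotientGroup.quotientMulEquivOfEq hk)⟩

end H17.JT
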