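import Mathlib
import Cfsg.Agent.H17.L34
import Cfsg.Agent.H01.Gaschutz
import Cfsg.Agent.H19.FieldCoords
import Cfsg.Prelude.Def_Transfer

/-!
# The subgroups `2⁴ : L₂(4)` of `L₃(4)` and their lifts to central extensions
-/

set_option autoImplicit false
set_option linter.unusedSectionVars false

open Subgroup Matrix
open scoped MatrixGroups

namespace H17.L34

section abs

variable {L L' S X : Type*} [Group L] [Group L'] [Group S] [Group X]

/-- `N(E) = E : S` with `S` transitive on `E#` -/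
def Dt (S : Type*) [Group S] (E : Subgroup L) : Prop :=
  ∃ θ : S →* L, (∀ g, θ g ∈ normalizer (E : Set L)) ∧ (∀ g, θ g ∈ E → g = 1) ∧
    (∀ n ∈ normalizer (E : Set L), ∃ g, (θ g)⁻¹ * n ∈ E) ∧
    ∀ x ∈ E, ∀ y ∈ E, x ≠ 1 → y ≠ 1 → ∃ g, θ g * x * (θ g)⁻¹ = y

theorem Dt.comap {E : Subgroup L} (h : Dt S E) (e : L' ≃* L) : Dt S (E.comap (e : L' →* L)) := by
  obtain ⟨θ, h1, h2, h3, h4⟩ := h
  have k := comap_normalizer_eq_of_surjective E (f := (e : L' →* L)) e.surjective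
  refine ⟨(e.symm : L →* L').comp θ, fun g => k ▸ (by simpa using h1 g), fun g hg => h2 g (by simpa using hg),
    fun n hn => ?_, fun x hx y hy x1 y1 => ?_⟩
  · obtain ⟨g, hg⟩ := h3 (e n) (by rw [← k] at hn; exact hn)
    exact ⟨g, by simpa using hg⟩
  · obtain ⟨g, hg⟩ := h4 (e x) hx (e y) hy (by simpa using x1) (by simpa using y1)
    exact ⟨g, e.injective (by simpa using hg)⟩

theorem equiv_quot {E : Subgroup L} (θ : S →* L) (h1 : ∀ g, θ g ∈ normalizer (E : Set L))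
    (h2 : ∀ g, θ g ∈ E → g = 1) (h3 : ∀ n ∈ normalizer (E : Set L), ∃ g, (θ g)⁻¹ * n ∈ E) :
    Nonempty (S ≃* normalizer (E : Set L) ⧸ E.subgroupOf (normalizer (E : Set L))) :=
  ⟨MulEquiv.ofBijective ((QuotientGroup.mk' _).comp (θ.codRestrict _ h1))
    ⟨(injective_iff_map_eq_one _).2 fun g hg => h2 g ((QuotientGroup.eq_one_iff (θ.codRestrict _ h1 g)).1 hg), fun q => by
      obtain ⟨⟨n, hn⟩, rfl⟩ := QuotientGroup.mk_surjective q
      obtain ⟨g, hg⟩ := h3 n hn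
      exact ⟨g, QuotientGroup.eq.2 hg⟩⟩⟩

variable [Finite X] {π : X →* L} (hπ : Function.Surjective π) (hk : π.ker = center X)
include hπ hk

theorem lift_elem (hZ : Cfsg.IsElementaryAbelian 2 (center X)) {E : Subgroup L} (h : Dt S E)
    (hE : Cfsg.IsElementaryAbelian 2 E) (h16 : Nat.card E = 16) : Cfsg.IsElementaryAbelian 2 (E.comap π) := by
  classical
  obtain ⟨θ, -, -, -, h4⟩ := h
  have hz : ∀ x, π x = 1 → x ∈ center X := fun x hx => hk ▸ hx
  have z2 : ∀ z ∈ center X, z * z = 1 := fun z hz => by rw [← sq]; exact hZ.2 z hz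
  have sZ : ∀ x, π x ∈ E → x * x ∈ center X := fun x hx => hz _ (by rw [map_mul, ← sq]; exact hE.2 _ hx)
  have hs : ∀ x y, π x ∈ E → π y ∈ E → π x ≠ 1 → π y ≠ 1 → x * x = y * y := fun x y hx hy x1 y1 => by
    obtain ⟨g, hg⟩ := h4 _ hx _ hy x1 y1
    obtain ⟨u, hu⟩ := hπ (θ g)
    have h1 := hz (y⁻¹ * (u * x * u⁻¹)) (by simp [hu, hg])
    have h2 := mem_center_iff.1 h1 y
    have h3 := z2 _ h1
    calc x * x = u * (x * x) * u⁻¹ := by rw [mem_center_iff.1 (sZ x hx) u]; group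
      _ = y * (y⁻¹ * (u * x * u⁻¹) * y) * (y⁻¹ * (u * x * u⁻¹)) := by group
      _ = y * y * (y⁻¹ * (u * x * u⁻¹) * (y⁻¹ * (u * x * u⁻¹))) := by rw [← h2]; group
      _ = _ := by rw [h3, mul_one]
  have hsq : ∀ x, π x ∈ E → x * x = 1 := fun x hx => by
    by_cases x1 : π x = 1
    · exact z2 x (hz x x1)
    have := Finite.of_surjective π hπ
    have ex : ∀ s : Finset L, s.card < 16 → ∃ y, π y ∈ E ∧ π y ∉ s := fun s hs => by
      by_contra! h
      have := Nat.card_le_card_of_injective (fun e : E => (⟨e.1, by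
        obtain ⟨y, hy⟩ := hπ e
        exact hy ▸ h y (hy ▸ e.2)⟩ : s)) fun a b e => Subtype.ext (congrArg (fun x : s => x.1) e)
      simp only [h16, Nat.card_eq_fintype_card, Fintype.card_coe] at this
      omega
    have e2 : ∀ a ∈ E, a⁻¹ = a := fun a ha => inv_eq_of_mul_eq_one_right (by rw [← sq]; exact hE.2 a ha)
    obtain ⟨k, hk1, hk2⟩ := ex {1, π x} (lt_of_le_of_lt Finset.card_le_two (by omega))
    obtain ⟨l, hl1, hl2⟩ := ex {1, π x, π k, π k * π x} (lt_of_le_of_lt Finset.card_le_four (by omega))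
    simp only [Finset.mem_insert, Finset.mem_singleton, not_or] at hk2 hl2
    have cm : ∀ y, π y ∈ E → π y ≠ 1 → π y ≠ π x → x * y = y * x * (x * x) := fun y hy y1 yx => by
      have h1 := hs (x * y) x (by rw [map_mul]; exact mul_mem hx hy) hx (fun e => yx (by
        rw [map_mul] at e; rw [eq_inv_of_mul_eq_one_right e, e2 _ hx])) x1
      have h2 := hs y x hy hx y1 x1
      have h3 := z2 _ (sZ x hx)
      have h4 := mem_center_iff.1 (sZ x hx)
      calc x * y = (x * x) * (y * y) * (x * y) := by rw [h2, h3, one_mul]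
        _ = y * x * (x * y * (x * y)) := by rw [← mul_assoc (x * x), ← h4]; group
        _ = _ := by rw [h1]
    have h1 := cm (k * l) (by rw [map_mul]; exact mul_mem hk1 hl1) (fun e => hl2.2.2.1 (by
      rw [map_mul] at e; rw [eq_inv_of_mul_eq_one_right e, e2 _ hk1])) (fun e => hl2.2.2.2 (by
      rw [← e, map_mul, ← mul_assoc, ← sq, hE.2 _ hk1, one_mul]))
    rw [← mul_assoc, cm k hk1 hk2.1 hk2.2, mul_assoc (k * x), ← mem_center_iff.1 (sZ x hx), mul_assoc k,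
      ← mul_assoc x l, cm l hl1 hl2.1 hl2.2.1, mul_assoc (l * x), z2 _ (sZ x hx), mul_one, ← mul_assoc] at h1
    exact left_eq_mul.1 h1
  refine ⟨⟨⟨fun a b => Subtype.ext ?_⟩⟩, fun a ha => by rw [sq]; exact hsq a ha⟩
  change (a : X) * b = b * a
  rw [← inv_eq_of_mul_eq_one_right (hsq (a.1 * b.1) (a * b).2), _root_.mul_inv_rev,
    inv_eq_of_mul_eq_one_right (hsq _ a.2), inv_eq_of_mul_eq_one_right (hsq _ b.2)]

theorem lift_split {E : Subgroup L} (h : Dt S E) {H K : Subgroup X} (hH : H = E.comap π)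
    (hE : Cfsg.IsElementaryAbelian 2 H) (hK : Cfsg.IsElementaryAbelian 2 K) (T : Sylow 2 X)
    (hT : (T : Subgroup X) ≤ normalizer (H : Set X)) (hHK : H ⊔ K = T) :
    ∃ C : Subgroup X, C ≤ normalizer (H : Set X) ∧ C ⊓ H = ⊥ ∧ H ⊔ C = normalizer (H : Set X) ∧
      Nonempty (C ≃* S) := by
  have := Fact.mk Nat.prime_two
  obtain ⟨θ, h1, h2, h3, -⟩ := h
  have k : normalizer (H : Set X) = (normalizer (E : Set L)).comap π := by
    rw [hH, comap_normalizer_eq_of_surjective E hπ]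
  have := hK.1
  obtain ⟨W, hWK, w1, w2⟩ := H01.exists_complement_of_elementary Nat.prime_two hK.2 (U := H ⊓ K) inf_le_right
  have hKN : K ≤ normalizer (H : Set X) := (hHK ▸ le_sup_right : K ≤ T).trans hT
  have := hE.1
  have : IsMulCommutative (H.subgroupOf (normalizer (H : Set X))) :=
    ⟨⟨fun a b => Subtype.ext (Subtype.ext (congrArg (fun x : H => (x : X)) (mul_comm' (⟨a.1.1, a.2⟩ : H) ⟨b.1.1, b.2⟩)))⟩⟩
  obtain ⟨C, hC⟩ := H01.gaschutz_sylow (p := 2) (H.subgroupOf (normalizer (H : Set X)))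
    (fun a => ⟨1, Subtype.ext (Subtype.ext (hE.2 a.1.1 a.2))⟩) (T.subtype hT) (W.subgroupOf _)
    (eq_bot_iff_forall _ |>.2 fun a ha => Subtype.ext (eq_bot_iff_forall _ |>.1 w1 a.1 ⟨⟨ha.2, hWK ha.1⟩, ha.1⟩))
    (by
      rw [Sylow.coe_subtype, ← subgroupOf_sup le_normalizer (hWK.trans hKN), ← hHK, ← w2, ← sup_assoc,
        sup_inf_self])
  have c1 : ∀ c : C, c.1.1 ∈ H → c = 1 := fun c hc =>
    Subtype.ext (disjoint_def.1 hC.disjoint (show c.1 ∈ H.subgroupOf _ from hc) c.2)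
  have c2 : ∀ n ∈ normalizer (H : Set X), ∃ c : C, c.1.1⁻¹ * n ∈ H := fun n hn => by
    obtain ⟨⟨c, a⟩, e, -⟩ := hC.symm.existsUnique ⟨n, hn⟩
    refine ⟨c, ?_⟩
    rw [← show c.1.1 * a.1.1 = n from congrArg Subtype.val e, inv_mul_cancel_left]
    exact a.2
  refine ⟨C.map (Subgroup.subtype _), map_subtype_le _, eq_bot_iff_forall _ |>.2 ?_,
    le_antisymm (sup_le le_normalizer (map_subtype_le _)) fun n hn => ?_, ?_⟩
  · rintro _ ⟨⟨c, hc, rfl⟩, hh⟩
    exact congrArg (fun c : C => c.1.1) (c1 ⟨c, hc⟩ hh)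
  · obtain ⟨c, hc⟩ := c2 n hn
    rw [← mul_inv_cancel_left c.1.1 n]
    exact mul_mem (mem_sup_right ⟨c.1, c.2, rfl⟩) (mem_sup_left hc)
  · obtain ⟨e1⟩ := equiv_quot θ h1 h2 h3
    obtain ⟨e2⟩ := equiv_quot (E := E) (π.comp ((Subgroup.subtype _).comp C.subtype))
      (fun c => (show c.1.1 ∈ (normalizer (E : Set L)).comap π from k ▸ c.1.2))
      (fun c hc => c1 c (hH.ge hc)) (fun n hn => by
        obtain ⟨n, rfl⟩ := hπ n
        obtain ⟨c, hc⟩ := c2 n (k ▸ hn)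
        exact ⟨c, by simpa using hH.le hc⟩)
    exact ⟨(C.equivMapOfInjective _ (subtype_injective _)).symm.trans (e2.trans e1.symm)⟩

end abs

variable {F : Type*} [Field F]

/-- the row subgroup -/
def E1 (F : Type*) [Field F] : Subgroup (Hs F) where
  carrier := {x | x.b = 0}
  one_mem' := rfl
  mul_mem' := fun {x y} (hx : x.b = 0) (hy : y.b = 0) => show x.b + y.b = 0 by rw [hx, hy, add_zero]
  inv_mem' := fun {x} (hx : x.b = 0) => show -x.b = 0 by rw [hx, neg_zero]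

/-- the column subgroup -/
def E2 (F : Type*) [Field F] : Subgroup (Hs F) where
  carrier := {x | x.a = 0}
  one_mem' := rfl
  mul_mem' := fun {x y} (hx : x.a = 0) (hy : y.a = 0) => show x.a + y.a = 0 by rw [hx, hy, add_zero]
  inv_mem' := fun {x} (hx : x.a = 0) => show -x.a = 0 by rw [hx, neg_zero]

/-- the Levi complement -/
def lv : SL(2, F) →* SL(3, F) := MonoidHom.mk' (fun A => ⟨!![1, 0, 0; 0, A 0 0, A 0 1; 0, A 1 0, A 1 1], by
    simpa [det_fin_three] using (det_fin_two A.1).symm.trans A.2⟩)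
  fun x y => Subtype.ext (show _ = (_ * _ : Matrix _ _ F) by
    ext i j; fin_cases i <;> fin_cases j <;> simp [mul_apply, Fin.sum_univ_three])

theorem lv_val (A : SL(2, F)) : (lv A).1 = !![1, 0, 0; 0, A 0 0, A 0 1; 0, A 1 0, A 1 1] := rfl

theorem ut_lv (A : SL(2, F)) (a c : F) :
    ut ⟨a, 0, c⟩ * lv A = lv A * ut ⟨a * A 0 0 + c * A 1 0, 0, a * A 0 1 + c * A 1 1⟩ :=
  Subtype.ext (show ((ut _).1 * (lv _).1 : Matrix _ _ F) = (lv _).1 * (ut _).1 by
    rw [ut_val, ut_val, lv_val]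
    ext i j; fin_cases i <;> fin_cases j <;> simp [mul_apply, Fin.sum_univ_three])

/-- the graph automorphism -/
def gr0 : SL(3, F) →* SL(3, F) := MonoidHom.mk' (fun g => ⟨(g⁻¹).1ᵀ.submatrix Fin.revPerm Fin.revPerm, by
    rw [det_submatrix_equiv_self, det_transpose]; exact (g⁻¹).2⟩)
  fun x y => Subtype.ext (show _ = (_ * _ : Matrix _ _ F) by
    rw [submatrix_mul_equiv, ← transpose_mul, _root_.mul_inv_rev]; rfl)

theorem gr0_gr0 (g : SL(3, F)) : gr0 (gr0 g) = g := Subtype.ext (by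
  change ((gr0 g)⁻¹).1ᵀ.submatrix Fin.revPerm Fin.revPerm = _
  rw [← map_inv]
  change ((g⁻¹⁻¹).1ᵀ.submatrix Fin.revPerm Fin.revPerm)ᵀ.submatrix Fin.revPerm Fin.revPerm = _
  rw [inv_inv]
  ext i j
  simp)

/-- the graph automorphism -/
def gr1 : SL(3, F) ≃* SL(3, F) := gr0.toMulEquiv gr0 (MonoidHom.ext gr0_gr0) (MonoidHom.ext gr0_gr0)

/-- the graph automorphism -/
def gr : PSL(3, F) ≃* PSL(3, F) :=
  QuotientGroup.congr _ _ gr1 (characteristic_iff_map_eq.1 inferInstance gr1)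

theorem gr_ψ (x : Hs F) : gr (ψ x) = ψ ⟨-x.b, -x.a, x.a * x.b - x.c⟩ := by
  change QuotientGroup.mk (gr0 (ut x)) = QuotientGroup.mk _
  congr 1
  apply Subtype.ext
  change ((ut x)⁻¹).1ᵀ.submatrix Fin.revPerm Fin.revPerm = _
  rw [← map_inv, ut_val, ut_val]
  ext i j; fin_cases i <;> fin_cases j <;> rfl

theorem gr_E : ((E1 F).map ψ).comap ((gr (F := F)) : PSL(3, F) →* PSL(3, F)) = (E2 F).map ψ := by
  ext y
  constructor
  · rintro ⟨x, hx : x.b = 0, e⟩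
    refine ⟨⟨-x.b, -x.a, x.a * x.b - x.c⟩, show -x.b = 0 by simp [hx], gr.injective (Eq.trans ?_ e)⟩
    rw [gr_ψ]; congr 1; ext <;> simp [hx]
  · rintro ⟨x, hx : x.a = 0, rfl⟩
    exact ⟨_, show -x.a = 0 by simp [hx], (gr_ψ x).symm⟩

variable [Fintype F] (hF : Fintype.card F = 4)
include hF

theorem two0 : (2 : F) = 0 := by
  have h4 : (4 : F) = 0 := by simpa [hF] using FiniteField.cast_card_eq_zero F
  exact pow_eq_zero_iff (n := 2) (by omega) |>.1 (by linear_combination h4)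

theorem dt1 : Dt SL(2, F) ((E1 F).map ψ) := by
  have k : ∀ (A : SL(2, F)) (a c : F), ((QuotientGroup.mk' _).comp lv A)⁻¹ * ψ ⟨a, 0, c⟩ *
      (QuotientGroup.mk' _).comp lv A = ψ ⟨a * A 0 0 + c * A 1 0, 0, a * A 0 1 + c * A 1 1⟩ := fun A a c => by
    rw [mul_assoc, inv_mul_eq_iff_eq_mul]
    exact congrArg QuotientGroup.mk (ut_lv A a c)
  have k' : ∀ (A : SL(2, F)), ∀ x ∈ (E1 F).map ψ, ((QuotientGroup.mk' _).comp lv A)⁻¹ * x *
      (QuotientGroup.mk' _).comp lv A ∈ (E1 F).map ψ := by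
    rintro A _ ⟨⟨a, b, c⟩, rfl : b = 0, rfl⟩
    exact ⟨_, rfl, (k A a c).symm⟩
  refine ⟨(QuotientGroup.mk' _).comp lv, fun A => mem_normalizer_iff.2 fun x => ⟨fun hx => ?_, fun hx => ?_⟩,
    ?_, fun n hn => ?_, ?_⟩
  · simpa using k' A⁻¹ x hx
  · simpa [mul_assoc] using k' A _ hx
  · rintro A ⟨⟨a, b, c⟩, rfl : b = 0, e⟩
    obtain ⟨d, hd⟩ := H09.L34.center_iff.1 (QuotientGroup.eq.1 e)
    rw [← map_inv] at hd
    change ((ut _).1 * (lv _).1 : Matrix _ _ F) = _ at hd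
    rw [ut_val, lv_val] at hd
    have h0 := congrFun (congrFun hd 0) 0
    have h1 := congrFun (congrFun hd 1) 1
    have h2 := congrFun (congrFun hd 1) 2
    have h3 := congrFun (congrFun hd 2) 1
    have h4 := congrFun (congrFun hd 2) 2
    simp [mul_apply, Fin.sum_univ_three] at h0 h1 h2 h3 h4
    ext i j; fin_cases i <;> fin_cases j <;> simp [h1, h2, h3, h4, ← h0]
  · obtain ⟨g, rfl⟩ := QuotientGroup.mk_surjective n
    obtain ⟨⟨a, b, c⟩, rfl : b = 0, e⟩ := (mem_normalizer_iff.1 hn (ψ ⟨1, 0, 0⟩)).1 ⟨_, rfl, rfl⟩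
    have hz : (ut ⟨a, 0, c⟩)⁻¹ * (g * ut ⟨1, 0, 0⟩ * g⁻¹) ∈ center SL(3, F) := QuotientGroup.eq.1 e
    have u2 : ∀ a c : F, ut ⟨a, 0, c⟩ * ut ⟨a, 0, c⟩ = 1 := fun a c => by
      rw [← map_mul, ← map_one ut]; congr 1
      ext <;> simp [← two_mul, two0 hF]
    have h2 : ((ut ⟨a, 0, c⟩)⁻¹ * (g * ut ⟨1, 0, 0⟩ * g⁻¹)) ^ 2 = 1 := by
      rw [sq, ← mem_center_iff.1 hz, mul_assoc, mem_center_iff.1 hz]
      calc _ = (ut ⟨a, 0, c⟩ * ut ⟨a, 0, c⟩)⁻¹ * (g * (ut ⟨1, 0, 0⟩ * ut ⟨1, 0, 0⟩) * g⁻¹) := by group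
        _ = 1 := by rw [u2, u2]; group
    have h3 := H09.L34.center_cube hF hz
    rw [pow_succ, h2, one_mul, inv_mul_eq_one, eq_mul_inv_iff_mul_eq] at h3
    have h4 : ((ut _).1 * g.1 : Matrix _ _ F) = g.1 * (ut _).1 := congrArg Subtype.val h3
    rw [ut_val, ut_val] at h4
    have g1 := congrFun (congrFun h4 1) 1
    have g2 := congrFun (congrFun h4 2) 1
    simp [mul_apply, Fin.sum_univ_three] at g1 g2
    have hd := g.det_coe
    rw [det_fin_three, g1, g2] at hd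
    have d0 : g 0 0 ≠ 0 := fun e => by simp [e] at hd
    have d3 := H09.L34.cube hF d0
    refine ⟨H09.sl2 (g 0 0 ^ 2 * g 1 1) (g 0 0 ^ 2 * g 1 2) (g 0 0 ^ 2 * g 2 1) (g 0 0 ^ 2 * g 2 2) (by
      linear_combination hd + (g 0 0 * (g 1 1 * g 2 2 - g 1 2 * g 2 1)) * d3),
      ⟨g 0 0 ^ 2 * g 0 1, 0, g 0 0 ^ 2 * g 0 2⟩, rfl, ?_⟩
    rw [eq_inv_mul_iff_mul_eq]
    refine Eq.symm (QuotientGroup.eq.2 (H09.L34.center_iff.2 ⟨g 0 0 ^ 2, ?_⟩))
    have e5 : ∀ m : SL(3, F), m.1 = g 0 0 ^ 2 • g.1 → (g⁻¹ * m).1 = g 0 0 ^ 2 • 1 := fun m hm => by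
      change (g⁻¹.1 * m.1 : Matrix _ _ F) = _
      rw [hm, Matrix.mul_smul]
      congr 1
      exact congrArg Subtype.val (inv_mul_cancel g)
    refine e5 _ ?_
    change ((lv _).1 * (ut _).1 : Matrix _ _ F) = _
    rw [ut_val, lv_val]
    ext i j; fin_cases i <;> fin_cases j <;> simp [mul_apply, Fin.sum_univ_three, g1, g2]
    linear_combination -d3
  · have t : ∀ a c : F, ψ ⟨a, 0, c⟩ ≠ 1 → ∃ A : SL(2, F), A 0 0 = a ∧ A 0 1 = c := fun a c h => by
      by_cases ha : a = 0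
      · have hc : c ≠ 0 := by
          rintro rfl
          exact h (by rw [ha]; exact map_one ψ)
        exact ⟨H09.sl2 a c (-c⁻¹) 0 (by simp [hc]), rfl, rfl⟩
      · exact ⟨H09.sl2 a c 0 a⁻¹ (by simp [ha]), rfl, rfl⟩
    rintro _ ⟨⟨a, b, c⟩, rfl : b = 0, rfl⟩ _ ⟨⟨a', b, c'⟩, rfl : b = 0, rfl⟩ h1 h2
    obtain ⟨A, rfl, rfl⟩ := t a c h1
    obtain ⟨B, rfl, rfl⟩ := t a' c' h2
    have e1 := k A 1 0
    have e2 := k B 1 0
    simp only [one_mul, zero_mul, add_zero] at e1 e2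
    refine ⟨B⁻¹ * A, ?_⟩
    rw [← e1, ← e2, map_mul, map_inv]; group

theorem dt2 : Dt SL(2, F) ((E2 F).map ψ) := gr_E (F := F) ▸ (dt1 hF).comap gr

theorem eq_E {U : Subgroup (Hs F)} (hU : Cfsg.IsElementaryAbelian 2 U) (h16 : Nat.card U = 16) :
    U = E1 F ∨ U = E2 F := by
  have c1 : Nat.card (E1 F) ≤ 16 := by
    have := Nat.card_le_card_of_injective (fun x : E1 F => (x.1.a, x.1.c)) fun x y e => Subtype.ext
      (Hs.ext (congrArg Prod.fst e) (x.2.trans y.2.symm) (congrArg Prod.snd e))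
    simpa [hF] using this
  have c2 : Nat.card (E2 F) ≤ 16 := by
    have := Nat.card_le_card_of_injective (fun x : E2 F => (x.1.b, x.1.c)) fun x y e => Subtype.ext
      (Hs.ext (x.2.trans y.2.symm) (congrArg Prod.fst e) (congrArg Prod.snd e))
    simpa [hF] using this
  by_cases h : U ≤ E2 F
  · exact Or.inr (eq_of_le_of_card_ge h (by omega))
  obtain ⟨x, hx, ha⟩ := SetLike.not_le_iff_exists.1 h
  have ha : x.a ≠ 0 := ha
  have := hU.1
  have h1 := congrArg Hs.c (hU.2 x hx)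
  simp [sq, ← two_mul, two0 hF, ha] at h1
  refine Or.inl (eq_of_le_of_card_ge (fun y hy => ?_) (by omega))
  have h2 := congrArg Hs.c (congrArg Subtype.val (mul_comm' (⟨x, hx⟩ : U) ⟨y, hy⟩))
  change y.b = 0
  simpa [h1, add_comm, ha] using h2

omit hF in
theorem good1 : (E1 F).Normal ∧ E1 F ⊔ E2 F = ⊤ ∧ ∀ x : Hs F, (∀ u ∈ E1 F, x * u = u * x) → x ∈ E1 F := by
  refine ⟨⟨fun x (hx : x.b = 0) g => show (g * x * g⁻¹).b = 0 by simp [hx]⟩, eq_top_iff.2 fun x _ => ?_,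
    fun x hx => ?_⟩
  · rw [show x = ⟨x.a, 0, x.c - x.a * x.b⟩ * ⟨0, x.b, 0⟩ by ext <;> simp]
    exact mul_mem_sup rfl rfl
  · change x.b = 0
    simpa using congrArg Hs.c (hx ⟨1, 0, 0⟩ rfl)

omit hF in
theorem good2 : (E2 F).Normal ∧ E2 F ⊔ E1 F = ⊤ ∧ ∀ x : Hs F, (∀ u ∈ E2 F, x * u = u * x) → x ∈ E2 F := by
  refine ⟨⟨fun x (hx : x.a = 0) g => show (g * x * g⁻¹).a = 0 by simp [hx]⟩, by rw [sup_comm, good1.2.1],
    fun x hx => ?_⟩
  change x.a = 0
  simpa using congrArg Hs.c (hx ⟨0, 1, 0⟩ rfl)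

end H17.L34
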