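import Mathlib
import Cfsg.Agent.L.Dickson

/-!
Finite `p'`-subgroups of `PGL₂(K)`: at least three points fixed by elements of order at least four force all
element orders to be at most five and the number of such points to be at most twelve (`H17.RV.pgl_bound`).
-/

set_option autoImplicit false
set_option linter.unusedSectionVars false

namespace H17.RV

open Matrix MulAction H09 H17 L.Dk Finset
open scoped MatrixGroups

theorem arith {n m₁ m₂ m₃ e₁ e₂ e₃ : ℕ} (h₁ : m₁ * e₁ = n) (h₂ : m₂ * e₂ = n) (h₃ : m₃ * e₃ = n)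
    (k₁ : 2 ≤ e₁) (k₂ : 2 ≤ e₂) (k₃ : 2 ≤ e₃) (l₁ : 3 ≤ m₁) (l₂ : 3 ≤ m₂) (l₃ : 3 ≤ m₃)
    (h : m₁ + m₂ + m₃ = n + 2) : (e₁ ≤ 5 ∧ e₂ ≤ 5 ∧ e₃ ≤ 5) ∧
      (if 4 ≤ e₁ then m₁ else 0) + (if 4 ≤ e₂ then m₂ else 0) + (if 4 ≤ e₃ then m₃ else 0) ≤ 12 := by
  have key : ∀ m e : ℕ, m * e = n → 2 ≤ e → (e = 2 ∧ m * 2 = n) ∨ (e = 3 ∧ m * 3 = n) ∨ (e = 4 ∧ m * 4 = n) ∨
      (e = 5 ∧ m * 5 = n) ∨ m * 6 ≤ n := by
    intro m e h k
    by_cases h6 : 6 ≤ e
    · exact Or.inr (Or.inr (Or.inr (Or.inr (h ▸ Nat.mul_le_mul_left _ h6))))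
    · have : e ≤ 5 := by omega
      interval_cases e <;> simp_all
  have h5 : e₁ ≤ 5 ∧ e₂ ≤ 5 ∧ e₃ ≤ 5 ∧ n ≤ 60 := by
    rcases key _ _ h₁ k₁ with a | a | a | a | a <;> rcases key _ _ h₂ k₂ with b | b | b | b | b <;>
      rcases key _ _ h₃ k₃ with c | c | c | c | c <;> omega
  obtain ⟨a, b, c, d⟩ := h5
  refine ⟨⟨a, b, c⟩, ?_⟩
  interval_cases e₁ <;> interval_cases e₂ <;> interval_cases e₃ <;> simp <;> omega

variable {K : Type*} [Field K] [IsAlgClosed K] (p : ℕ) [Fact p.Prime] [CharP K p]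

theorem comm_of_fix (H : Subgroup PGL(2, K)) [Finite H] (hp : ¬ p ∣ Nat.card H) {s t : H} {x : P1 K}
    (hs : s • x = x) (ht : t • x = x) : s * t = t * s := by
  obtain ⟨σ, rfl⟩ := exists_smul_pInf x
  obtain ⟨a, b, h1⟩ := exists_conj_aff (g := (s : PGL(2, K))) hs
  obtain ⟨c, d, h2⟩ := exists_conj_aff (g := (t : PGL(2, K))) ht
  have h3 : (s * t * (t * s)⁻¹) ^ p = 1 := by
    apply Subtype.ext
    rw [Subgroup.coe_pow, Subgroup.coe_mul, Subgroup.coe_inv, Subgroup.coe_mul, Subgroup.coe_mul, h1, h2]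
    have : σ * aff a b * σ⁻¹ * (σ * aff c d * σ⁻¹) * (σ * aff c d * σ⁻¹ * (σ * aff a b * σ⁻¹))⁻¹ =
        σ * (aff a b * aff c d * (aff c d * aff a b)⁻¹) * σ⁻¹ := by group
    rw [this, conj_pow, aff_mul, aff_mul, aff_inv, aff_mul, (aff_pow_char_iff p).2 (by
      rw [mul_comm c a, mul_inv_cancel])]
    simp
  by_contra hne
  exact hp (orderOf_eq_prime h3 (fun e => hne (mul_inv_eq_one.1 e)) ▸ orderOf_dvd_natCard _)

theorem pgl_bound (H : Subgroup PGL(2, K)) [Finite H] (hp : ¬ p ∣ Nat.card H) (X : Finset (P1 K))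
    (h3 : 3 ≤ X.card) (hX : ∀ x ∈ X, ∃ g : H, g • x = x ∧ 4 ≤ orderOf g) :
    X.card ≤ 12 ∧ ∀ g : H, orderOf g ≤ 5 := by
  classical
  have := Fintype.ofFinite H
  obtain ⟨F, hF⟩ := exists_fixSets p H
  have hF2 : ∀ g : H, g ≠ 1 → (F g).card = 2 := fun g hg => (hF g hg).2.2 (fun e =>
    hp (orderOf_eq_prime e hg ▸ orderOf_dvd_natCard g))
  by_cases hs : ∃ x : P1 K, (orb H x).card ≤ 2
  · exfalso
    obtain ⟨x0, hx0⟩ := hs
    have hsq : ∀ g : H, (g * g) • x0 = x0 := by
      intro g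
      by_cases h1 : g • x0 = x0
      · rw [mul_smul, h1, h1]
      · have he : ({x0, g • x0} : Finset (P1 K)) = orb H x0 := by
          apply eq_of_subset_of_card_le
          · intro z hz
            rcases mem_insert.1 hz with rfl | hz
            · exact self_mem_orb _
            · rw [mem_singleton.1 hz]; exact mem_orb.2 ⟨g, rfl⟩
          · rwa [card_pair (Ne.symm h1)]
        have : (g * g) • x0 ∈ orb H x0 := mem_orb.2 ⟨_, rfl⟩
        rw [← he, mem_insert, mem_singleton] at this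
        rcases this with h | h
        · exact h
        · rw [mul_smul] at h
          exact absurd (MulAction.injective g h) h1
    have hX' : ∀ x ∈ X, ∃ s : H, s ≠ 1 ∧ s • x = x ∧ s • x0 = x0 := by
      intro x hx
      obtain ⟨g, h1, h2⟩ := hX x hx
      refine ⟨g * g, fun e => ?_, by rw [mul_smul, h1, h1], hsq g⟩
      have := Nat.le_of_dvd two_pos (orderOf_dvd_of_pow_eq_one (x := g) (by rw [pow_two]; exact e))
      omega
    obtain ⟨x1, hx1⟩ : X.Nonempty := card_pos.1 (by omega)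
    obtain ⟨s1, hs1, -, hs10⟩ := hX' x1 hx1
    have hsub : X ⊆ F s1 := by
      intro x hx
      obtain ⟨s, h1, h2, h4⟩ := hX' x hx
      rw [(hF s1 hs1).1]
      by_cases e : x = x0
      · rw [e, hs10]
      have he : ({x0, x} : Finset (P1 K)) = F s := by
        apply eq_of_subset_of_card_le
        · intro z hz
          rw [(hF s h1).1]
          rcases mem_insert.1 hz with rfl | hz
          · exact h4
          · rw [mem_singleton.1 hz]; exact h2
        · rw [card_pair (Ne.symm e), hF2 s h1]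
      have : s1 • x ∈ F s := by
        rw [(hF s h1).1, ← mul_smul, comm_of_fix p H hp h4 hs10, mul_smul, h2]
      rw [← he, mem_insert, mem_singleton] at this
      rcases this with h | h
      · exact absurd (MulAction.injective s1 (h.trans hs10.symm)) e
      · exact h
    have := card_le_card hsub
    rw [hF2 s1 hs1] at this
    omega
  push Not at hs
  obtain ⟨R, h1, h2, -, h4⟩ := rh F (fun g hg => (hF g hg).1)
  have hn : 0 < Nat.card H := Nat.card_pos
  rw [sum_congr rfl (g := fun _ => 2) (fun g hg => hF2 g (mem_erase.1 hg).1), sum_const,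
    card_erase_of_mem (mem_univ _), card_univ, ← Nat.card_eq_fintype_card, smul_eq_mul] at h4
  have h5 : ∀ y ∈ R, (orb H y).card * 2 ≤ Nat.card H := fun y hy =>
    (Nat.mul_le_mul_left _ (h1 y hy)).trans (card_orb_mul y).le
  have h6 : (∑ y ∈ R, (orb H y).card) * 2 ≤ R.card * Nat.card H := by
    rw [sum_mul, ← smul_eq_mul, ← sum_const]; exact sum_le_sum h5
  have h7 : R.card * 3 ≤ ∑ y ∈ R, (orb H y).card := by
    rw [← smul_eq_mul, ← sum_const]; exact sum_le_sum fun y _ => hs y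
  have h8 : 3 ≤ Nat.card H := by
    have := card_orb_mul (G := H) (pInf : P1 K)
    have h9 : 0 < Nat.card (stabilizer H (pInf : P1 K)) := Nat.card_pos
    have := hs pInf
    nlinarith
  have hR3 : R.card = 3 := by
    have h9 : R.card ≤ 3 := by
      by_contra h10
      have : 4 * Nat.card H ≤ R.card * Nat.card H := Nat.mul_le_mul_right _ (by omega)
      omega
    generalize R.card = r at h4 h6 h7 h9
    interval_cases r <;> omega
  obtain ⟨y₁, y₂, y₃, h12, h13, h23, rfl⟩ := card_eq_three.1 hR3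
  rw [sum_insert (by simp [h12, h13]), sum_pair h23, hR3] at h4
  obtain ⟨⟨e₁, e₂, e₃⟩, hsum⟩ := arith (card_orb_mul (G := H) y₁) (card_orb_mul (G := H) y₂)
    (card_orb_mul (G := H) y₃) (h1 _ (by simp)) (h1 _ (by simp)) (h1 _ (by simp)) (hs _) (hs _) (hs _)
    (by omega)
  refine ⟨?_, fun g => ?_⟩
  · let T : P1 K → Finset (P1 K) := fun y => if 4 ≤ Nat.card (stabilizer H y) then orb H y else ∅
    have hT : ∀ y, (T y).card = if 4 ≤ Nat.card (stabilizer H y) then (orb H y).card else 0 := by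
      intro y; simp only [T]; split_ifs <;> simp
    have hsub : X ⊆ T y₁ ∪ T y₂ ∪ T y₃ := by
      intro x hx
      obtain ⟨g, hg1, hg2⟩ := hX x hx
      obtain ⟨y, hy, hxy⟩ := h2 g (by rintro rfl; simp at hg2) x hg1
      have h9 := hg2.trans (Nat.le_of_dvd Nat.card_pos (dvd_card_stab (g := g) hg1 hxy))
      have h10 : x ∈ T y := by simp only [T, if_pos h9]; exact hxy
      simp only [mem_insert, mem_singleton] at hy
      simp only [mem_union]
      rcases hy with rfl | rfl | rfl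
      · exact Or.inl (Or.inl h10)
      · exact Or.inl (Or.inr h10)
      · exact Or.inr h10
    have h11 := (card_le_card hsub).trans ((card_union_le _ _).trans
      (Nat.add_le_add_right (card_union_le _ _) _))
    rw [hT, hT, hT] at h11
    exact h11.trans hsum
  · by_cases hg : g = 1
    · simp [hg]
    obtain ⟨x, hx⟩ := exists_fixed (g : PGL(2, K))
    obtain ⟨y, hy, hxy⟩ := h2 g hg x hx
    refine (Nat.le_of_dvd Nat.card_pos (dvd_card_stab (g := g) hx hxy)).trans ?_
    simp only [mem_insert, mem_singleton] at hy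
    rcases hy with rfl | rfl | rfl <;> assumption

/-- The same bound over the prime field. -/
theorem pgl_bound' {N : Type*} [Group N] [Finite N] (θ : N →* PGL(2, ZMod p)) (hp : ¬ p ∣ Nat.card θ.range)
    (X : Finset (P1 (ZMod p))) (h3 : 3 ≤ X.card) (hX : ∀ x ∈ X, ∃ g : N, θ g • x = x ∧ 4 ≤ orderOf (θ g)) :
    X.card ≤ 12 ∧ ∀ g : N, orderOf (θ g) ≤ 5 := by
  classical
  let ι : ZMod p →+* AlgebraicClosure (ZMod p) := algebraMap _ _
  let f := ProjGenLinGroup.map (n := Fin 2) ι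
  have hf : Function.Injective f := L.Dk.map_injective ι
  have hc : Nat.card (θ.range.map f) = Nat.card θ.range := Subgroup.card_map_of_injective hf
  haveI : Finite (θ.range.map f) := Nat.finite_of_card_ne_zero (by rw [hc]; exact Nat.card_pos.ne')
  have hm : ∀ g : N, f (θ g) ∈ θ.range.map f := fun g => ⟨θ g, ⟨g, rfl⟩, rfl⟩
  have ho : ∀ g : N, orderOf (⟨f (θ g), hm g⟩ : θ.range.map f) = orderOf (θ g) := by
    intro g
    rw [Subgroup.orderOf_mk, orderOf_injective f hf]
  obtain ⟨h1, h2⟩ := pgl_bound p (θ.range.map f) (by rwa [hc]) (X.image (pm ι))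
    (by rwa [card_image_of_injective _ (pm_injective ι)]) (by
      intro y hy
      obtain ⟨x, hx, rfl⟩ := mem_image.1 hy
      obtain ⟨g, hg1, hg2⟩ := hX x hx
      refine ⟨⟨f (θ g), hm g⟩, ?_, by rwa [ho]⟩
      show f (θ g) • pm ι x = pm ι x
      rw [map_smul_pm, hg1])
  rw [card_image_of_injective _ (pm_injective ι)] at h1
  exact ⟨h1, fun g => ho g ▸ h2 _⟩

end H17.RV
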