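import Mathlib
import Cfsg.Agent.H17.RV1
import Cfsg.Agent.H04.Aut
import Cfsg.Agent.H04.ElemAb
import Cfsg.Agent.H01.Basic

/-!
Groups with an extraspecial Sylow `p`-subgroup of order `p³` and exponent `p`: the action of `N(P)` on the
points of `P / Z(P)` (`H17.RV.main`).
-/

set_option autoImplicit false
set_option linter.unusedSectionVars false

namespace H17.RV

open Subgroup Cfsg H09 Matrix
open scoped MatrixGroups Pointwise commutatorElement

variable {G : Type*} [Group G] [Finite G] {p : ℕ} [hp : Fact p.Prime]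

/-- Elementwise data of an extraspecial group of order `p³` and exponent `p`. -/
structure ES (p : ℕ) (P : Subgroup G) (z : G) : Prop where
  mem : z ∈ P
  ne : z ≠ 1
  cen : ∀ u ∈ P, u * z = z * u
  cent : ∀ u ∈ P, (∀ v ∈ P, u * v = v * u) → u ∈ zpowers z
  comm : ∀ u ∈ P, ∀ v ∈ P, ∃ c : ℤ, u * v * u⁻¹ = v * z ^ c
  exp : ∀ u ∈ P, u ^ p = 1
  card : Nat.card P = p ^ 3

theorem exists_es {P : Subgroup G} (hE : IsExtraspecial p P) (hcard : Nat.card P = p ^ 3)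
    (hexp : Monoid.exponent P = p) : ∃ z, ES p P z := by
  haveI : IsCyclic (center P) := isCyclic_of_prime_card hE.2
  obtain ⟨z, hz⟩ := IsCyclic.exists_generator (α := center P)
  have hm : ∀ u : P, u ∈ center P → (u : G) ∈ zpowers ((z : P) : G) := by
    intro u hu
    obtain ⟨k, hk⟩ := hz ⟨u, hu⟩
    exact ⟨k, by simpa using congrArg (fun x : center P => ((x : P) : G)) hk⟩
  refine ⟨((z : P) : G), (z : P).2, fun h => ?_, fun u hu => ?_, fun u hu h => ?_, fun u hu v hv => ?_,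
    fun u hu => ?_, hcard⟩
  · have h1 : z = 1 := Subtype.ext (Subtype.ext h)
    have := orderOf_eq_card_of_forall_mem_zpowers hz
    rw [h1, orderOf_one, hE.2] at this
    exact hp.out.one_lt.ne this
  · exact congrArg Subtype.val (mem_center_iff.1 z.2 ⟨u, hu⟩)
  · exact hm ⟨u, hu⟩ (mem_center_iff.2 fun v => Subtype.ext (h v v.2).symm)
  · have h1 : ⁅(⟨v, hv⟩ : P)⁻¹, ⟨u, hu⟩⁆ ∈ center P := by
      rw [← hE.1.2.2]; exact commutator_mem_commutator (mem_top _) (mem_top _)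
    obtain ⟨c, hc⟩ := hm _ h1
    refine ⟨c, ?_⟩
    have hc' : ((z : P) : G) ^ c = v⁻¹ * u * v * u⁻¹ := by simpa [commutatorElement_def] using hc
    rw [hc']; group
  · have := Monoid.pow_exponent_eq_one (⟨u, hu⟩ : P)
    rw [hexp] at this
    exact congrArg Subtype.val this

theorem zp {a : G} (ha : a ^ p = 1) {x y : ℤ} (h : (x : ZMod p) = y) : a ^ x = a ^ y := by
  rw [zpow_eq_zpow_iff_modEq]
  exact ((ZMod.intCast_eq_intCast_iff x y p).1 h).of_dvd
    (Int.natCast_dvd_natCast.2 (orderOf_dvd_of_pow_eq_one ha))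

theorem zp' {a : G} (ha : a ^ p = 1) (h1 : a ≠ 1) {x y : ℤ} (h : a ^ x = a ^ y) : (x : ZMod p) = y := by
  rw [zpow_eq_zpow_iff_modEq, orderOf_eq_prime ha h1] at h
  exact (ZMod.intCast_eq_intCast_iff x y p).2 h

theorem trans {a z : G} (ha : a ^ p = 1) {g : G} {j : ℤ} (hj : (j : ZMod p) ≠ 0)
    (h1 : g * a * g⁻¹ = a) (h2 : g * z * g⁻¹ = z * a ^ j) (m : ℤ) :
    ∃ g : G, g * a * g⁻¹ = a ∧ g * z * g⁻¹ = z * a ^ m := by
  have key : ∀ k : ℕ, g ^ k * a * (g ^ k)⁻¹ = a ∧ g ^ k * z * (g ^ k)⁻¹ = z * a ^ (j * k) := by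
    intro k
    induction k with
    | zero => simp
    | succ k ih =>
      constructor
      · calc _ = g * (g ^ k * a * (g ^ k)⁻¹) * g⁻¹ := by group
          _ = a := by rw [ih.1, h1]
      · calc _ = g * (g ^ k * z * (g ^ k)⁻¹) * g⁻¹ := by group
          _ = (g * z * g⁻¹) * (g * a * g⁻¹) ^ (j * k) := by rw [ih.2, conj_zpow]; group
          _ = _ := by rw [h1, h2]; push_cast; group
  refine ⟨_, (key ((m : ZMod p) / j).val).1, ?_⟩
  rw [(key _).2]
  congr 1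
  apply zp ha
  push_cast
  rw [ZMod.natCast_zmod_val, mul_div_cancel₀ _ hj]

theorem diag {a z : G} (ha : a ^ p = 1) (hc : Commute a z)
    (hS : ∀ m : ℤ, ∃ g : G, g * a * g⁻¹ = a ∧ g * z * g⁻¹ = z * a ^ m)
    (hT : ∀ m : ℤ, ∃ g : G, g * z * g⁻¹ = z ∧ g * a * g⁻¹ = a * z ^ m) {l m : ℤ}
    (hlm : (l * m : ZMod p) = 1) :
    ∃ g : G, g * z * g⁻¹ = z ^ l ∧ g * a * g⁻¹ = a ^ m * z ^ (l - 1) := by
  obtain ⟨g1, a1, b1⟩ := hS 1
  obtain ⟨g2, a2, b2⟩ := hT (l - 1)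
  obtain ⟨g3, a3, b3⟩ := hS (-m)
  have hw : ∀ x : ℤ, (z * a ^ (-m)) ^ x = a ^ (-m * x) * z ^ x := fun x => by
    rw [(hc.symm.zpow_right _).mul_zpow, ← _root_.zpow_mul, (hc.symm.zpow_zpow _ _).eq]
  refine ⟨g3 * g2 * g1, ?_, ?_⟩
  · calc _ = g3 * (g2 * (g1 * z * g1⁻¹) * g2⁻¹) * g3⁻¹ := by group
      _ = g3 * ((g2 * z * g2⁻¹) * (g2 * a * g2⁻¹)) * g3⁻¹ := by rw [b1]; group
      _ = g3 * (a * z ^ l) * g3⁻¹ := by
        rw [a2, b2, ← mul_assoc z, ← hc.eq]; group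
      _ = (g3 * a * g3⁻¹) * (g3 * z * g3⁻¹) ^ l := by rw [conj_zpow]; group
      _ = a ^ (1 + -m * l) * z ^ l := by rw [a3, b3, hw]; group
      _ = _ := by
        rw [zp ha (y := 0) (by push_cast; linear_combination -hlm), zpow_zero, one_mul]
  · calc _ = g3 * (g2 * (g1 * a * g1⁻¹) * g2⁻¹) * g3⁻¹ := by group
      _ = (g3 * a * g3⁻¹) * (g3 * z * g3⁻¹) ^ (l - 1) := by rw [a1, b2, conj_zpow]; group
      _ = a ^ (1 + -m * (l - 1)) * z ^ (l - 1) := by rw [a3, b3, hw]; group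
      _ = _ := by
        rw [zp ha (y := m) (by push_cast; linear_combination -hlm)]

theorem frat (P : Sylow p G) {z a : G} (h : ES p (P : Subgroup G) z) (ha : a ∈ (P : Subgroup G))
    {g : G} {l m c : ℤ} (hlm : (l * m : ZMod p) = 1) (h1 : g * z * g⁻¹ = z ^ l)
    (h2 : g * a * g⁻¹ = a ^ m * z ^ c) :
    ∃ k ∈ normalizer ((P : Subgroup G) : Set G), k * z * k⁻¹ = z ^ l ∧ ∃ d : ℤ, k * a * k⁻¹ = a ^ m * z ^ d := by
  let L : Subgroup G :=
    { carrier := {x | x * z * x⁻¹ = z ∧ ∃ c : ℤ, x * a * x⁻¹ = a * z ^ c}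
      mul_mem' := by
        rintro x y ⟨a1, c1, b1⟩ ⟨a2, c2, b2⟩
        refine ⟨?_, c1 + c2, ?_⟩
        · calc _ = x * (y * z * y⁻¹) * x⁻¹ := by group
            _ = z := by rw [a2, a1]
        · calc _ = x * (y * a * y⁻¹) * x⁻¹ := by group
            _ = (x * a * x⁻¹) * (x * z * x⁻¹) ^ c2 := by rw [b2, conj_zpow]; group
            _ = _ := by rw [a1, b1]; group
      one_mem' := ⟨by group, 0, by group⟩
      inv_mem' := by
        rintro x ⟨a1, c1, b1⟩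
        have a2 : x⁻¹ * z * x⁻¹⁻¹ = z := by
          calc _ = x⁻¹ * (x * z * x⁻¹) * x := by rw [a1]; group
            _ = z := by group
        refine ⟨a2, -c1, ?_⟩
        calc _ = x⁻¹ * (a * z ^ c1) * x * (x⁻¹ * z * x⁻¹⁻¹) ^ (-c1) := by rw [conj_zpow]; group
          _ = _ := by rw [← b1, a2]; group }
  have hz : ∀ u ∈ (P : Subgroup G), u * z * u⁻¹ = z := fun u hu => by rw [h.cen u hu]; group
  have hPL : (P : Subgroup G) ≤ L := fun u hu => ⟨hz u hu, h.comm u hu a ha⟩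
  have hQL : MulAut.conj g⁻¹ • (P : Subgroup G) ≤ L := by
    intro x hx
    rw [H01.mem_conj_smul_iff, inv_inv] at hx
    obtain ⟨u, hu⟩ : ∃ u, u = g * x * g⁻¹ := ⟨_, rfl⟩
    rw [← hu] at hx
    have hxu : x = g⁻¹ * u * g := by rw [hu]; group
    obtain ⟨e, he⟩ := h.comm u hx a ha
    have hza : Commute a z := h.cen a ha
    refine ⟨?_, m * (e * m), ?_⟩
    · calc _ = g⁻¹ * (u * (g * z * g⁻¹) * u⁻¹) * g := by rw [hxu]; group
        _ = g⁻¹ * (u * z * u⁻¹) ^ l * g := by rw [h1, conj_zpow]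
        _ = g⁻¹ * (g * z * g⁻¹) * g := by rw [hz u hx, h1]
        _ = z := by group
    · calc _ = g⁻¹ * (u * (g * a * g⁻¹) * u⁻¹) * g := by rw [hxu]; group
        _ = g⁻¹ * ((u * a * u⁻¹) ^ m * (u * z * u⁻¹) ^ c) * g := by
          rw [h2, conj_zpow, conj_zpow]; group
        _ = g⁻¹ * ((a ^ m * z ^ c) * z ^ (e * m)) * g := by
          rw [hz u hx, he, (hza.zpow_right e).mul_zpow]; group
        _ = g⁻¹ * ((g * a * g⁻¹) * (g * z * g⁻¹) ^ (m * (e * m))) * g := by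
          rw [h2, h1, ← _root_.zpow_mul, zp (h.exp z h.mem) (x := l * (m * (e * m))) (y := e * m)
            (by push_cast; linear_combination (e * m : ZMod p) * hlm)]
        _ = _ := by rw [conj_zpow]; group
  obtain ⟨x, ⟨hx1, d, hx2⟩, hx⟩ := H01.sylow_conj_of_card hPL hQL P.isPGroup'
    (fun hd => P.not_dvd_index (hd.trans (relIndex_dvd_index_of_le hPL))) (H01.card_conj_smul _ _)
  rw [H01.conj_smul_conj_smul, H01.conj_smul_eq_iff_mem_normalizer] at hx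
  have hxL : x⁻¹ ∈ L := L.inv_mem ⟨hx1, d, hx2⟩
  obtain ⟨hy1, e, hy2⟩ := hxL
  refine ⟨(x * g⁻¹)⁻¹, inv_mem hx, ?_, c + l * e, ?_⟩
  · calc _ = g * (x⁻¹ * z * x⁻¹⁻¹) * g⁻¹ := by group
      _ = _ := by rw [hy1, h1]
  · calc _ = g * (x⁻¹ * a * x⁻¹⁻¹) * g⁻¹ := by group
      _ = (g * a * g⁻¹) * (g * z * g⁻¹) ^ e := by rw [hy2, conj_zpow]; group
      _ = _ := by rw [h1, h2]; group

theorem ES.exists_nc {P : Subgroup G} {z a : G} (h : ES p P z) (ha : a ∈ P) (haz : a ∉ zpowers z) :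
    ∃ b ∈ P, ∃ j : ℤ, (j : ZMod p) ≠ 0 ∧ b * a * b⁻¹ = a * z ^ j := by
  obtain ⟨b, hb, hab⟩ : ∃ b ∈ P, a * b ≠ b * a := by
    by_contra hc
    push Not at hc
    exact haz (h.cent a ha hc)
  obtain ⟨j, hj⟩ := h.comm b hb a ha
  refine ⟨b, hb, j, fun h0 => hab ?_, hj⟩
  rw [zp (h.exp z h.mem) (y := 0) (by simpa using h0), zpow_zero, mul_one] at hj
  calc a * b = (b * a * b⁻¹) * b := by rw [hj]
    _ = _ := by group

theorem scalar_rel {P : Subgroup G} {z a : G} (h : ES p P z) (ha : a ∈ P) (haz : a ∉ zpowers z) {k : G}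
    {l m d : ℤ} {μ : ℕ} (h1 : k * z * k⁻¹ = z ^ l) (h2 : k * a * k⁻¹ = a ^ m * z ^ d)
    (hs : ∀ u ∈ P, ∃ c : ℤ, k * u * k⁻¹ = u ^ μ * z ^ c) : (l : ZMod p) = m ^ 2 := by
  obtain ⟨b, hb, j, hj, hba⟩ := h.exists_nc ha haz
  obtain ⟨c, hc⟩ := hs a ha
  obtain ⟨e, he⟩ := hs b hb
  have hza : Commute a z := h.cen a ha
  have hzb : Commute b z := h.cen b hb
  have e1 : (m : ZMod p) = μ := by
    have h3 : a ^ (m - μ) ∈ zpowers z := ⟨c - d, by
      show z ^ (c - d) = _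
      calc z ^ (c - d) = a ^ (-(μ : ℤ)) * (a ^ μ * z ^ c) * z ^ (-d) := by group
        _ = _ := by rw [← hc, h2]; group⟩
    rw [H04.zpow_mem_iff_dvd _ haz (by rw [h.exp a ha]; exact one_mem _)] at h3
    have := (ZMod.intCast_zmod_eq_zero_iff_dvd _ p).2 h3
    push_cast at this
    linear_combination this
  have e2 : ∀ n : ℕ, b ^ n * a * (b ^ n)⁻¹ = a * z ^ (j * n) := by
    intro n
    induction n with
    | zero => simp
    | succ n ih =>
      calc _ = b * (b ^ n * a * (b ^ n)⁻¹) * b⁻¹ := by group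
        _ = (b * a * b⁻¹) * (b * z ^ (j * n) * b⁻¹) := by rw [ih]; group
        _ = _ := by rw [hba, (hzb.zpow_right _).eq]; push_cast; group
  have e3 : k * (b * a * b⁻¹) * k⁻¹ = a ^ μ * z ^ c * z ^ (j * μ * μ) := by
    calc _ = (k * b * k⁻¹) * (k * a * k⁻¹) * (k * b * k⁻¹)⁻¹ := by group
      _ = b ^ μ * (z ^ e * (a ^ μ * z ^ c) * (z ^ e)⁻¹) * (b ^ μ)⁻¹ := by rw [hc, he]; group
      _ = (b ^ μ * a * (b ^ μ)⁻¹) ^ μ * (b ^ μ * z ^ c * (b ^ μ)⁻¹) := by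
        rw [← mul_assoc (z ^ e), ← ((hza.pow_left μ).zpow_right e).eq, conj_pow]; group
      _ = _ := by
        rw [e2, ((hzb.pow_left μ).zpow_right c).eq, (hza.zpow_right _).mul_pow, ← zpow_natCast (z ^ _),
          ← _root_.zpow_mul]; group
  have e4 : k * (b * a * b⁻¹) * k⁻¹ = a ^ μ * z ^ c * z ^ (l * j) := by
    calc _ = (k * a * k⁻¹) * (k * z * k⁻¹) ^ j := by rw [hba, conj_zpow]; group
      _ = _ := by rw [hc, h1, ← _root_.zpow_mul]
  have e5 := zp' (h.exp z h.mem) h.ne (mul_left_cancel (e3.symm.trans e4))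
  push_cast at e5
  rw [e1]
  apply mul_left_cancel₀ hj
  linear_combination -e5

theorem pow_rel {z a k : G} (hc : Commute a z) {l m d : ℤ} (h1 : k * z * k⁻¹ = z ^ l)
    (h2 : k * a * k⁻¹ = a ^ m * z ^ d) (n : ℕ) :
    k ^ n * z * (k ^ n)⁻¹ = z ^ (l ^ n) ∧ ∃ e : ℤ, k ^ n * a * (k ^ n)⁻¹ = a ^ (m ^ n) * z ^ e := by
  induction n with
  | zero => exact ⟨by simp, 0, by simp⟩
  | succ n ih =>
    obtain ⟨i1, e, i2⟩ := ih
    refine ⟨?_, d * m ^ n + l * e, ?_⟩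
    · calc _ = k * (k ^ n * z * (k ^ n)⁻¹) * k⁻¹ := by group
        _ = (k * z * k⁻¹) ^ (l ^ n) := by rw [i1, conj_zpow]
        _ = _ := by rw [h1, ← _root_.zpow_mul, pow_succ']
    · calc _ = k * (k ^ n * a * (k ^ n)⁻¹) * k⁻¹ := by group
        _ = (k * a * k⁻¹) ^ (m ^ n) * (k * z * k⁻¹) ^ e := by rw [i2, conj_zpow, conj_zpow]; group
        _ = _ := by
          rw [h1, h2, (hc.zpow_zpow _ _).mul_zpow, ← _root_.zpow_mul, ← _root_.zpow_mul, ← _root_.zpow_mul,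
            pow_succ', _root_.zpow_add, mul_assoc]

/-- `a` spans, modulo the centre, a point with a second transvection group. -/
def Good (p : ℕ) (z a : G) : Prop :=
  ∃ (g : G) (j : ℤ), (j : ZMod p) ≠ 0 ∧ g * a * g⁻¹ = a ∧ g * z * g⁻¹ = z * a ^ j

theorem main (P : Sylow p G) {z : G} (h : ES p (P : Subgroup G) z) (h11 : 11 ≤ p) :
    ∃ pt : G → P1 (ZMod p), (∀ x, ∃ a ∈ (P : Subgroup G), a ∉ zpowers z ∧ pt a = x) ∧
      (∀ a ∈ (P : Subgroup G), a ∉ zpowers z → ∀ b ∈ (P : Subgroup G), b ∉ zpowers z → pt a = pt b →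
        b ∈ zpowers a ⊔ zpowers z) ∧
      ∀ X : Finset (P1 (ZMod p)), 3 ≤ X.card →
        (∀ x ∈ X, ∃ a ∈ (P : Subgroup G), a ∉ zpowers z ∧ pt a = x ∧ Good p z a) →
        X.card ≤ 12 ∧ ∃ k, 0 < k ∧ k ≤ 5 ∧ p - 1 ∣ 3 * k := by
  classical
  set Q : Subgroup G := (P : Subgroup G) with hQ
  have hZ : ∀ u : Q, u ∈ center Q ↔ (u : G) ∈ zpowers z := by
    intro u
    refine ⟨fun hu => h.cent u u.2 fun v hv => (congrArg Subtype.val (mem_center_iff.1 hu ⟨v, hv⟩)).symm,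
      fun hu => mem_center_iff.2 fun v => Subtype.ext ?_⟩
    obtain ⟨k, hk⟩ := hu
    have : Commute (v : G) z := h.cen v v.2
    have h2 := (this.zpow_right k).eq
    simp only at hk
    rw [hk] at h2
    exact h2
  have hcZ : Nat.card (center Q) = p := by
    have : (center Q).map Q.subtype = zpowers z := by
      refine le_antisymm ?_ (zpowers_le.2 ⟨⟨z, h.mem⟩, (hZ _).2 (mem_zpowers z), rfl⟩)
      rintro _ ⟨u, hu, rfl⟩
      exact (hZ u).1 hu
    rw [← card_map_of_injective Q.subtype_injective, this, Nat.card_zpowers,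
      orderOf_eq_prime (h.exp z h.mem) h.ne]
  have hcq : Nat.card (Q ⧸ center Q) = p ^ 2 := by
    have := card_eq_card_quotient_mul_card_subgroup (center Q)
    rw [h.card, hcZ, pow_succ] at this
    exact (Nat.eq_of_mul_eq_mul_right hp.out.pos this).symm
  obtain ⟨e, φ, hφ⟩ := H04.exists_mulAut_equiv_GL (G := Q ⧸ center Q) (p := p) ⟨⟨fun a b => by
      obtain ⟨a, rfl⟩ := QuotientGroup.mk_surjective a
      obtain ⟨b, rfl⟩ := QuotientGroup.mk_surjective b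
      rw [← QuotientGroup.mk_mul, ← QuotientGroup.mk_mul, QuotientGroup.eq, hZ]
      obtain ⟨c, hc⟩ := h.comm _ (Q.inv_mem a.2) _ b.2
      refine ⟨c, ?_⟩
      show z ^ c = ((a : G) * b)⁻¹ * (b * a)
      calc z ^ c = (b : G)⁻¹ * (b * z ^ c) := by group
        _ = _ := by rw [← hc]; group⟩⟩
    (fun x => by
      obtain ⟨a, rfl⟩ := QuotientGroup.mk_surjective x
      rw [← QuotientGroup.mk_pow, show a ^ p = 1 from Subtype.ext (h.exp a a.2)]; rfl) hcq
  let π : Q → (Fin 2 → ZMod p) := fun u => (e (u : Q ⧸ center Q)).toAdd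
  have π0 : ∀ u : Q, π u = 0 ↔ (u : G) ∈ zpowers z := fun u => by
    rw [← hZ, ← QuotientGroup.eq_one_iff, ← e.map_eq_one_iff]; rfl
  have πmul : ∀ u v : Q, π (u * v) = π u + π v := fun u v => by
    simp only [π, QuotientGroup.mk_mul, map_mul, toAdd_mul]
  have πinv : ∀ u : Q, π u⁻¹ = -π u := fun u => by
    simp only [π, QuotientGroup.mk_inv, map_inv, toAdd_inv]
  have πzpow : ∀ (u : Q) (n : ℤ), π (u ^ n) = (n : ZMod p) • π u := fun u n => by
    simp only [π, QuotientGroup.mk_zpow, map_zpow, toAdd_zpow, Int.cast_smul_eq_zsmul]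
  have πeq : ∀ (u v : Q) (c : ZMod p), π v = c • π u → ∃ d : ℤ, (v : G) = u ^ c.val * z ^ d := by
    intro u v c hc
    have : π ((u ^ (c.val : ℤ))⁻¹ * v) = 0 := by
      rw [πmul, πinv, πzpow, hc]; simp
    obtain ⟨d, hd⟩ := (π0 _).1 this
    refine ⟨d, ?_⟩
    have hd' : z ^ d = ((u : G) ^ (c.val : ℤ))⁻¹ * v := hd
    rw [hd']; group
  let N := normalizer (Q : Set G)
  let ρ : N →* GL (Fin 2) (ZMod p) :=
    φ.toMonoidHom.comp ((H04.quotAut (center Q)).comp (normalizerMonoidHom Q))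
  have hρ : ∀ (g : N) (u v : Q), (v : G) = g * u * (g : G)⁻¹ →
      π v = (ρ g : Matrix (Fin 2) (Fin 2) (ZMod p)) *ᵥ π u := by
    intro g u v hv
    have : v = normalizerMonoidHom Q g u := Subtype.ext hv
    rw [this]
    exact hφ (H04.quotAut (center Q) (normalizerMonoidHom Q g)) u
  let θ : N →* PGL(2, ZMod p) := ProjGenLinGroup.mk.comp ρ
  let pt : G → P1 (ZMod p) := fun a =>
    if ha : a ∈ Q ∧ a ∉ zpowers z then Projectivization.mk _ (π ⟨a, ha.1⟩) (fun h0 => ha.2 ((π0 _).1 h0))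
    else pInf
  have hpt : ∀ (a : G) (ha : a ∈ Q) (haz : a ∉ zpowers z),
      pt a = Projectivization.mk _ (π ⟨a, ha⟩) (fun h0 => haz ((π0 _).1 h0)) := fun a ha haz => by
    simp only [pt, dif_pos (And.intro ha haz)]
  refine ⟨pt, fun x => ?_, fun a ha haz b hb hbz hab => ?_, fun X h3 hX => ?_⟩
  · induction x using Projectivization.ind with | h v hv =>
    obtain ⟨u, hu⟩ := QuotientGroup.mk_surjective (e.symm (Multiplicative.ofAdd v))
    have hu' : π u = v := by simp only [π, hu, MulEquiv.apply_symm_apply, toAdd_ofAdd]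
    have huz : (u : G) ∉ zpowers z := fun h0 => hv (hu' ▸ (π0 u).2 h0)
    refine ⟨u, u.2, huz, ?_⟩
    rw [hpt u u.2 huz]
    congr 1
  · rw [hpt a ha haz, hpt b hb hbz, eq_comm, Projectivization.mk_eq_mk_iff'] at hab
    obtain ⟨c, hc⟩ := hab
    obtain ⟨d, hd⟩ := πeq ⟨a, ha⟩ ⟨b, hb⟩ c hc.symm
    simp only at hd
    rw [hd]
    exact mul_mem (mem_sup_left (pow_mem (mem_zpowers a) _)) (mem_sup_right (zpow_mem (mem_zpowers z) _))
  have hθ : ¬ p ∣ Nat.card θ.range := by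
    intro hd
    have h1 : Q.subgroupOf N ≤ θ.ker := by
      intro g hg
      have : ρ g = 1 := by
        have : H04.quotAut (center Q) (normalizerMonoidHom Q g) = 1 := by
          rw [← MonoidHom.mem_ker, H04.mem_ker_quotAut]
          intro u
          rw [hZ]
          obtain ⟨c, hc⟩ := h.comm (g : G) hg _ u.2
          refine ⟨c, ?_⟩
          show z ^ c = (g : G) * u * (g : G)⁻¹ * (u : G)⁻¹
          have hzu : Commute (u : G) z := h.cen u u.2
          rw [hc, (hzu.zpow_right c).eq]; group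
        show φ (H04.quotAut (center Q) (normalizerMonoidHom Q g)) = 1
        rw [this, map_one]
      show ProjGenLinGroup.mk (ρ g) = 1
      rw [this, map_one]
    rw [← index_ker] at hd
    exact P.not_dvd_index ((hd.trans (index_dvd_of_le h1)).trans (relIndex_dvd_index_of_le le_normalizer))
  obtain ⟨lam, hlam⟩ := IsCyclic.exists_generator (α := (ZMod p)ˣ)
  have hol : orderOf lam = p - 1 := by
    rw [orderOf_eq_card_of_forall_mem_zpowers hlam, Nat.card_eq_fintype_card, ZMod.card_units]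
  have key : ∀ x ∈ X, ∃ g : N, θ g • x = x ∧ p - 1 ∣ 3 * orderOf (θ g) := by
    intro x hx
    obtain ⟨a, ha, haz, rfl, g, j, hj, g1, g2⟩ := hX x hx
    obtain ⟨b, hb, i, hi, hba⟩ := h.exists_nc ha haz
    have hlm : (((((lam : ZMod p).val : ℤ) : ZMod p)) * (((lam⁻¹ : (ZMod p)ˣ) : ZMod p).val : ℤ) : ZMod p) = 1 := by
      rw [Int.cast_natCast, Int.cast_natCast, ZMod.natCast_zmod_val, ZMod.natCast_zmod_val, Units.mul_inv]
    obtain ⟨g', k1, k2⟩ := diag (h.exp a ha) (h.cen a ha) (trans (h.exp a ha) hj g1 g2)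
      (trans (h.exp z h.mem) hi (by rw [h.cen b hb]; group) hba) hlm
    obtain ⟨k, hk, k3, d, k4⟩ := frat P h ha hlm k1 k2
    refine ⟨⟨k, hk⟩, ?_, ?_⟩
    · rw [hpt a ha haz]
      show ProjGenLinGroup.mk (ρ ⟨k, hk⟩) • _ = _
      rw [Projectivization.PGL.mk_smul_mk, Projectivization.mk_eq_mk_iff']
      refine ⟨((lam⁻¹ : (ZMod p)ˣ) : ZMod p), ?_⟩
      have := hρ ⟨k, hk⟩ ⟨a, ha⟩ (⟨a, ha⟩ ^ ((((lam⁻¹ : (ZMod p)ˣ) : ZMod p).val : ℤ)) * ⟨z, h.mem⟩ ^ d)
        k4.symm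
      rw [πmul, πzpow, πzpow, (π0 ⟨z, h.mem⟩).2 (mem_zpowers z)] at this
      rw [smul_zero, add_zero, Int.cast_natCast, ZMod.natCast_zmod_val] at this
      exact this
    · set n := orderOf (θ ⟨k, hk⟩) with hn
      have h1 : ProjGenLinGroup.mk (ρ (⟨k, hk⟩ ^ n)) = ProjGenLinGroup.mk 1 := by
        show θ _ = _
        rw [map_pow, pow_orderOf_eq_one, map_one]
      rw [eq_comm, ProjGenLinGroup.mk_eq_mk_iff] at h1
      obtain ⟨μ, hμ⟩ := h1
      obtain ⟨q1, c, q2⟩ := pow_rel (h.cen a ha) k3 k4 n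
      have q3 := scalar_rel h ha haz (μ := (μ : ZMod p).val) q1 q2 (fun u hu => by
        have hv : k ^ n * u * (k ^ n)⁻¹ ∈ Q := (mem_normalizer_iff.1 (pow_mem hk n) u).1 hu
        have h5 := hρ (⟨k, hk⟩ ^ n) ⟨u, hu⟩ ⟨_, hv⟩ rfl
        rw [← hμ, one_mul] at h5
        exact πeq ⟨u, hu⟩ ⟨_, hv⟩ μ (by
          rw [h5]
          ext i
          simp [Matrix.mulVec_diagonal]))
      rw [← hol]
      apply orderOf_dvd_of_pow_eq_one
      push_cast at q3
      rw [ZMod.natCast_zmod_val, ZMod.natCast_zmod_val] at q3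
      have q4 : lam ^ n = (lam⁻¹ ^ n) ^ 2 := Units.ext (by
        rw [Units.val_pow_eq_pow_val, Units.val_pow_eq_pow_val, Units.val_pow_eq_pow_val,
          Units.val_inv_eq_inv_val]; exact q3)
      calc lam ^ (3 * n) = lam ^ n * (lam ^ n) ^ 2 := by rw [← pow_succ', ← pow_mul, mul_comm]
        _ = (lam⁻¹ ^ n) ^ 2 * (lam ^ n) ^ 2 := by rw [← q4]
        _ = 1 := by rw [← mul_pow, ← mul_pow, inv_mul_cancel, one_pow, one_pow]
  obtain ⟨h1, h2⟩ := pgl_bound' p θ hθ X h3 (fun x hx => by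
    obtain ⟨g, h1, h2⟩ := key x hx
    refine ⟨g, h1, ?_⟩
    have := Nat.le_of_dvd (by have := orderOf_pos (θ g); omega) h2
    omega)
  obtain ⟨x, hx⟩ : X.Nonempty := Finset.card_pos.1 (by omega)
  obtain ⟨g, -, h4⟩ := key x hx
  exact ⟨h1, _, orderOf_pos _, h2 g, h4⟩

end H17.RV
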