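import Mathlib
import Cfsg.Agent.H02.Frobenius
import Cfsg.Agent.H27.ClassSize

/-!
# A TI-subgroup inverted by many involutions (Bender): the Bruhat decomposition
-/

set_option autoImplicit false
set_option linter.unusedSectionVars false

open Subgroup

namespace H17.TI

variable {G : Type*} [Group G] [Finite G]

/-- the hypotheses -/
structure Hyp (M : Subgroup G) (z : G) : Prop where
  ne : M ≠ ⊥
  ti : ∀ g x : G, x ∈ M → x ≠ 1 → g * x * g⁻¹ ∈ M → g ∈ normalizer (M : Set G)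
  z2 : z * z = 1
  z1 : z ≠ 1
  zN : z ∈ normalizer (M : Set G)
  fac : ∀ n ∈ normalizer (M : Set G), ∃ m ∈ M, ∃ a, a * z = z * a ∧ n = m * a
  odd : ∀ x ∈ M, x ≠ 1 → ∀ s : G, s * s = 1 → s * x = x * s → s = 1
  big : M.index < Nat.card {g : G // orderOf g = 2}

theorem ord2 {s : G} : orderOf s = 2 ↔ s * s = 1 ∧ s ≠ 1 := by
  have := Fact.mk Nat.prime_two
  refine ⟨fun h => ⟨by rw [← sq, ← h, pow_orderOf_eq_one], by rintro rfl; simp at h⟩,
    fun h => orderOf_eq_prime (by rw [sq, h.1]) h.2⟩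

theorem inv_self {s : G} (h : s * s = 1) : s⁻¹ = s := inv_eq_of_mul_eq_one_right h

namespace Hyp

variable {M : Subgroup G} {z : G} (h : Hyp M z)
include h

omit h in
theorem cj {g x : G} (hg : g ∈ normalizer (M : Set G)) (hx : x ∈ M) : g * x * g⁻¹ ∈ M :=
  (mem_normalizer_iff.1 hg x).1 hx

omit h in
theorem cj' {g x : G} (hg : g ∈ normalizer (M : Set G)) (hx : x ∈ M) : g⁻¹ * x * g ∈ M := by
  simpa using cj (inv_mem hg) hx

theorem sq1 {x : G} (hx : x ∈ M) (e : x * x = 1) : x = 1 := by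
  by_contra h1
  exact h1 (h.odd x hx h1 x e rfl)

theorem inv {s : G} (hs : s ∈ normalizer (M : Set G)) (h2 : s * s = 1) (h1 : s ≠ 1) {x : G} (hx : x ∈ M) :
    s * x * s⁻¹ = x⁻¹ :=
  H02.fpf_involution_inverts hs h2 (H02.fpf_iff.2 fun k hk e => by
    by_contra k1
    exact h1 (h.odd k hk k1 s h2 e)) hx

theorem zinv {x : G} (hx : x ∈ M) : z * x * z⁻¹ = x⁻¹ := h.inv h.zN h.z2 h.z1 hx

theorem comm {x y : G} (hx : x ∈ M) (hy : y ∈ M) : x * y = y * x := by
  have e := h.zinv (mul_mem hx hy)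
  rw [show z * (x * y) * z⁻¹ = (z * x * z⁻¹) * (z * y * z⁻¹) by group, h.zinv hx, h.zinv hy,
    ← mul_inv_rev, inv_inj] at e
  exact e.symm

theorem zM : z ∉ M := fun hz => h.z1 (h.sq1 hz h.z2)

theorem cz {x : G} (hx : x ∈ M) (e : x * z = z * x) : x = 1 := by
  by_contra h1
  exact h.z1 (h.odd x hx h1 z h.z2 e.symm)

theorem exM : ∃ x ∈ M, x ≠ 1 := by
  obtain ⟨⟨x, hx⟩, h1⟩ := ne_bot_iff_exists_ne_one.1 h.ne
  exact ⟨x, hx, fun e => h1 (Subtype.ext e)⟩

theorem uA {a : G} (ha : a ∈ normalizer (M : Set G)) (e : a * z = z * a) (h2 : a * a = 1) : a = 1 ∨ a = z := by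
  by_cases h1 : a = 1
  · exact Or.inl h1
  right
  obtain ⟨x, hx, x1⟩ := h.exM
  have e1 : a * z * (a * z) = 1 := by
    calc _ = a * (z * a) * z := by group
      _ = (a * a) * (z * z) := by rw [← e]; group
      _ = 1 := by rw [h2, h.z2, one_mul]
  have e2 : a * z * x = x * (a * z) := by
    calc _ = a * (z * x * z⁻¹) * a⁻¹ * (a * z) := by group
      _ = _ := by rw [h.zinv hx, h.inv ha h2 h1 (inv_mem hx), inv_inv]
  have := h.odd x hx x1 _ e1 e2
  rw [eq_inv_of_mul_eq_one_left this, inv_self h.z2]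

theorem memA {m a : G} (hm : m ∈ M) (hn : m * a ∈ normalizer (M : Set G)) : a ∈ normalizer (M : Set G) := by
  simpa using mul_mem (inv_mem (le_normalizer hm)) hn

theorem invN {s : G} (hs : s ∈ normalizer (M : Set G)) (h2 : s * s = 1) (h1 : s ≠ 1) : ∃ m ∈ M, s = m * z := by
  obtain ⟨m, hm, a, ha, rfl⟩ := h.fac s hs
  have haN := h.memA hm hs
  have e : a * a = (a * m⁻¹ * a⁻¹) * m⁻¹ := by
    calc a * a = (a * m⁻¹ * a⁻¹) * m⁻¹ * (m * a * (m * a)) := by
          have : m * (a * m * a⁻¹) = (a * m * a⁻¹) * m := h.comm hm (cj haN hm)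
          calc a * a = (a * m⁻¹ * a⁻¹) * m⁻¹ * (m * (a * m * a⁻¹)) * (a * a) := by group
            _ = _ := by group
      _ = _ := by rw [h2, mul_one]
  have e2 : a * a = 1 := h.cz (e ▸ mul_mem (cj haN (inv_mem hm)) (inv_mem hm)) (by
    rw [mul_assoc, ha, ← mul_assoc, ha, mul_assoc])
  rcases h.uA haN ha e2 with rfl | rfl
  · rw [mul_one] at h2 h1
    exact absurd (h.sq1 hm h2) h1
  · exact ⟨m, hm, rfl⟩

theorem sqrt {x : G} (hx : x ∈ M) : ∃ y ∈ M, y * y = x := by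
  have : Function.Injective fun y : M => y * y := fun a b e => by
    have e' : (a : G) * a = b * b := congrArg Subtype.val e
    have := h.sq1 (mul_mem a.2 (inv_mem b.2)) (by
      calc (a : G) * (b : G)⁻¹ * (a * (b : G)⁻¹) = a * ((b : G)⁻¹ * a) * (b : G)⁻¹ := by group
        _ = a * a * ((b : G) * b)⁻¹ := by rw [h.comm (inv_mem b.2) a.2]; group
        _ = 1 := by rw [e', mul_inv_cancel])
    exact Subtype.ext (mul_inv_eq_one.1 this)
  obtain ⟨y, e⟩ := Finite.injective_iff_surjective.1 this ⟨x, hx⟩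
  exact ⟨y, y.2, congrArg Subtype.val e⟩

theorem conj_z {m : G} (hm : m ∈ M) : m * z * m⁻¹ = m * m * z := by
  calc _ = m * (z * m⁻¹ * z⁻¹) * z := by group
    _ = _ := by rw [h.zinv (inv_mem hm), inv_inv]

theorem conjN {s : G} (hs : s ∈ normalizer (M : Set G)) (h2 : s * s = 1) (h1 : s ≠ 1) :
    ∃ m ∈ M, s = m * z * m⁻¹ := by
  obtain ⟨m, hm, rfl⟩ := h.invN hs h2 h1
  obtain ⟨y, hy, rfl⟩ := h.sqrt hm
  exact ⟨y, hy, (h.conj_z hy).symm⟩

theorem mz {m : G} (hm : m ∈ M) : m * z * (m * z) = 1 ∧ m * z ≠ 1 := by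
  refine ⟨?_, fun e => h.zM (by rw [eq_inv_of_mul_eq_one_right e]; exact inv_mem hm)⟩
  calc _ = m * (z * m * z⁻¹) * (z * z) := by group
    _ = 1 := by rw [h.zinv hm, h.z2]; group

theorem uniq {g x y : G} (hg : g ∉ normalizer (M : Set G)) (hx : x ∈ M) (hy : y ∈ M)
    (e1 : g * x * (g * x) = 1) (e2 : g * y * (g * y) = 1) : x = y := by
  by_contra hne
  apply hg
  have e : g * x * (x⁻¹ * y) * (g * x)⁻¹ = (x⁻¹ * y)⁻¹ := by
    calc _ = g * y * (g * y) * (x⁻¹ * y)⁻¹ * (g * x * (g * x))⁻¹ := by group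
      _ = _ := by rw [e1, e2]; group
  have := h.ti (g * x) (x⁻¹ * y) (mul_mem (inv_mem hx) hy) (fun e => hne (inv_mul_eq_one.1 e))
    (e ▸ inv_mem (mul_mem (inv_mem hx) hy))
  simpa using mul_mem this (inv_mem (le_normalizer hx))

theorem ex {g : G} (hg : g ∉ normalizer (M : Set G)) : ∃ x ∈ M, g * x * (g * x) = 1 := by
  classical
  by_contra hne
  push Not at hne
  let f : {s : G // orderOf s = 2} → G ⧸ M := fun s =>
    if s.1 ∈ normalizer (M : Set G) then ((s.1 * z * g : G) : G ⧸ M) else (s.1 : G ⧸ M)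
  have key : ∀ s t : {s : G // orderOf s = 2}, s.1 ∈ normalizer (M : Set G) →
      ((s.1 * z * g : G) : G ⧸ M) ≠ (t.1 : G ⧸ M) := fun s t hs e => by
    obtain ⟨m, hm, e1⟩ := h.invN hs (ord2.1 s.2).1 (ord2.1 s.2).2
    rw [e1, mul_assoc m, h.z2, mul_one, QuotientGroup.eq] at e
    apply hne _ (mul_mem e hm)
    calc _ = m⁻¹ * (t.1 * t.1) * m := by group
      _ = 1 := by rw [(ord2.1 t.2).1]; group
  have hf : Function.Injective f := fun s t e => by
    by_cases hs : s.1 ∈ normalizer (M : Set G) <;> by_cases ht : t.1 ∈ normalizer (M : Set G) <;>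
      simp only [f, hs, ht, if_true, if_false] at e
    · obtain ⟨m, hm, e1⟩ := h.invN hs (ord2.1 s.2).1 (ord2.1 s.2).2
      obtain ⟨n, hn, e2⟩ := h.invN ht (ord2.1 t.2).1 (ord2.1 t.2).2
      rw [e1, e2, mul_assoc m, mul_assoc n, h.z2, mul_one, mul_one, QuotientGroup.eq] at e
      by_contra hst
      apply hg
      rw [← inv_mem_iff]
      refine h.ti g⁻¹ (m⁻¹ * n) (mul_mem (inv_mem hm) hn) (fun e3 => hst (Subtype.ext ?_)) ?_
      · rw [e1, e2, inv_mul_eq_one.1 e3]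
      · simpa [mul_assoc] using e
    · exact absurd e (key s t hs)
    · exact absurd e.symm (key t s ht)
    · rw [QuotientGroup.eq] at e
      have := h.uniq hs M.one_mem e (by simpa using (ord2.1 s.2).1) (by simpa using (ord2.1 t.2).1)
      exact Subtype.ext (inv_mul_eq_one.1 this.symm)
  exact absurd h.big (not_lt.2 (Nat.card_le_card_of_injective f hf))

theorem cent {c : G} (hc : c ∉ normalizer (M : Set G)) (e : c * z = z * c) : c * c = 1 := by
  obtain ⟨x, hx, e1⟩ := h.ex hc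
  have e2 : c * x⁻¹ * (c * x⁻¹) = 1 := by
    have : c * x⁻¹ = z * (c * x) * z⁻¹ := by
      rw [← h.zinv hx, ← mul_assoc z, ← e]; group
    calc _ = z * (c * x * (c * x)) * z⁻¹ := by rw [this]; group
      _ = 1 := by rw [e1]; group
  have := h.uniq hc hx (inv_mem hx) e1 e2
  have x1 : x = 1 := h.sq1 hx (by nth_rw 1 [this]; group)
  simpa [x1] using e1

theorem invol_conj {u : G} (hu : u ∉ normalizer (M : Set G)) (u2 : u * u = 1) :
    ∃ m ∈ M, ∃ c, c ∉ normalizer (M : Set G) ∧ c * z = z * c ∧ u = m * c * m⁻¹ := by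
  obtain ⟨y, hy, e⟩ := h.ex (g := u * z) (fun e => hu (by simpa using mul_mem e (inv_mem h.zN)))
  have e1 : z * y = y⁻¹ * z := by rw [← h.zinv hy]; group
  obtain ⟨m, hm, e2⟩ := h.conjN (mul_mem (le_normalizer (inv_mem hy)) h.zN) (h.mz (inv_mem hy)).1
    (h.mz (inv_mem hy)).2
  rw [mul_assoc u, e1, e2] at e
  refine ⟨m, hm, m⁻¹ * u * m, fun hc => hu ?_, ?_, by group⟩
  · simpa [mul_assoc] using mul_mem (mul_mem (le_normalizer hm) hc) (inv_mem (le_normalizer hm))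
  · calc _ = m⁻¹ * (u * (m * z * m⁻¹)) * m := by group
      _ = m⁻¹ * (u * (m * z * m⁻¹))⁻¹ * m := by rw [inv_self e]
      _ = z⁻¹ * (m⁻¹ * u⁻¹ * m) := by group
      _ = _ := by rw [inv_self h.z2, inv_self u2]

theorem dec {g : G} (hg : g ∉ normalizer (M : Set G)) :
    ∃ m ∈ M, ∃ c, c ∉ normalizer (M : Set G) ∧ c * z = z * c ∧ ∃ n ∈ M, g = m * c * n := by
  obtain ⟨x, hx, e⟩ := h.ex hg
  obtain ⟨m, hm, c, hc, e1, e2⟩ := h.invol_conj (u := g * x)
    (fun e => hg (by simpa using mul_mem e (inv_mem (le_normalizer hx)))) e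
  refine ⟨m, hm, c, hc, e1, m⁻¹ * x⁻¹, mul_mem (inv_mem hm) (inv_mem hx), ?_⟩
  rw [← mul_assoc, ← e2]; group

theorem dec_uniq0 {m n c d : G} (hm : m ∈ M) (hn : n ∈ M) (hc : c ∉ normalizer (M : Set G)) (ec : c * z = z * c)
    (ed : d * z = z * d) (e : d = m * c * n) : m = 1 ∧ n = 1 := by
  have hmc : m * c ∉ normalizer (M : Set G) := fun e => hc (h.memA hm e)
  have hd : d ∉ normalizer (M : Set G) := fun e' =>
    hmc (by simpa [e] using mul_mem e' (inv_mem (le_normalizer hn)))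
  have c2 := h.cent hc ec
  have e1 : n = m⁻¹ := h.uniq hmc hn (inv_mem hm) (e ▸ h.cent hd ed) (by
    calc _ = m * (c * c) * m⁻¹ := by group
      _ = 1 := by rw [c2]; group)
  subst e1
  have e2 : d * (m * m) = m * m * d := by
    calc d * (m * m) = d * (m * m * z) * z⁻¹ := by group
      _ = m * (c * z) * m⁻¹ * z⁻¹ := by rw [← h.conj_z hm, e]; group
      _ = (m * z * m⁻¹) * (d * z⁻¹) := by rw [ec, e]; group
      _ = _ := by rw [h.conj_z hm, inv_self h.z2, ed, mul_assoc _ z, ← mul_assoc z, h.z2, one_mul]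
  have m1 : m = 1 := h.sq1 hm (by
    by_contra h1
    exact hd (h.odd _ (mul_mem hm hm) h1 d (h.cent hd ed) e2 ▸ one_mem _))
  simp [m1]

theorem dec_uniq {m n c m' n' c' : G} (hm : m ∈ M) (hn : n ∈ M) (hm' : m' ∈ M) (hn' : n' ∈ M)
    (hc : c ∉ normalizer (M : Set G)) (ec : c * z = z * c) (ec' : c' * z = z * c')
    (e : m * c * n = m' * c' * n') : m = m' ∧ c = c' ∧ n = n' := by
  obtain ⟨h1, h2⟩ := h.dec_uniq0 (mul_mem (inv_mem hm') hm) (mul_mem hn (inv_mem hn')) hc ec ec' (by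
    calc c' = m'⁻¹ * (m' * c' * n') * n'⁻¹ := by group
      _ = _ := by rw [← e]; group)
  obtain rfl := inv_mul_eq_one.1 h1
  obtain rfl := mul_inv_eq_one.1 h2
  exact ⟨rfl, by simpa using e, rfl⟩

theorem cinv {c a : G} (hc : c ∉ normalizer (M : Set G)) (ec : c * z = z * c) (ha : a ∈ normalizer (M : Set G))
    (ea : a * z = z * a) : c * a * c⁻¹ = a⁻¹ := by
  have e := h.cent (c := c * a) (fun e => hc (by simpa using mul_mem e (inv_mem ha))) (by
    rw [mul_assoc, ea, ← mul_assoc, ec, mul_assoc])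
  rw [inv_self (h.cent hc ec)]
  calc _ = c * a * (c * a) * a⁻¹ := by group
    _ = _ := by rw [e, one_mul]

theorem free0 {c x : G} (hc : c ∉ normalizer (M : Set G)) (ec : c * z = z * c) (hx : x ∈ M)
    (hy : c * x * c⁻¹ ∈ normalizer (M : Set G)) : x = 1 := by
  obtain ⟨m, hm, a, ea, e⟩ := h.fac _ hy
  have haN := h.memA hm (e ▸ hy)
  have e1 : m⁻¹ * a = (m * a)⁻¹ := by
    calc _ = z * m * z⁻¹ * (z * a * z⁻¹) := by rw [h.zinv hm, ← ea]; group
      _ = z * (c * x * c⁻¹) * z⁻¹ := by rw [e]; group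
      _ = (z * c) * x * (z * c)⁻¹ := by group
      _ = c * (z * x * z⁻¹) * c⁻¹ := by rw [← ec]; group
      _ = _ := by rw [h.zinv hx, ← e]; group
  have e2 : a * a = a * m * a⁻¹ * m⁻¹ := by
    calc _ = a * m * (m⁻¹ * a) := by group
      _ = _ := by rw [e1]; group
  have e3 : a * a = 1 := h.cz (e2 ▸ mul_mem (cj haN hm) (inv_mem hm)) (by
    rw [mul_assoc, ea, ← mul_assoc, ea, mul_assoc])
  rcases h.uA haN ea e3 with rfl | rfl
  · by_contra x1
    exact hc (h.ti c x hx x1 (by rw [e, mul_one]; exact hm))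
  · refine h.sq1 hx ?_
    calc _ = c⁻¹ * (c * x * c⁻¹ * (c * x * c⁻¹)) * c := by group
      _ = 1 := by rw [e, (h.mz hm).1]; group

theorem free {g x : G} (hg : g ∉ normalizer (M : Set G)) (hx : x ∈ M)
    (hy : g⁻¹ * x * g ∈ normalizer (M : Set G)) : x = 1 := by
  obtain ⟨m, hm, c, hc, ec, n, hn, rfl⟩ := h.dec hg
  have := h.free0 hc ec (cj' (le_normalizer hm) hx) (by
    have c2 := inv_self (h.cent hc ec)
    have := mul_mem (mul_mem (le_normalizer hn) hy) (inv_mem (le_normalizer hn))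
    rw [show n * ((m * c * n)⁻¹ * x * (m * c * n)) * n⁻¹ = c⁻¹ * (m⁻¹ * x * m) * c by group] at this
    rw [c2] at this ⊢
    exact this)
  calc x = m * (m⁻¹ * x * m) * m⁻¹ := by group
    _ = 1 := by rw [this]; group

theorem frob {c : G} (hc : c ∉ normalizer (M : Set G)) (ec : c * z = z * c) {g k : G}
    (hg : g ∈ normalizer (M : Set G)) (hk : k ∈ M) (k1 : k ≠ 1) (e : g * k = k * g) : g ∈ M := by
  obtain ⟨m, hm, a, ea, rfl⟩ := h.fac _ hg
  have haN := h.memA hm hg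
  have e1 : a * k * a⁻¹ = k := by
    calc _ = m⁻¹ * (m * a * k) * a⁻¹ := by group
      _ = m⁻¹ * (k * m) := by rw [e]; group
      _ = k := by rw [h.comm hk hm]; group
  obtain ⟨m1, h1, d, hd, ed, m2, h2, e2⟩ := h.dec (g := c * k * c⁻¹) (fun e => k1 (h.free0 hc ec hk e))
  have e3 : a * (c * k * c⁻¹) * a⁻¹ = c * k * c⁻¹ := by
    have e4 := h.cinv hc ec (inv_mem haN) (by rw [inv_mul_eq_iff_eq_mul, ← mul_assoc, ea]; group)
    rw [inv_inv] at e4
    calc _ = c * a⁻¹ * c⁻¹ * (c * (a * k * a⁻¹) * c⁻¹) * (c * a⁻¹ * c⁻¹)⁻¹ := by rw [e4, e1]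
      _ = _ := by group
  have e5 := (h.dec_uniq h1 h2 (cj haN h1) (cj haN h2) hd ed (c' := a * d * a⁻¹) (by
    calc _ = a * d * (a⁻¹ * (z * a) * a⁻¹) := by group
      _ = a * (d * z) * a⁻¹ := by rw [← ea]; group
      _ = (a * z) * d * a⁻¹ := by rw [ed]; group
      _ = _ := by rw [ea]; group) (by rw [← e2, ← e3, e2]; group)).2.1
  have e6 : a * a = 1 := by
    have e7 := h.cinv hd ed (inv_mem haN) (by rw [inv_mul_eq_iff_eq_mul, ← mul_assoc, ea]; group)
    calc a * a = a * (d * a⁻¹ * d⁻¹) := by rw [e7, inv_inv]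
      _ = (a * d * a⁻¹) * d⁻¹ := by group
      _ = 1 := by rw [← e5]; group
  rw [h.odd k hk k1 a e6 (mul_inv_eq_iff_eq_mul.1 e1), mul_one]
  exact hm

end Hyp

end H17.TI
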